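import Mathlib
import Cfsg.Prelude.Def_LieTypeDatum
import Cfsg.Prelude.Def_KGroupFacts
import Cfsg.Agent.Lib.Helper14.AutOP
import Cfsg.Agent.Lib.Helper44.PgoInst
import Cfsg.Agent.Lib.Helper44.PsoAut
import Cfsg.Agent.Lib.Helper44.Dickson
import Cfsg.Agent.Lib.Helper43.AutPSL2.Main

/-!
# The order of `Aut(PΩ⁻)`
-/

set_option autoImplicit false

namespace Cfsg.Agent.Lib.Helper14

open Matrix Module

section counting

theorem card_ringAut {F : Type*} [Field F] [Fintype F] {p f : ℕ} [Fact p.Prime]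
    (hF : Fintype.card F = p ^ f) : Nat.card (RingAut F) = f := by
  obtain ⟨e⟩ := Cfsg.Agent.Lib.Helper43.AutPSL2.exists_ringAut_equiv (F := F) hF
  rw [Nat.card_congr e.toEquiv, Nat.card_congr Multiplicative.toAdd, Nat.card_zmod]

theorem card_of_hom_ker {G K : Type*} [Group G] [Group K] (N H : Subgroup G) (hle : N ≤ H)
    (φ : ↥H →* K) (hφ : Function.Surjective φ) (hker : φ.ker = N.subgroupOf H) :
    Nat.card ↥H = Nat.card K * Nat.card ↥N := by
  have h1 := Subgroup.card_mul_index φ.ker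
  rw [Subgroup.index_ker, hker] at h1
  have h2 : Nat.card ↥φ.range = Nat.card K := by
    rw [MonoidHom.range_eq_top.mpr hφ]
    exact Nat.card_congr Subgroup.topEquiv.toEquiv
  have h3 : Nat.card ↥(N.subgroupOf H) = Nat.card ↥N :=
    Nat.card_congr (Subgroup.subgroupOfEquivOfLe hle).toEquiv
  rw [← h1, h2, h3, mul_comm]

variable {ι : Type} [Fintype ι] [DecidableEq ι] {F : Type*} [Field F] [Fintype F]

/-- `PΩ(Q)` has trivial centre. -/
theorem conj_injective_POmega (Q : QuadraticForm F (ι → F))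
    (hQ : (QuadraticMap.polarBilin Q).Nondegenerate) (hn : 7 ≤ Fintype.card ι) :
    Function.Injective (MulAut.conj : Cfsg.POmega F ⇑Q →* MulAut (Cfsg.POmega F ⇑Q)) := by
  obtain ⟨E, hE, hE0⟩ := exists_ts3 Q hQ hn
  rw [injective_iff_map_eq_one]
  intro x hx
  obtain ⟨s, rfl⟩ := QuotientGroup.mk_surjective x
  have h1 : Cfsg.Agent.Lib.Helper44.isomAut ⇑Q (s : ↥(Cfsg.isometryGroup F ⇑Q)) = 1 := by
    apply MulEquiv.ext
    intro q
    obtain ⟨t, rfl⟩ := QuotientGroup.mk_surjective q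
    rw [Cfsg.Agent.Lib.Helper44.isomAut_mk, MulAut.one_apply]
    have h3 := congrArg (fun β : MulAut (Cfsg.POmega F ⇑Q) => β (QuotientGroup.mk t)) hx
    simp only [MulAut.conj_apply, MulAut.one_apply] at h3
    have e : MulAut.conjNormal (s : ↥(Cfsg.isometryGroup F ⇑Q)) t = s * t * s⁻¹ :=
      Subtype.ext (by rw [MulAut.conjNormal_apply]; rfl)
    rw [e]
    exact h3
  have h2 := Cfsg.Agent.Lib.Helper44.scalar_of_isomAut_eq_one Q hQ E hE hE0 _ h1
  have hz : s ∈ Subgroup.center ↥(Cfsg.Omega F ⇑Q) := by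
    rcases h2 with h | h
    · exact mem_center_of_omat_smul Q s 1 (by rw [one_smul]; exact h)
    · exact mem_center_of_omat_smul Q s (-1) (by rw [neg_one_smul]; exact h)
  exact (QuotientGroup.eq_one_iff s).mpr hz

theorem card_inn_POmega (Q : QuadraticForm F (ι → F))
    (hQ : (QuadraticMap.polarBilin Q).Nondegenerate) (hn : 7 ≤ Fintype.card ι) :
    Nat.card ↥(Cfsg.Inn (Cfsg.POmega F ⇑Q)) = Nat.card (Cfsg.POmega F ⇑Q) :=
  (Nat.card_congr (MonoidHom.ofInjective (conj_injective_POmega Q hQ hn)).toEquiv).symm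

/-- Characteristic two: the isometry group acts faithfully on `PΩ(Q)`. -/
theorem isomAut_injective_char2 (h2 : (2 : F) = 0) (Q : QuadraticForm F (ι → F))
    (hQ : (QuadraticMap.polarBilin Q).Nondegenerate) (hn : 7 ≤ Fintype.card ι) :
    Function.Injective (Cfsg.Agent.Lib.Helper44.isomAut ⇑Q) := by
  obtain ⟨E, hE, hE0⟩ := exists_ts3 Q hQ hn
  have hneg : (-1 : Matrix ι ι F) = 1 := by
    rw [neg_eq_iff_add_eq_zero, ← two_smul F (1 : Matrix ι ι F), h2, zero_smul]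
  rw [injective_iff_map_eq_one]
  intro g hg
  have h := Cfsg.Agent.Lib.Helper44.scalar_of_isomAut_eq_one Q hQ E hE hE0 g hg
  rw [hneg, or_self] at h
  exact isom_ext h

/-- Characteristic two: the similarities and the isometries induce the same automorphisms. -/
theorem range_simAut_char2 (h2 : (2 : F) = 0) (Q : QuadraticForm F (ι → F))
    (hQ : (QuadraticMap.polarBilin Q).Nondegenerate) :
    (Cfsg.Agent.Lib.Helper44.simAut ⇑Q).range = (Cfsg.Agent.Lib.Helper44.isomAut ⇑Q).range := by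
  apply le_antisymm
  · rintro _ ⟨g, rfl⟩
    obtain ⟨c, hc⟩ := g.2
    have : CharP F 2 := CharTwo.of_one_ne_zero_of_two_eq_zero one_ne_zero h2
    obtain ⟨e, he⟩ := FiniteField.isSquare_of_char_two (ringChar.eq F 2) (c : F)
    have he0 : e ≠ 0 := by
      rintro rfl
      exact c.ne_zero (by rw [he, mul_zero])
    have hA : ∀ x, Q ((e⁻¹ • ((g : GL ι F) : Matrix ι ι F)) *ᵥ x) = Q x := by
      intro x
      rw [smul_mulVec, QuadraticMap.map_smul, hc, he, smul_eq_mul]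
      field_simp
    refine ⟨mkIsom Q hQ _ hA, ?_⟩
    apply MulEquiv.ext
    intro q
    obtain ⟨s, rfl⟩ := QuotientGroup.mk_surjective q
    rw [Cfsg.Agent.Lib.Helper44.isomAut_mk, Cfsg.Agent.Lib.Helper44.simAut_mk]
    have e1 : MulAut.conjNormal (mkIsom Q hQ _ hA) s =
        Cfsg.Agent.Lib.Helper44.autCommutator ↥(Cfsg.isometryGroup F ⇑Q)
          (Cfsg.Agent.Lib.Helper44.simConjHom ⇑Q g) s := by
      apply Subtype.ext
      apply isom_ext
      rw [Cfsg.Agent.Lib.Helper44.conjNormal_coe, Cfsg.Agent.Lib.Helper44.simConj_coe, mkIsom_coe]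
      obtain ⟨h, hh⟩ : ∃ h : GL ι F, h = ((mkIsom Q hQ _ hA : ↥(Cfsg.isometryGroup F ⇑Q)) :
          GL ι F) := ⟨_, rfl⟩
      have hcoe : (h : Matrix ι ι F) = e⁻¹ • ((g : GL ι F) : Matrix ι ι F) := by
        rw [hh, mkIsom_coe]
      rw [← hh]
      have hinv : (h : Matrix ι ι F) * ((h⁻¹ : GL ι F) : Matrix ι ι F) = 1 := by
        rw [← Units.val_mul, mul_inv_cancel, Units.val_one]
      have hinv' : ((h⁻¹ : GL ι F) : Matrix ι ι F) * (h : Matrix ι ι F) = 1 := by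
        rw [← Units.val_mul, inv_mul_cancel, Units.val_one]
      have hginv : ((((g : GL ι F))⁻¹ : GL ι F) : Matrix ι ι F) * ((g : GL ι F) : Matrix ι ι F) = 1 := by
        rw [← Units.val_mul, inv_mul_cancel, Units.val_one]
      obtain ⟨S, hS⟩ : ∃ S : Matrix ι ι F, S =
          (((s : ↥(Cfsg.isometryGroup F ⇑Q)) : GL ι F) : Matrix ι ι F) := ⟨_, rfl⟩
      rw [← hS]
      have key : (e⁻¹ • ((g : GL ι F) : Matrix ι ι F) * S * ((h⁻¹ : GL ι F) : Matrix ι ι F)) *
          (h : Matrix ι ι F) = (((g : GL ι F) : Matrix ι ι F) * S *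
            ((((g : GL ι F))⁻¹ : GL ι F) : Matrix ι ι F)) * (h : Matrix ι ι F) := by
        rw [mul_assoc, hinv', mul_one, hcoe, Matrix.mul_smul, mul_assoc, hginv, mul_one,
          Matrix.smul_mul]
      calc e⁻¹ • ((g : GL ι F) : Matrix ι ι F) * S * ((h⁻¹ : GL ι F) : Matrix ι ι F)
          = (e⁻¹ • ((g : GL ι F) : Matrix ι ι F) * S * ((h⁻¹ : GL ι F) : Matrix ι ι F)) *
            ((h : Matrix ι ι F) * ((h⁻¹ : GL ι F) : Matrix ι ι F)) := by rw [hinv, mul_one]
        _ = (((g : GL ι F) : Matrix ι ι F) * S *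
            ((((g : GL ι F))⁻¹ : GL ι F) : Matrix ι ι F)) *
            ((h : Matrix ι ι F) * ((h⁻¹ : GL ι F) : Matrix ι ι F)) := by
          rw [← mul_assoc, key, mul_assoc]
        _ = _ := by rw [hinv, mul_one]
    rw [e1]
  · rintro _ ⟨h, rfl⟩
    exact ⟨⟨(h : GL ι F), Cfsg.Agent.Lib.Helper44.isometryGroup_le_sim ⇑Q h.2⟩,
      Cfsg.Agent.Lib.Helper44.simAut_incl ⇑Q h⟩

/-- Characteristic two: `PGO(Q)` contains `Inn(PΩ(Q))` with index two. -/
theorem card_pgoAut_char2 (h2 : (2 : F) = 0) (Q : QuadraticForm F (ι → F))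
    (hQ : (QuadraticMap.polarBilin Q).Nondegenerate) (hn : 7 ≤ Fintype.card ι)
    (hne : ∃ v, Q v ≠ 0) :
    Nat.card ↥(Cfsg.pgoAut F ⇑Q) = 2 * Nat.card ↥(Cfsg.Inn (Cfsg.POmega F ⇑Q)) := by
  have hinj := isomAut_injective_char2 h2 Q hQ hn
  rw [Cfsg.Agent.Lib.Helper44.pgoAut_eq_range, range_simAut_char2 h2 Q hQ,
    Cfsg.Agent.Lib.Helper44.inn_eq_map]
  have c1 : Nat.card ↥(Cfsg.Agent.Lib.Helper44.isomAut ⇑Q).range =
      Nat.card ↥(Cfsg.isometryGroup F ⇑Q) :=
    (Nat.card_congr (MonoidHom.ofInjective hinj).toEquiv).symm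
  have c2 : Nat.card ↥((Cfsg.Omega F ⇑Q).map (Cfsg.Agent.Lib.Helper44.isomAut ⇑Q)) =
      Nat.card ↥(Cfsg.Omega F ⇑Q) := Subgroup.card_map_of_injective hinj
  have c3 := Subgroup.card_mul_index (Cfsg.Omega F ⇑Q)
  have c4 : (Cfsg.Omega F ⇑Q).index = 2 :=
    Cfsg.Agent.Lib.Helper44.index_commutator_char2 h2 Q hQ (Or.inr (by omega)) hne
  rw [c1, c2, ← c3, c4, mul_comm]

end counting

section minusCount

variable {F : Type*} [Field F] [Fintype F]

theorem minus_card_idx (k : ℕ) : Fintype.card ((Fin k ⊕ Fin k) ⊕ Fin 2) = 2 * k + 2 := by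
  simp only [Fintype.card_sum, Fintype.card_fin]
  omega

/-- `Aut(PΩ⁻_{2k+2}(F))` is generated by the semisimilarities (`k ≥ 3`). -/
theorem minus_gamma_top (k : ℕ) (hk : 3 ≤ k) (a b : F)
    (hab : ∀ z₁ z₂ : F, z₁ ^ 2 + a * z₁ * z₂ + b * z₂ ^ 2 = 0 → z₁ = 0 ∧ z₂ = 0) :
    Cfsg.gammaPOmega F ⇑(minusQF k F a b) = ⊤ := by
  have hbig : 9 ≤ Fintype.card ((Fin k ⊕ Fin k) ⊕ Fin 2) ∨ NoTS4 (minusQF k F a b) := by
    by_cases h4 : 4 ≤ k
    · left
      rw [minus_card_idx]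
      omega
    · right
      have hm3 : k = 3 := by omega
      subst hm3
      exact noTS4_minus F a b hab
  exact gammaPOmega_eq_top (minusQF k F a b)
    (Cfsg.Agent.Lib.Helper44.minusQF_nondegenerate_all k F a b hab)
    (by rw [minus_card_idx]; omega) hbig

theorem minus_exists_nonsing (k : ℕ) (a b : F) : ∃ v, minusQF k F a b v ≠ 0 := by
  refine ⟨Pi.single (Sum.inr 0) 1, ?_⟩
  rw [minusQF_coe]
  simp [Cfsg.quadFormMinus]

/-- `|Aut(PΩ⁻_{2k+2}(q))|`, `k ≥ 3`. -/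
theorem card_aut_minus (p f : ℕ) [Fact p.Prime] (hF : Fintype.card F = p ^ f) (k : ℕ)
    (hk : 3 ≤ k) (a b : F)
    (hab : ∀ z₁ z₂ : F, z₁ ^ 2 + a * z₁ * z₂ + b * z₂ ^ 2 = 0 → z₁ = 0 ∧ z₂ = 0) :
    Nat.card (MulAut (Cfsg.POmega F (Cfsg.quadFormMinus k F a b))) =
      (if p = 2 then 2 else (if Even k ∧ p ^ f % 4 = 3 then 8 else 4)) * f *
        Nat.card (Cfsg.POmega F (Cfsg.quadFormMinus k F a b)) := by
  have hQ := Cfsg.Agent.Lib.Helper44.minusQF_nondegenerate_all k F a b hab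
  have hAut := minus_gamma_top k hk a b hab
  have hn7 : 7 ≤ Fintype.card ((Fin k ⊕ Fin k) ⊕ Fin 2) := by
    rw [minus_card_idx]
    omega
  have hex : ∀ σ : RingAut F, ∃ g : GL ((Fin k ⊕ Fin k) ⊕ Fin 2) F,
      Cfsg.IsSemisimilarityPair ⇑(minusQF k F a b) g σ := by
    rw [minusQF_coe]
    exact minus_exists_semisim k a b hab
  have h1 := card_aut_eq (minusQF k F a b) hQ (by omega) hAut hex
  have h2 := card_inn_POmega (minusQF k F a b) hQ hn7
  rw [card_ringAut hF] at h1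
  have h3 : Nat.card ↥(Cfsg.pgoAut F ⇑(minusQF k F a b)) =
      (if p = 2 then 2 else (if Even k ∧ p ^ f % 4 = 3 then 8 else 4)) *
        Nat.card ↥(Cfsg.Inn (Cfsg.POmega F ⇑(minusQF k F a b))) := by
    have hch : CharP F p := charP_of_card_eq_prime_pow hF
    by_cases hp : p = 2
    · rw [if_pos hp]
      subst hp
      exact card_pgoAut_char2 CharTwo.two_eq_zero _ hQ hn7 (minus_exists_nonsing k a b)
    · rw [if_neg hp]
      have hodd : Odd (Fintype.card F) := by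
        rw [hF]
        exact Odd.pow ((Fact.out : p.Prime).odd_of_ne_two hp)
      have hle : Cfsg.Inn (Cfsg.POmega F (Cfsg.quadFormMinus k F a b)) ≤
          Cfsg.pgoAut F (Cfsg.quadFormMinus k F a b) :=
        (Cfsg.Agent.Lib.Helper44.inn_le_psoAut _).trans
          (Cfsg.Agent.Lib.Helper44.psoAut_le_pgoAut _)
      rw [minusQF_coe]
      by_cases hc : Even k ∧ p ^ f % 4 = 3
      · rw [if_pos hc]
        obtain ⟨φ, hφ, hker⟩ := Cfsg.Agent.Lib.Helper44.minus_pgo_inn_dihedral hodd k hk a b hab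
          (by rw [hF]; exact hc)
        rw [card_of_hom_ker _ _ hle φ hφ hker, DihedralGroup.nat_card]
      · rw [if_neg hc]
        obtain ⟨φ, hφ, hker⟩ := Cfsg.Agent.Lib.Helper44.minus_pgo_inn_klein hodd k hk a b hab
          (by rw [hF]; exact hc)
        rw [card_of_hom_ker _ _ hle φ hφ hker, Nat.card_congr Multiplicative.toAdd,
          Nat.card_prod, Nat.card_zmod]
  rw [h3, h2, minusQF_coe] at h1
  rw [h1]
  ring

end minusCount

end Cfsg.Agent.Lib.Helper14
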