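import Mathlib
import Cfsg.Prelude.Def_LieTypeDatum
import Cfsg.Prelude.Def_KGroupFacts
import Cfsg.Agent.Lib.Helper14.AutOQ

/-!
# `Out(PΩ⁻)` in characteristic two

The Frobenius semisimilarity of the minus-type form generates the outer automorphism group: its
`f`-th power is an orthogonal transvection, which is not in `Ω`.
-/

set_option autoImplicit false

namespace Cfsg.Agent.Lib.Helper14

open Matrix Module

section artinSchreier

variable {F : Type*} [Field F] [Fintype F] [CharP F 2]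

/-- The Artin–Schreier map `x ↦ x² + x`. -/
def asHom (F : Type*) [Field F] [CharP F 2] : F →+ F where
  toFun x := x * x + x
  map_zero' := by ring
  map_add' x y := by
    rw [CharTwo.add_mul_self]
    ring

omit [Fintype F] in
theorem asHom_apply (x : F) : asHom F x = x * x + x := rfl

omit [Fintype F] in
theorem asHom_ker_card : Nat.card ↥(asHom F).ker = 2 := by
  have h2 : (2 : F) = 0 := CharTwo.two_eq_zero
  rw [Nat.card_eq_two_iff]
  refine ⟨⟨0, by rw [AddMonoidHom.mem_ker, asHom_apply]; ring⟩,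
    ⟨1, by rw [AddMonoidHom.mem_ker, asHom_apply]; linear_combination h2⟩, ?_, ?_⟩
  · intro h
    exact zero_ne_one (congrArg Subtype.val h)
  · ext ⟨x, hx⟩
    simp only [Set.mem_insert_iff, Set.mem_singleton_iff, Set.mem_univ, iff_true]
    rw [AddMonoidHom.mem_ker, asHom_apply] at hx
    have h3 : x * (x + 1) = 0 := by linear_combination hx
    rcases mul_eq_zero.mp h3 with h | h
    · left
      exact Subtype.ext h
    · right
      apply Subtype.ext
      show x = 1
      linear_combination h - h2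

theorem asHom_index : (asHom F).range.index = 2 := by
  have h1 := AddSubgroup.card_mul_index (asHom F).ker
  have h2 := AddSubgroup.card_mul_index (asHom F).range
  have h3 : (asHom F).ker.index = Nat.card (asHom F).range := AddSubgroup.index_ker _
  rw [h3, ← h2, mul_comm] at h1
  have hpos : 0 < Nat.card (asHom F).range := Nat.card_pos
  rw [← asHom_ker_card (F := F)]
  exact (Nat.eq_of_mul_eq_mul_left hpos h1).symm

/-- The partial trace `Σ_{j<n} x^(2^j)`. -/
def trSum (n : ℕ) (x : F) : F := ∑ j ∈ Finset.range n, x ^ (2 ^ j)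

omit [Fintype F] in
theorem trSum_add (n : ℕ) (x y : F) : trSum n (x + y) = trSum n x + trSum n y := by
  unfold trSum
  rw [← Finset.sum_add_distrib]
  apply Finset.sum_congr rfl
  intro j _
  exact add_pow_char_pow x y 2 j

omit [Fintype F] in
theorem trSum_as (n : ℕ) (x : F) : trSum n (x * x + x) = x ^ (2 ^ n) + x := by
  have h2 : (2 : F) = 0 := CharTwo.two_eq_zero
  induction n with
  | zero =>
    unfold trSum
    rw [Finset.range_zero, Finset.sum_empty, pow_zero, pow_one]
    linear_combination -x * h2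
  | succ n ih =>
    unfold trSum at ih ⊢
    rw [Finset.sum_range_succ, ih]
    have h3 : (x * x + x) ^ (2 ^ n) = x ^ (2 ^ (n + 1)) + x ^ (2 ^ n) := by
      rw [add_pow_char_pow, ← pow_two, ← pow_mul, ← pow_succ']
    rw [h3]
    linear_combination (x ^ 2 ^ n) * h2

theorem trSum_ne_zero {f : ℕ} (hf : 1 ≤ f) (hF : Fintype.card F = 2 ^ f) (t : F)
    (ht : t ∉ (asHom F).range) : trSum f t ≠ 0 := by
  intro h0
  have hr : ∀ z ∈ (asHom F).range, trSum f z = 0 := by
    rintro _ ⟨x, rfl⟩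
    rw [asHom_apply, trSum_as, ← hF, FiniteField.pow_card]
    exact CharTwo.add_self_eq_zero x
  have hall : ∀ y : F, trSum f y = 0 := by
    intro y
    by_cases hy : y ∈ (asHom F).range
    · exact hr y hy
    · have h1 := (AddSubgroup.add_mem_iff_of_index_two (asHom_index (F := F)) (a := y)
        (b := t)).mpr (by tauto)
      have h2 := hr _ h1
      rw [trSum_add, h0, add_zero] at h2
      exact h2
  obtain ⟨P, hP⟩ : ∃ P : Polynomial F, P = ∑ j ∈ Finset.range f, Polynomial.X ^ (2 ^ j) :=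
    ⟨_, rfl⟩
  have hP0 : P = 0 := by
    apply Polynomial.eq_zero_of_natDegree_lt_card_of_eval_eq_zero' P Finset.univ
    · intro y _
      rw [hP]
      simp only [Polynomial.eval_finset_sum, Polynomial.eval_pow, Polynomial.eval_X]
      exact hall y
    · rw [Finset.card_univ, hF]
      calc P.natDegree ≤ 2 ^ (f - 1) := by
            rw [hP]
            apply Polynomial.natDegree_sum_le_of_forall_le
            intro j hj
            rw [Polynomial.natDegree_X_pow]
            exact Nat.pow_le_pow_right (by norm_num) (by have := Finset.mem_range.mp hj; omega)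
        _ < 2 ^ f := Nat.pow_lt_pow_right (by norm_num) (by omega)
  have hc : P.coeff 1 = 1 := by
    rw [hP]
    simp only [Polynomial.finset_sum_coeff, Polynomial.coeff_X_pow]
    rw [Finset.sum_eq_single 0]
    · simp
    · intro j _ hj
      rw [if_neg]
      intro h1
      have : 2 ∣ 2 ^ j := dvd_pow_self 2 hj
      omega
    · intro h
      exfalso
      exact h (Finset.mem_range.mpr (by omega))
  rw [hP0, Polynomial.coeff_zero] at hc
  exact zero_ne_one hc

end artinSchreier

section twistPow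

variable {F : Type*} [Field F]

theorem twistMat_map (m : ℕ) (c d : F) (σ : RingAut F) :
    (twistMat m c d).map σ = twistMat m (σ c) (σ d) := by
  unfold twistMat
  rw [Matrix.fromBlocks_map]
  congr 1
  · ext i j
    simp [Matrix.one_apply, apply_ite]
  · ext i j
    simp
  · ext i j
    simp
  · ext i j
    fin_cases i <;> fin_cases j <;> simp

theorem twistMat_one (m : ℕ) : twistMat m (0 : F) 1 = 1 := by
  unfold twistMat
  rw [← Matrix.one_fin_two, Matrix.fromBlocks_one]

theorem twistMat_sub_one_rank (k : ℕ) (X : F) (hX : X ≠ 0) : (twistMat k X 1 - 1).rank = 1 := by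
  have hmv : ∀ v, (twistMat k X 1 - 1) *ᵥ v =
      (X * v (Sum.inr 1)) • Pi.single (Sum.inr 0) 1 := by
    intro v
    rw [sub_mulVec, twistMat_mulVec, one_mulVec]
    funext j
    rcases j with i | t
    · simp
    · fin_cases t <;> simp
  unfold Matrix.rank
  have hr : LinearMap.range (twistMat k X 1 - 1).mulVecLin =
      Submodule.span F {Pi.single (Sum.inr 0) (1 : F)} := by
    apply le_antisymm
    · rintro _ ⟨v, rfl⟩
      rw [Matrix.mulVecLin_apply, hmv]
      exact Submodule.smul_mem _ _ (Submodule.mem_span_singleton_self _)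
    · rw [Submodule.span_singleton_le_iff_mem]
      refine ⟨X⁻¹ • Pi.single (Sum.inr 1) 1, ?_⟩
      rw [Matrix.mulVecLin_apply, hmv]
      simp [hX]
  rw [hr, finrank_span_singleton]
  intro h
  have := congrFun h (Sum.inr 0)
  simp at this

end twistPow

section frobPair

variable {F : Type*} [Field F] [Fintype F] [CharP F 2]

/-- The Frobenius semisimilarity of the minus-type form in characteristic two. -/
noncomputable def frobPair (k : ℕ) (a b : F) (ha : a ≠ 0) : ↥(semiSim ⇑(minusQF k F a b)) :=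
  ⟨⟨twistGL k b a ha, frobAut (F := F) 2⟩, by
    show Cfsg.IsSemisimilarityPair ⇑(minusQF k F a b) (twistGL k b a ha) (frobAut (F := F) 2)
    rw [minusQF_coe]
    exact minus_frob2 k a b ha⟩

theorem frobPair_pow (k : ℕ) (a b : F) (ha : a ≠ 0) (n : ℕ) :
    ((((frobPair k a b ha) ^ n : ↥(semiSim ⇑(minusQF k F a b))) :
        SemiGL ((Fin k ⊕ Fin k) ⊕ Fin 2) F).left :
        Matrix ((Fin k ⊕ Fin k) ⊕ Fin 2) ((Fin k ⊕ Fin k) ⊕ Fin 2) F) =
      twistMat k (a ^ (2 ^ n) * trSum n (b / a ^ 2)) (a ^ (2 ^ n - 1)) ∧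
    (((frobPair k a b ha) ^ n : ↥(semiSim ⇑(minusQF k F a b))) :
        SemiGL ((Fin k ⊕ Fin k) ⊕ Fin 2) F).right = frobAut (F := F) 2 ^ n := by
  induction n with
  | zero =>
    refine ⟨?_, rfl⟩
    rw [pow_zero, Subgroup.coe_one, SemidirectProduct.one_left, Units.val_one]
    unfold trSum
    rw [Finset.range_zero, Finset.sum_empty, mul_zero, pow_zero, Nat.sub_self, pow_zero,
      twistMat_one]
  | succ n ih =>
    obtain ⟨ih1, ih2⟩ := ih
    rw [pow_succ, Subgroup.coe_mul]
    constructor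
    · rw [SemidirectProduct.mul_left, Units.val_mul, ih1, glAut_apply, glMap_coe, ih2]
      have e : (((frobPair k a b ha : ↥(semiSim ⇑(minusQF k F a b))) :
          SemiGL ((Fin k ⊕ Fin k) ⊕ Fin 2) F).left :
          Matrix ((Fin k ⊕ Fin k) ⊕ Fin 2) ((Fin k ⊕ Fin k) ⊕ Fin 2) F) = twistMat k b a := rfl
      rw [e, twistMat_map, twistMat_mul, frobAut_pow_apply, frobAut_pow_apply]
      congr 1
      · unfold trSum
        rw [Finset.sum_range_succ]
        have h3 : (b / a ^ 2) ^ (2 ^ n) = b ^ (2 ^ n) / a ^ (2 ^ (n + 1)) := by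
          rw [div_pow, ← pow_mul, ← pow_succ']
        have h4 : a ^ (2 ^ (n + 1)) = a ^ (2 ^ n) * a ^ (2 ^ n) := by
          rw [← pow_add, pow_succ, mul_two]
        have h5 : a ^ (2 ^ (n + 1)) ≠ 0 := pow_ne_zero _ ha
        rw [h3, mul_add, mul_div_cancel₀ _ h5, h4]
        ring
      · rw [← pow_add]
        congr 1
        have := Nat.one_le_two_pow (n := n)
        rw [pow_succ]
        omega
    · rw [SemidirectProduct.mul_right, ih2, pow_succ]
      rfl

theorem frobPair_pow_card {f : ℕ} (hF : Fintype.card F = 2 ^ f) (k : ℕ) (a b : F) (ha : a ≠ 0) :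
    ((((frobPair k a b ha) ^ f : ↥(semiSim ⇑(minusQF k F a b))) :
        SemiGL ((Fin k ⊕ Fin k) ⊕ Fin 2) F).left :
        Matrix ((Fin k ⊕ Fin k) ⊕ Fin 2) ((Fin k ⊕ Fin k) ⊕ Fin 2) F) =
      twistMat k (a * trSum f (b / a ^ 2)) 1 ∧
    (((frobPair k a b ha) ^ f : ↥(semiSim ⇑(minusQF k F a b))) :
        SemiGL ((Fin k ⊕ Fin k) ⊕ Fin 2) F).right = 1 := by
  obtain ⟨h1, h2⟩ := frobPair_pow k a b ha f
  constructor
  · rw [h1, ← hF, FiniteField.pow_card, FiniteField.pow_card_sub_one_eq_one a ha]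
  · rw [h2]
    apply RingEquiv.ext
    intro x
    rw [frobAut_pow_apply, ← hF, FiniteField.pow_card]
    rfl

theorem orderOf_frobAut2 {f : ℕ} (hF : Fintype.card F = 2 ^ f) :
    orderOf (frobAut (F := F) 2) = f := by
  have htop : Subgroup.zpowers (frobAut (F := F) 2) = ⊤ := by
    rw [eq_top_iff]
    intro σ _
    obtain ⟨n, rfl⟩ := exists_frobAut_pow 2 σ
    exact Subgroup.npow_mem_zpowers _ n
  rw [← Nat.card_zpowers, htop, Nat.card_congr Subgroup.topEquiv.toEquiv, card_ringAut hF]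

end frobPair

section outMinus

variable {F : Type*} [Field F] [Fintype F] [CharP F 2]

/-- `Out(PΩ⁻_{2k+2}(2^f))` is cyclic of order `2f` (`k ≥ 3`). -/
theorem out_minus_char2 {f : ℕ} (hf : 1 ≤ f) (hF : Fintype.card F = 2 ^ f) (k : ℕ) (hk : 3 ≤ k)
    (a b : F)
    (hab : ∀ z₁ z₂ : F, z₁ ^ 2 + a * z₁ * z₂ + b * z₂ ^ 2 = 0 → z₁ = 0 ∧ z₂ = 0) :
    IsCyclic (Cfsg.Out (Cfsg.POmega F (Cfsg.quadFormMinus k F a b))) ∧
      Nat.card (Cfsg.Out (Cfsg.POmega F (Cfsg.quadFormMinus k F a b))) = 2 * f := by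
  have h2 : (2 : F) = 0 := CharTwo.two_eq_zero
  have ha : a ≠ 0 := Cfsg.Agent.Lib.Helper44.minus_coeff_ne_zero_char2 F h2 a b hab
  have hQ := Cfsg.Agent.Lib.Helper44.minusQF_nondegenerate_all k F a b hab
  have hAut := minus_gamma_top k hk a b hab
  have hn7 : 7 ≤ Fintype.card ((Fin k ⊕ Fin k) ⊕ Fin 2) := by
    rw [minus_card_idx]
    omega
  have hn5 : 5 ≤ Fintype.card ((Fin k ⊕ Fin k) ⊕ Fin 2) := by omega
  have hcardAut := card_aut_minus 2 f hF k hk a b hab
  rw [if_pos rfl] at hcardAut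
  rw [← minusQF_coe]
  rw [← minusQF_coe] at hcardAut
  have hInn := card_inn_POmega (minusQF k F a b) hQ hn7
  have hidx : Nat.card (Cfsg.Out (Cfsg.POmega F ⇑(minusQF k F a b))) = 2 * f := by
    have h1 := Subgroup.card_mul_index (Cfsg.Inn (Cfsg.POmega F ⇑(minusQF k F a b)))
    rw [hcardAut, hInn] at h1
    have hpos : 0 < Nat.card (Cfsg.POmega F ⇑(minusQF k F a b)) := Nat.card_pos
    show (Cfsg.Inn (Cfsg.POmega F ⇑(minusQF k F a b))).index = 2 * f
    apply Nat.eq_of_mul_eq_mul_left hpos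
    rw [h1]
    ring
  refine ⟨?_, hidx⟩
  obtain ⟨x₀, hx₀⟩ : ∃ x, x = frobPair k a b ha := ⟨_, rfl⟩
  obtain ⟨ξ, hξ⟩ : ∃ ξ : Cfsg.Out (Cfsg.POmega F ⇑(minusQF k F a b)),
      ξ = QuotientGroup.mk (semiAut ⇑(minusQF k F a b) x₀) := ⟨_, rfl⟩
  have hT : trSum f (b / a ^ 2) ≠ 0 := by
    apply trSum_ne_zero hf hF
    rintro ⟨e, he⟩
    rw [asHom_apply] at he
    have := hab (a * e) 1 (by
      have h3 : b = a ^ 2 * (e * e + e) := by
        rw [he]
        field_simp
      rw [h3]
      linear_combination (a ^ 2 * (e * e + e)) * h2)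
    exact one_ne_zero this.2
  obtain ⟨X, hX⟩ : ∃ X, X = a * trSum f (b / a ^ 2) := ⟨_, rfl⟩
  have hX0 : X ≠ 0 := by
    rw [hX]
    exact mul_ne_zero ha hT
  obtain ⟨y, hy⟩ : ∃ y, y = x₀ ^ f := ⟨_, rfl⟩
  obtain ⟨hyl, hyr⟩ := frobPair_pow_card hF k a b ha
  rw [← hx₀, ← hy, ← hX] at hyl
  rw [← hx₀, ← hy] at hyr
  have hyy : y * y = 1 := by
    apply Subtype.ext
    apply SemidirectProduct.ext
    · rw [Subgroup.coe_mul, SemidirectProduct.mul_left, Subgroup.coe_one,
        SemidirectProduct.one_left, hyr]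
      apply Units.ext
      rw [Units.val_mul, glAut_apply, glMap_coe, map_one_eq, hyl, twistMat_mul, Units.val_one]
      have : X + X * 1 = 0 := by linear_combination X * h2
      rw [this, mul_one, twistMat_one]
    · rw [Subgroup.coe_mul, SemidirectProduct.mul_right, hyr, mul_one]
      rfl
  have hyiso : ((y : SemiGL ((Fin k ⊕ Fin k) ⊕ Fin 2) F).left) ∈
      Cfsg.isometryGroup F ⇑(minusQF k F a b) := by
    rw [mem_isometryGroup_iff]
    obtain ⟨c, hc⟩ := y.2
    have hc' : ∀ v, minusQF k F a b (twistMat k X 1 *ᵥ v) = c * minusQF k F a b v := by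
      intro v
      have := hc v
      rw [hyr, hyl] at this
      exact this
    have h1 := hc' (Pi.single (Sum.inr 0) 1)
    rw [minusQF_coe] at h1 hc'
    rw [twistMat_mulVec] at h1
    simp [Cfsg.quadFormMinus] at h1
    intro v
    rw [hyl, minusQF_coe, hc', ← h1, one_mul]
  obtain ⟨N, hN⟩ : ∃ N : ↥(Cfsg.isometryGroup F ⇑(minusQF k F a b)), N = ⟨_, hyiso⟩ :=
    ⟨_, rfl⟩
  have hNmat : ((N : GL ((Fin k ⊕ Fin k) ⊕ Fin 2) F) :
      Matrix ((Fin k ⊕ Fin k) ⊕ Fin 2) ((Fin k ⊕ Fin k) ⊕ Fin 2) F) = twistMat k X 1 := by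
    rw [hN]
    exact hyl
  have hNnot : N ∉ Cfsg.Omega F ⇑(minusQF k F a b) := by
    intro hmem
    have := (Cfsg.Agent.Lib.Helper44.mem_commutator_iff_even_rank h2 (minusQF k F a b) hQ
      (Or.inr (by omega)) N).mp hmem
    rw [hNmat, twistMat_sub_one_rank k X hX0] at this
    exact Nat.not_even_one this
  have hyN : semiAut ⇑(minusQF k F a b) y =
      Cfsg.Agent.Lib.Helper44.isomAut ⇑(minusQF k F a b) N := by
    apply MulEquiv.ext
    intro q
    obtain ⟨s, rfl⟩ := QuotientGroup.mk_surjective q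
    rw [semiAut_mk, Cfsg.Agent.Lib.Helper44.isomAut_mk]
    have e1 : Cfsg.Agent.Lib.Helper44.autCommutator ↥(Cfsg.isometryGroup F ⇑(minusQF k F a b))
        (semiActO ⇑(minusQF k F a b) y) s = MulAut.conjNormal N s := by
      apply Subtype.ext
      apply isom_ext
      rw [semiAut_coe, Cfsg.Agent.Lib.Helper44.conjNormal_coe, hyr, map_one_eq, hN]
    rw [e1]
  have hynot : semiAut ⇑(minusQF k F a b) y ∉
      Cfsg.Inn (Cfsg.POmega F ⇑(minusQF k F a b)) := by
    intro hmem
    rw [hyN, Cfsg.Agent.Lib.Helper44.inn_eq_map] at hmem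
    obtain ⟨s, hs, hs2⟩ := hmem
    have := isomAut_injective_char2 h2 (minusQF k F a b) hQ hn7 hs2
    rw [this] at hs
    exact hNnot hs
  have hclaim : ∀ n : ℕ, ξ ^ n = 1 → 2 * f ∣ n := by
    intro n hn
    rw [hξ, ← QuotientGroup.mk_pow, ← map_pow, QuotientGroup.eq_one_iff] at hn
    have hker : semiAut ⇑(minusQF k F a b) (x₀ ^ n) ∈
        (typeHom (minusQF k F a b) hQ hn5 hAut).ker := by
      rw [typeHom_ker]
      exact ((Cfsg.Agent.Lib.Helper44.inn_le_psoAut _).trans
        (Cfsg.Agent.Lib.Helper44.psoAut_le_pgoAut _)) hn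
    rw [MonoidHom.mem_ker, typeHom_semiAut] at hker
    have hr := (frobPair_pow k a b ha n).2
    rw [← hx₀, hker] at hr
    have hdvd : f ∣ n := by
      rw [← orderOf_frobAut2 hF, orderOf_dvd_iff_pow_eq_one]
      exact hr.symm
    obtain ⟨j, rfl⟩ := hdvd
    rw [pow_mul, ← hy] at hn
    rcases Nat.even_or_odd j with hj | hj
    · obtain ⟨i, rfl⟩ := hj
      exact ⟨i, by ring⟩
    · exfalso
      obtain ⟨i, rfl⟩ := hj
      rw [pow_succ, pow_mul, pow_two, hyy, one_pow, one_mul] at hn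
      exact hynot hn
  apply isCyclic_of_orderOf_eq_card ξ
  rw [hidx]
  apply Nat.dvd_antisymm
  · apply orderOf_dvd_of_pow_eq_one
    rw [← hidx]
    exact pow_card_eq_one'
  · exact hclaim _ (pow_orderOf_eq_one ξ)

end outMinus

end Cfsg.Agent.Lib.Helper14
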