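import Mathlib

/-!
# Group-theoretic lemmas for outer automorphism groups

* an automorphism of odd order of the dihedral group of order eight is trivial;
* an extension of a cyclic group of odd order `f` by the dihedral group of order eight is
  `D₈ × C_f`;
* a criterion for a group to be `C₂ × C_{2f}`.
-/

set_option autoImplicit false

namespace Cfsg.Agent.Lib.Helper14

open DihedralGroup

theorem dihedral4_aut_odd (α : MulAut (DihedralGroup 4)) (f : ℕ) (hf : Odd f)
    (hα : α ^ f = 1) : α = 1 := by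
  have hinj : Function.Injective α := α.injective
  have hr3 : (r 3 : DihedralGroup 4) = (r 1) ^ 3 := by decide
  have hr : α (r 1) = r 1 := by
    have h4 : ∀ x : DihedralGroup 4, x ^ 4 = 1 → x ^ 2 ≠ 1 → x = r 1 ∨ x = r 3 := by decide
    have e1 : (α (r 1)) ^ 4 = 1 := by
      rw [← map_pow]
      have : (r 1 : DihedralGroup 4) ^ 4 = 1 := by decide
      rw [this, map_one]
    have e2 : (α (r 1)) ^ 2 ≠ 1 := by
      rw [← map_pow]
      intro h
      have h' : (r 1 : DihedralGroup 4) ^ 2 = 1 := hinj (by rw [h, map_one])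
      revert h'
      decide
    rcases h4 _ e1 e2 with h | h
    · exact h
    · exfalso
      have h3 : α (r 3) = r 1 := by
        rw [hr3, map_pow, h]
        decide
      have key : ∀ n : ℕ, (α ^ n) (r 1) = if Even n then r 1 else r 3 := by
        intro n
        induction n with
        | zero => simp
        | succ n ih =>
          rw [pow_succ', MulAut.mul_apply, ih]
          by_cases hn : Even n
          · rw [if_pos hn, if_neg (by rw [Nat.even_add_one]; exact not_not.mpr hn), h]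
          · rw [if_neg hn, if_pos (by rw [Nat.even_add_one]; exact hn), h3]
      have h5 := key f
      rw [hα, if_neg (Nat.not_even_iff_odd.mpr hf), MulAut.one_apply] at h5
      revert h5
      decide
  have hrj : ∀ j : ZMod 4, α (r j) = r j := by
    intro j
    have : (r j : DihedralGroup 4) = (r 1) ^ j.val := by
      rw [r_one_pow, ZMod.natCast_zmod_val]
    rw [this, map_pow, hr]
  have hs : α (sr 0) = sr 0 := by
    cases hx : α (sr 0) with
    | r j =>
      exfalso
      have h1 : α (sr 0) = α (r j) := by rw [hx, hrj]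
      have h2 := hinj h1
      exact absurd h2 (by simp)
    | sr i =>
      have key : ∀ n : ℕ, (α ^ n) (sr 0) = sr ((n : ZMod 4) * i) := by
        intro n
        induction n with
        | zero => simp
        | succ n ih =>
          rw [pow_succ', MulAut.mul_apply, ih]
          have e : (sr ((n : ZMod 4) * i) : DihedralGroup 4) = sr 0 * r ((n : ZMod 4) * i) := by
            rw [sr_mul_r, zero_add]
          rw [e, map_mul, hx, hrj, sr_mul_r]
          congr 1
          push_cast
          ring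
      have h5 := key f
      rw [hα, MulAut.one_apply] at h5
      have h6 : (f : ZMod 4) * i = 0 := by
        have := DihedralGroup.sr.inj h5
        exact this.symm
      have hfc : (f : ZMod 4) = 1 ∨ (f : ZMod 4) = 3 := by
        obtain ⟨t, rfl⟩ := hf
        have h8 : ((2 * t + 1 : ℕ) : ZMod 4) = (((2 * t + 1) % 4 : ℕ) : ZMod 4) := by
          rw [ZMod.natCast_mod]
        rw [h8]
        have h9 : (2 * t + 1) % 4 = 1 ∨ (2 * t + 1) % 4 = 3 := by omega
        rcases h9 with h | h
        · left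
          rw [h]
          rfl
        · right
          rw [h]
          rfl
      have hdec : ∀ (c i : ZMod 4), (c = 1 ∨ c = 3) → c * i = 0 → i = 0 := by decide
      rw [hdec _ i hfc h6]
  apply MulEquiv.ext
  intro x
  rw [MulAut.one_apply]
  cases x with
  | r j => exact hrj j
  | sr j =>
    have e : (sr j : DihedralGroup 4) = sr 0 * r j := by rw [sr_mul_r, zero_add]
    rw [e, map_mul, hs, hrj]

/-- An extension of a cyclic group of odd order `f` by the dihedral group of order eight is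
`D₈ × C_f`. -/
theorem iso_dihedral_prod {A R : Type*} [Group A] [Group R] (θ : A →* R)
    (hθ : Function.Surjective θ) {f : ℕ} (hf : Odd f) (e : R ≃* Multiplicative (ZMod f))
    (κ : ↥θ.ker ≃* DihedralGroup 4) :
    Nonempty (A ≃* DihedralGroup 4 × Multiplicative (ZMod f)) := by
  have hf0 : f ≠ 0 := by
    obtain ⟨t, rfl⟩ := hf
    omega
  haveI : NeZero f := ⟨hf0⟩
  haveI : Finite R := Finite.of_equiv _ e.symm.toEquiv
  have hRcard : Nat.card R = f := by
    rw [Nat.card_congr e.toEquiv, Nat.card_congr Multiplicative.toAdd, Nat.card_zmod]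
  obtain ⟨c₀, hc₀⟩ : ∃ c₀ : R, c₀ = e.symm (Multiplicative.ofAdd 1) := ⟨_, rfl⟩
  have hc₀ord : orderOf c₀ = f := by
    rw [hc₀, MulEquiv.orderOf_eq, orderOf_ofAdd_eq_addOrderOf, ZMod.addOrderOf_one]
  obtain ⟨g₀, hg₀⟩ := hθ c₀
  obtain ⟨h, hh⟩ : ∃ h : A, h = g₀ ^ 8 := ⟨_, rfl⟩
  have hK8 : ∀ k : ↥θ.ker, k ^ 8 = 1 := by
    intro k
    apply κ.injective
    rw [map_pow, map_one]
    have : ∀ x : DihedralGroup 4, x ^ 8 = 1 := by decide
    exact this _
  have hhf : h ^ f = 1 := by
    have hmem : g₀ ^ f ∈ θ.ker := by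
      rw [MonoidHom.mem_ker, map_pow, hg₀, ← hc₀ord, pow_orderOf_eq_one]
    have h1 := congrArg Subtype.val (hK8 ⟨g₀ ^ f, hmem⟩)
    have h2 : (g₀ ^ f) ^ 8 = 1 := h1
    rw [hh, ← pow_mul, mul_comm, pow_mul]
    exact h2
  have hθh : orderOf (θ h) = f := by
    rw [hh, map_pow, hg₀]
    have hcop : (orderOf c₀).Coprime 8 := by
      rw [hc₀ord]
      have h2 : Nat.Coprime f 2 := (Nat.coprime_two_left.mpr hf).symm
      exact Nat.Coprime.pow_right 3 h2
    rw [Nat.Coprime.orderOf_pow hcop, hc₀ord]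
  have hordh : orderOf h = f := by
    apply Nat.dvd_antisymm (orderOf_dvd_of_pow_eq_one hhf)
    have := orderOf_map_dvd θ h
    rwa [hθh] at this
  have hcomm : ∀ k : ↥θ.ker, h * (k : A) * h⁻¹ = (k : A) := by
    intro k
    obtain ⟨α, hα⟩ : ∃ α : MulAut ↥θ.ker, α = MulAut.conjNormal h := ⟨_, rfl⟩
    have hαf : α ^ f = 1 := by
      rw [hα, ← map_pow, hhf, map_one]
    have h1 : (MulAut.congr κ α) ^ f = 1 := by
      rw [← map_pow, hαf, map_one]
    have h2 := dihedral4_aut_odd _ f hf h1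
    have h3 : α = 1 := (MulEquiv.map_eq_one_iff (MulAut.congr κ)).mp h2
    have h4 : α k = k := by rw [h3, MulAut.one_apply]
    have h5 := congrArg Subtype.val h4
    rw [hα, MulAut.conjNormal_apply] at h5
    exact h5
  have hcomm2 : ∀ (k : ↥θ.ker) (z : ↥(Subgroup.zpowers h)),
      Commute (θ.ker.subtype k) ((Subgroup.zpowers h).subtype z) := by
    intro k z
    obtain ⟨i, hi⟩ := Subgroup.mem_zpowers_iff.mp z.2
    have hc : Commute (k : A) h := by
      have := hcomm k
      exact (mul_inv_eq_iff_eq_mul.mp this).symm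
    show Commute (k : A) (z : A)
    rw [← hi]
    exact hc.zpow_right i
  obtain ⟨ψ, hψ⟩ : ∃ ψ : ↥θ.ker × ↥(Subgroup.zpowers h) →* A,
      ψ = MonoidHom.noncommCoprod θ.ker.subtype (Subgroup.zpowers h).subtype hcomm2 := ⟨_, rfl⟩
  have hψapp : ∀ x, ψ x = (x.1 : A) * (x.2 : A) := by
    intro x
    rw [hψ, MonoidHom.noncommCoprod_apply]
    rfl
  have hzinj : ∀ z : ↥(Subgroup.zpowers h), θ (z : A) = 1 → z = 1 := by
    intro z hz
    obtain ⟨i, hi⟩ := Subgroup.mem_zpowers_iff.mp z.2
    rw [← hi, map_zpow, ← orderOf_dvd_iff_zpow_eq_one, hθh, ← hordh,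
      orderOf_dvd_iff_zpow_eq_one] at hz
    apply Subtype.ext
    rw [← hi, hz]
    rfl
  have hψinj : Function.Injective ψ := by
    rw [injective_iff_map_eq_one]
    rintro ⟨k, z⟩ hkz
    rw [hψapp] at hkz
    have h1 : θ ((k : A) * (z : A)) = 1 := by rw [hkz, map_one]
    rw [map_mul, MonoidHom.mem_ker.mp k.2, one_mul] at h1
    have hz1 := hzinj z h1
    rw [hz1, Subgroup.coe_one, mul_one] at hkz
    have hk1 : k = 1 := Subtype.ext hkz
    rw [hk1, hz1]
    rfl
  have hψsurj : Function.Surjective ψ := by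
    intro a
    have htop : Subgroup.zpowers (θ h) = ⊤ := by
      apply Subgroup.eq_top_of_card_eq
      rw [Nat.card_zpowers, hθh, hRcard]
    have hmem : θ a ∈ Subgroup.zpowers (θ h) := by
      rw [htop]
      trivial
    obtain ⟨i, hi⟩ := Subgroup.mem_zpowers_iff.mp hmem
    have hker : a * (h ^ i)⁻¹ ∈ θ.ker := by
      rw [MonoidHom.mem_ker, map_mul, map_inv, map_zpow, hi, mul_inv_cancel]
    refine ⟨(⟨a * (h ^ i)⁻¹, hker⟩, ⟨h ^ i, Subgroup.zpow_mem_zpowers h i⟩), ?_⟩
    rw [hψapp]
    show a * (h ^ i)⁻¹ * h ^ i = a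
    group
  have hcyc : IsCyclic ↥(Subgroup.zpowers h) := inferInstance
  have ez : Multiplicative (ZMod (Nat.card ↥(Subgroup.zpowers h))) ≃* ↥(Subgroup.zpowers h) :=
    zmodCyclicMulEquiv hcyc
  rw [Nat.card_zpowers, hordh] at ez
  exact ⟨(MulEquiv.ofBijective ψ ⟨hψinj, hψsurj⟩).symm.trans (MulEquiv.prodCongr κ ez.symm)⟩

/-- A criterion for a group to be `C₂ × C_{2f}`. -/
theorem iso_c2_c2f {A R : Type*} [Group A] [Finite A] [Group R] (θ : A →* R)
    (hθ : Function.Surjective θ) {f : ℕ} (hf : 1 ≤ f) (hR : Nat.card R = f)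
    (hK4 : Nat.card ↥θ.ker = 4) (hK2 : ∀ k ∈ θ.ker, k * k = 1) (ξ : A)
    (hξ : orderOf (θ ξ) = f) (hξf : ξ ^ f ≠ 1) (hcomm : ∀ k ∈ θ.ker, Commute k ξ) :
    Nonempty (A ≃* Multiplicative (ZMod 2 × ZMod (2 * f))) := by
  have hξfK : ξ ^ f ∈ θ.ker := by
    rw [MonoidHom.mem_ker, map_pow, ← hξ, pow_orderOf_eq_one]
  have hsq : ξ ^ f * ξ ^ f = 1 := hK2 _ hξfK
  have hord : orderOf ξ = 2 * f := by
    apply Nat.dvd_antisymm
    · apply orderOf_dvd_of_pow_eq_one
      rw [mul_comm, pow_mul, pow_two, hsq]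
    · have h1 : f ∣ orderOf ξ := by
        rw [← hξ]
        exact orderOf_map_dvd θ ξ
      obtain ⟨j, hj⟩ := h1
      have h2 : (ξ ^ f) ^ j = 1 := by
        rw [← pow_mul, ← hj, pow_orderOf_eq_one]
      rcases Nat.even_or_odd j with hev | hodd
      · obtain ⟨i, rfl⟩ := hev
        rw [hj]
        exact ⟨i, by ring⟩
      · exfalso
        obtain ⟨i, rfl⟩ := hodd
        rw [pow_succ, pow_mul, pow_two, hsq, one_pow, one_mul] at h2
        exact hξf h2
  obtain ⟨u, huK, hu1, hu2⟩ : ∃ u : A, u ∈ θ.ker ∧ u ≠ 1 ∧ u ≠ ξ ^ f := by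
    by_contra hcon
    push Not at hcon
    haveI := Classical.decEq A
    have hinj : Function.Injective (fun k : ↥θ.ker => decide ((k : A) = 1)) := by
      intro k k' hkk
      have hkk : ((k : A) = 1) ↔ ((k' : A) = 1) := decide_eq_decide.mp hkk
      apply Subtype.ext
      by_cases h1 : (k : A) = 1
      · rw [h1, hkk.mp h1]
      · have h2 : (k' : A) ≠ 1 := fun h => h1 (hkk.mpr h)
        rw [hcon _ k.2 h1, hcon _ k'.2 h2]
    have := Nat.card_le_card_of_injective _ hinj
    rw [hK4, Nat.card_eq_fintype_card, Fintype.card_bool] at this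
    omega
  have huu : u * u = 1 := hK2 u huK
  haveI : Fact (Nat.Prime 2) := ⟨Nat.prime_two⟩
  have huord : orderOf u = 2 := orderOf_eq_prime (by rw [pow_two]; exact huu) hu1
  have hzu : ∀ a ∈ Subgroup.zpowers u, a = 1 ∨ a = u := by
    intro a ha
    obtain ⟨i, rfl⟩ := Subgroup.mem_zpowers_iff.mp ha
    rcases Int.even_or_odd' i with ⟨t, rfl | rfl⟩
    · left
      rw [zpow_mul, zpow_two, huu, one_zpow]
    · right
      rw [zpow_add, zpow_mul, zpow_two, huu, one_zpow, one_mul, zpow_one]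
  have hunot : u ∉ Subgroup.zpowers ξ := by
    intro hmem
    obtain ⟨i, hi⟩ := Subgroup.mem_zpowers_iff.mp hmem
    have h1 : (θ ξ) ^ i = 1 := by
      rw [← map_zpow, hi]
      exact MonoidHom.mem_ker.mp huK
    rw [← orderOf_dvd_iff_zpow_eq_one, hξ] at h1
    obtain ⟨j, rfl⟩ := h1
    rw [zpow_mul, zpow_natCast] at hi
    rcases Int.even_or_odd' j with ⟨t, rfl | rfl⟩
    · apply hu1
      rw [← hi, zpow_mul, zpow_two, hsq, one_zpow]
    · apply hu2
      rw [← hi, zpow_add, zpow_mul, zpow_two, hsq, one_zpow, one_mul, zpow_one]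
  have hcomm2 : ∀ (a : ↥(Subgroup.zpowers u)) (b : ↥(Subgroup.zpowers ξ)),
      Commute ((Subgroup.zpowers u).subtype a) ((Subgroup.zpowers ξ).subtype b) := by
    intro a b
    obtain ⟨i, hi⟩ := Subgroup.mem_zpowers_iff.mp a.2
    obtain ⟨j, hj⟩ := Subgroup.mem_zpowers_iff.mp b.2
    show Commute (a : A) (b : A)
    rw [← hi, ← hj]
    exact (hcomm u huK).zpow_zpow i j
  obtain ⟨ψ, hψ⟩ : ∃ ψ : ↥(Subgroup.zpowers u) × ↥(Subgroup.zpowers ξ) →* A,
      ψ = MonoidHom.noncommCoprod (Subgroup.zpowers u).subtype (Subgroup.zpowers ξ).subtype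
        hcomm2 := ⟨_, rfl⟩
  have hψapp : ∀ x, ψ x = (x.1 : A) * (x.2 : A) := by
    intro x
    rw [hψ, MonoidHom.noncommCoprod_apply]
    rfl
  have hψinj : Function.Injective ψ := by
    rw [injective_iff_map_eq_one]
    rintro ⟨a, b⟩ hab
    rw [hψapp] at hab
    have ha : (a : A) = 1 := by
      rcases hzu _ a.2 with h | h
      · exact h
      · exfalso
        apply hunot
        have : (a : A) = ((b : A))⁻¹ := eq_inv_of_mul_eq_one_left hab
        rw [← h, this]
        exact Subgroup.inv_mem _ b.2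
    have hb : (b : A) = 1 := by
      rw [ha, one_mul] at hab
      exact hab
    have ha' : a = 1 := Subtype.ext ha
    have hb' : b = 1 := Subtype.ext hb
    rw [ha', hb']
    rfl
  have hcardA : Nat.card A = 4 * f := by
    have h1 := Subgroup.card_mul_index θ.ker
    rw [Subgroup.index_ker, hK4] at h1
    have h2 : Nat.card ↥θ.range = Nat.card R := by
      rw [MonoidHom.range_eq_top.mpr hθ]
      exact Nat.card_congr Subgroup.topEquiv.toEquiv
    rw [h2, hR] at h1
    exact h1.symm
  have hψbij : Function.Bijective ψ := by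
    apply hψinj.bijective_of_nat_card_le
    rw [Nat.card_prod, Nat.card_zpowers, Nat.card_zpowers, huord, hord, hcardA]
    omega
  have hcu : IsCyclic ↥(Subgroup.zpowers u) := inferInstance
  have hcξ : IsCyclic ↥(Subgroup.zpowers ξ) := inferInstance
  have eu : Multiplicative (ZMod (Nat.card ↥(Subgroup.zpowers u))) ≃* ↥(Subgroup.zpowers u) :=
    zmodCyclicMulEquiv hcu
  have eξ : Multiplicative (ZMod (Nat.card ↥(Subgroup.zpowers ξ))) ≃* ↥(Subgroup.zpowers ξ) :=
    zmodCyclicMulEquiv hcξ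
  rw [Nat.card_zpowers, huord] at eu
  rw [Nat.card_zpowers, hord] at eξ
  exact ⟨(MulEquiv.ofBijective ψ hψbij).symm.trans
    ((MulEquiv.prodCongr eu.symm eξ.symm).trans
      (MulEquiv.prodMultiplicative (ZMod 2) (ZMod (2 * f))).symm)⟩

/-- The image in `G / I` of a subgroup `P ≥ I` with `P / I ≅ V`. -/
theorem map_mk_equiv {G V : Type*} [Group G] [Group V] (I P : Subgroup G) [I.Normal]
    (φ : ↥P →* V) (hφ : Function.Surjective φ) (hker : φ.ker = I.subgroupOf P) :
    Nonempty (↥(P.map (QuotientGroup.mk' I)) ≃* V) := by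
  obtain ⟨μ, hμ⟩ : ∃ μ : ↥P →* ↥(P.map (QuotientGroup.mk' I)),
      μ = (QuotientGroup.mk' I).subgroupMap P := ⟨_, rfl⟩
  have hμsurj : Function.Surjective μ := by
    rw [hμ]
    exact MonoidHom.subgroupMap_surjective _ _
  have hμker : μ.ker = φ.ker := by
    rw [hker]
    ext x
    rw [MonoidHom.mem_ker, Subgroup.mem_subgroupOf, hμ]
    constructor
    · intro h
      have h1 := congrArg Subtype.val h
      exact (QuotientGroup.eq_one_iff (x : G)).mp h1
    · intro h
      apply Subtype.ext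
      exact (QuotientGroup.eq_one_iff (x : G)).mpr h
  have e1 := QuotientGroup.quotientKerEquivOfSurjective μ hμsurj
  have e2 := QuotientGroup.quotientKerEquivOfSurjective φ hφ
  have e3 := QuotientGroup.quotientMulEquivOfEq hμker
  exact ⟨e1.symm.trans (e3.trans e2)⟩

end Cfsg.Agent.Lib.Helper14
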