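import Mathlib
import Cfsg.Prelude.Def_LieTypeDatum
import Cfsg.Prelude.Def_KGroupFacts
import Cfsg.Agent.Lib.Helper14.AutOR
import Cfsg.Agent.Lib.Helper14.AutOS
import Cfsg.Agent.Lib.Helper44.PgoInn

/-!
# `Out(PΩ⁻)` in odd characteristic
-/

set_option autoImplicit false

namespace Cfsg.Agent.Lib.Helper14

open Matrix Module

section generic

variable {ι : Type} [Fintype ι] [DecidableEq ι] {F : Type*} [Field F]

/-- Conjugating a linear map by a semilinear one. -/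
theorem semi_conj_inl (x : SemiGL ι F) (g : GL ι F) :
    x * SemidirectProduct.inl g * x⁻¹ = SemidirectProduct.inl (semiActGL x g) := by
  apply SemidirectProduct.ext
  · rw [SemidirectProduct.mul_left, SemidirectProduct.mul_left, SemidirectProduct.mul_right,
      SemidirectProduct.inv_left, SemidirectProduct.left_inl, SemidirectProduct.right_inl,
      SemidirectProduct.left_inl, mul_one, ← MulAut.mul_apply, ← map_mul, mul_inv_cancel, map_one,
      MulAut.one_apply, semiActGL_apply, glAut_apply]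
  · rw [SemidirectProduct.mul_right, SemidirectProduct.mul_right, SemidirectProduct.inv_right,
      SemidirectProduct.right_inl, SemidirectProduct.right_inl, mul_one, mul_inv_cancel]

theorem semiActGL_sim (Qf : (ι → F) → F) {x : SemiGL ι F} (hx : x ∈ semiSim Qf) (g : GL ι F)
    (μ : F) (hg : ∀ v, Qf ((g : Matrix ι ι F) *ᵥ v) = μ * Qf v) (v : ι → F) :
    Qf (((semiActGL x g : GL ι F) : Matrix ι ι F) *ᵥ v) = x.right μ * Qf v := by
  obtain ⟨c, hc⟩ := (mem_semiSim_iff Qf x).mp hx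
  rw [← sact_sact_inv x v, semiActGL_mulVec, hc, hg, map_mul, hc]
  ring

theorem semiActGL_mem_sim (Qf : (ι → F) → F) {x : SemiGL ι F} (hx : x ∈ semiSim Qf)
    {g : GL ι F} (hg : g ∈ Cfsg.Geo.quadSimilarityGroup (F := F) Qf) :
    semiActGL x g ∈ Cfsg.Geo.quadSimilarityGroup (F := F) Qf := by
  obtain ⟨μ, hμ⟩ := hg
  exact ⟨Units.map ((x.right : F →+* F) : F →* F) μ, fun v => semiActGL_sim Qf hx g μ hμ v⟩

/-- Conjugating the automorphism induced by a similarity by that of a semisimilarity. -/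
theorem semiAut_conj_sim (Qf : (ι → F) → F) (x : ↥(semiSim Qf))
    (g : ↥(Cfsg.Geo.quadSimilarityGroup (F := F) Qf)) :
    semiAut Qf x * Cfsg.Agent.Lib.Helper44.simAut Qf g * (semiAut Qf x)⁻¹ =
      Cfsg.Agent.Lib.Helper44.simAut Qf
        ⟨semiActGL (x : SemiGL ι F) (g : GL ι F), semiActGL_mem_sim Qf x.2 g.2⟩ := by
  rw [← semiAut_simToSemi, ← semiAut_simToSemi, ← map_mul, ← map_inv, ← map_mul]
  congr 1
  apply Subtype.ext
  rw [Subgroup.coe_mul, Subgroup.coe_mul, Subgroup.coe_inv]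
  exact semi_conj_inl (x : SemiGL ι F) (g : GL ι F)

theorem det_semiActGL (x : SemiGL ι F) (g : GL ι F) :
    ((semiActGL x g : GL ι F) : Matrix ι ι F).det = x.right ((g : Matrix ι ι F).det) := by
  rw [semiActGL_apply, Units.val_mul, Units.val_mul, det_mul, det_mul, glMap_coe]
  have h1 : (x.left : Matrix ι ι F).det * ((x.left⁻¹ : GL ι F) : Matrix ι ι F).det = 1 := by
    rw [← det_mul, ← Units.val_mul, mul_inv_cancel, Units.val_one, det_one]
  have h2 : ((g : Matrix ι ι F).map x.right).det = x.right ((g : Matrix ι ι F).det) :=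
    (RingHom.map_det (x.right : F →+* F) (g : Matrix ι ι F)).symm
  rw [h2, mul_right_comm, h1, one_mul]

end generic

section outType

variable {ι : Type} [Fintype ι] [DecidableEq ι] {F : Type*} [Field F] [Fintype F]
variable (Q : QuadraticForm F (ι → F)) (hQ : (QuadraticMap.polarBilin Q).Nondegenerate)
variable (hn : 5 ≤ Fintype.card ι)

theorem inn_le_pgoAut (Qf : (ι → F) → F) :
    Cfsg.Inn (Cfsg.POmega F Qf) ≤ Cfsg.pgoAut F Qf :=
  (Cfsg.Agent.Lib.Helper44.inn_le_psoAut _).trans (Cfsg.Agent.Lib.Helper44.psoAut_le_pgoAut _)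

/-- The type homomorphism on the outer automorphism group. -/
noncomputable def outTypeHom (hAut : Cfsg.gammaPOmega F ⇑Q = ⊤) :
    Cfsg.Out (Cfsg.POmega F ⇑Q) →* RingAut F :=
  QuotientGroup.lift (Cfsg.Inn (Cfsg.POmega F ⇑Q)) (typeHom Q hQ hn hAut) (by
    rw [typeHom_ker]
    exact inn_le_pgoAut _)

theorem outTypeHom_mk (hAut : Cfsg.gammaPOmega F ⇑Q = ⊤) (β : MulAut (Cfsg.POmega F ⇑Q)) :
    outTypeHom Q hQ hn hAut (QuotientGroup.mk β) = typeHom Q hQ hn hAut β := rfl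

theorem outTypeHom_surjective (hAut : Cfsg.gammaPOmega F ⇑Q = ⊤)
    (hex : ∀ σ : RingAut F, ∃ g : GL ι F, Cfsg.IsSemisimilarityPair ⇑Q g σ) :
    Function.Surjective (outTypeHom Q hQ hn hAut) := by
  intro σ
  obtain ⟨β, hβ⟩ := typeHom_surjective Q hQ hn hAut hex σ
  exact ⟨QuotientGroup.mk β, hβ⟩

theorem outTypeHom_ker (hAut : Cfsg.gammaPOmega F ⇑Q = ⊤) :
    (outTypeHom Q hQ hn hAut).ker =
      (Cfsg.pgoAut F ⇑Q).map (QuotientGroup.mk' (Cfsg.Inn (Cfsg.POmega F ⇑Q))) := by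
  ext x
  obtain ⟨β, rfl⟩ := QuotientGroup.mk_surjective x
  rw [MonoidHom.mem_ker, outTypeHom_mk, ← MonoidHom.mem_ker, typeHom_ker]
  constructor
  · intro h
    exact ⟨β, h, rfl⟩
  · rintro ⟨β', hβ', h⟩
    have h1 : β'⁻¹ * β ∈ Cfsg.Inn (Cfsg.POmega F ⇑Q) := QuotientGroup.eq.mp h
    have h2 := inn_le_pgoAut _ h1
    have h3 : β = β' * (β'⁻¹ * β) := by group
    rw [h3]
    exact Subgroup.mul_mem _ hβ' h2

end outType

section invariants

variable {ι : Type} [Fintype ι] [DecidableEq ι] {F : Type*} [Field F] [Fintype F]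

open Cfsg.Agent.Lib.Helper44 in
/-- The two characters of the similarity group are invariant under conjugation by
semisimilarities. -/
theorem simChar_semiActGL (h2 : (2 : F) ≠ 0) (Q : QuadraticForm F (ι → F))
    (hQ : (QuadraticMap.polarBilin Q).Nondegenerate) (hne : ∃ v, Q v ≠ 0) (l : ℕ)
    (hl : Fintype.card ι = 2 * l) (x : ↥(semiSim ⇑Q))
    (g : ↥(Cfsg.Geo.quadSimilarityGroup (F := F) ⇑Q)) :
    simChar h2 Q hQ hne l hl
        ⟨semiActGL (x : SemiGL ι F) (g : GL ι F), semiActGL_mem_sim ⇑Q x.2 g.2⟩ =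
      simChar h2 Q hQ hne l hl g := by
  obtain ⟨g', hg'⟩ : ∃ g' : ↥(Cfsg.Geo.quadSimilarityGroup (F := F) ⇑Q),
      g' = ⟨semiActGL (x : SemiGL ι F) (g : GL ι F), semiActGL_mem_sim ⇑Q x.2 g.2⟩ := ⟨_, rfl⟩
  rw [← hg']
  obtain ⟨σ, hσ⟩ : ∃ σ : RingAut F, σ = (x : SemiGL ι F).right := ⟨_, rfl⟩
  have hμ : (simMult ⇑Q g' : F) = σ (simMult ⇑Q g : F) := by
    apply simMult_unique ⇑Q hne
    intro v
    rw [hg', hσ]
    exact semiActGL_sim ⇑Q x.2 (g : GL ι F) _ (simMult_spec ⇑Q g) v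
  have hdet : ((g' : GL ι F) : Matrix ι ι F).det = σ (((g : GL ι F) : Matrix ι ι F).det) := by
    rw [hg', hσ]
    exact det_semiActGL (x : SemiGL ι F) (g : GL ι F)
  have key : ∀ a b : Multiplicative (ZMod 2), (a = 1 ↔ b = 1) → a = b := by decide
  have hsq : sqChar ⇑Q hne g' = sqChar ⇑Q hne g := by
    apply key
    rw [sqChar_eq_one_iff, sqChar_eq_one_iff, hμ]
    constructor
    · rintro ⟨e, he⟩
      refine ⟨σ.symm e, ?_⟩
      rw [← map_mul, ← he, RingEquiv.symm_apply_apply]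
    · rintro ⟨e, he⟩
      exact ⟨σ e, by rw [he, map_mul]⟩
  have hdc : detChar h2 Q hQ hne l hl g' = detChar h2 Q hQ hne l hl g := by
    apply key
    rw [detChar_eq_one_iff, detChar_eq_one_iff, hμ, hdet, ← map_pow]
    exact σ.injective.eq_iff
  show Multiplicative.ofAdd (Multiplicative.toAdd (sqChar ⇑Q hne g'),
      Multiplicative.toAdd (detChar h2 Q hQ hne l hl g')) =
    Multiplicative.ofAdd (Multiplicative.toAdd (sqChar ⇑Q hne g),
      Multiplicative.toAdd (detChar h2 Q hQ hne l hl g))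
  rw [hsq, hdc]

open Cfsg.Agent.Lib.Helper44 in
/-- Semisimilarities centralise `PGO / PSO`. -/
theorem semiAut_comm_mem_psoAut (h2 : (2 : F) ≠ 0) (Q : QuadraticForm F (ι → F))
    (hQ : (QuadraticMap.polarBilin Q).Nondegenerate) (hn : 7 ≤ Fintype.card ι) (l : ℕ)
    (hl : Fintype.card ι = 2 * l) (x : ↥(semiSim ⇑Q))
    (β : MulAut (Cfsg.POmega F ⇑Q)) (hβ : β ∈ Cfsg.pgoAut F ⇑Q) :
    semiAut ⇑Q x * β * (semiAut ⇑Q x)⁻¹ * β⁻¹ ∈ Cfsg.psoAut F ⇑Q := by
  obtain ⟨E, hE, hE0⟩ := exists_ts3 Q hQ hn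
  have hne : ∃ v, Q v ≠ 0 := by
    obtain ⟨w, -, hw⟩ := exists_perp_nonsing Q hQ (by omega) 0
    exact ⟨w, hw⟩
  rw [pgoAut_eq_range] at hβ
  obtain ⟨g, rfl⟩ := hβ
  rw [semiAut_conj_sim, ← map_inv, ← map_mul,
    ← simChar_eq_one_iff_mem_psoAut h2 Q hQ hne E hE hE0 l hl, map_mul, map_inv,
    simChar_semiActGL h2 Q hQ hne l hl x g, mul_inv_cancel]

end invariants

section minusOdd

variable {F : Type*} [Field F] [Fintype F] (p : ℕ) [Fact p.Prime] [CharP F p]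

theorem orderOf_frobAut {f : ℕ} (hF : Fintype.card F = p ^ f) :
    orderOf (frobAut (F := F) p) = f := by
  have htop : Subgroup.zpowers (frobAut (F := F) p) = ⊤ := by
    rw [eq_top_iff]
    intro σ _
    obtain ⟨n, rfl⟩ := exists_frobAut_pow p σ
    exact Subgroup.npow_mem_zpowers _ n
  rw [← Nat.card_zpowers, htop, Nat.card_congr Subgroup.topEquiv.toEquiv, card_ringAut hF]

/-- Odd characteristic: the explicit Frobenius semisimilarity of the minus-type form. -/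
theorem minus_frob_odd_pair (h2 : (2 : F) ≠ 0) (m : ℕ) (a b : F)
    (hab : ∀ z₁ z₂ : F, z₁ ^ 2 + a * z₁ * z₂ + b * z₂ ^ 2 = 0 → z₁ = 0 ∧ z₂ = 0) :
    ∃ (c d : F) (hd : d ≠ 0), d = (a ^ 2 - 4 * b) ^ ((p - 1) / 2) ∧
      Cfsg.IsSemisimilarityPair (Cfsg.quadFormMinus m F a b) (twistGL m c d hd)
        (frobAut (F := F) p) := by
  have hΔ : a ^ 2 - 4 * b ≠ 0 := by
    intro h0
    have h := hab (-a / 2) 1 (by
      field_simp
      linear_combination -h0)
    exact one_ne_zero h.2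
  have hp2 : p ≠ 2 := by
    rintro rfl
    apply h2
    exact_mod_cast CharP.cast_eq_zero F 2
  have hpodd : 2 * ((p - 1) / 2) + 1 = p := by
    have h1 := (Fact.out : p.Prime).eq_one_or_self_of_dvd 2
    have h3 := (Fact.out : p.Prime).two_le
    have : p % 2 = 1 := by
      rcases Nat.mod_two_eq_zero_or_one p with h | h
      · exfalso
        rcases h1 (Nat.dvd_of_mod_eq_zero h) with h4 | h4
        · omega
        · exact hp2 h4.symm
      · exact h
    omega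
  obtain ⟨d, hd⟩ : ∃ d : F, d = (a ^ 2 - 4 * b) ^ ((p - 1) / 2) := ⟨_, rfl⟩
  have hd0 : d ≠ 0 := by
    rw [hd]
    exact pow_ne_zero _ hΔ
  have hfr : frobAut (F := F) p (a ^ 2 - 4 * b) =
      (frobAut (F := F) p a) ^ 2 - 4 * frobAut (F := F) p b := by
    rw [map_sub, map_mul, map_pow, map_ofNat]
  have hdd : d ^ 2 * (a ^ 2 - 4 * b) =
      (frobAut (F := F) p a) ^ 2 - 4 * frobAut (F := F) p b := by
    rw [← hfr, frobAut_apply, hd, ← pow_mul, ← pow_succ]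
    congr 1
    omega
  obtain ⟨c, hc⟩ : ∃ c : F, c = (frobAut (F := F) p a - a * d) / 2 := ⟨_, rfl⟩
  have hc2 : 2 * c = frobAut (F := F) p a - a * d := by
    rw [hc]
    field_simp
  have h4 : (4 : F) ≠ 0 := by
    have : (4 : F) = 2 * 2 := by norm_num
    rw [this]
    exact mul_ne_zero h2 h2
  refine ⟨c, d, hd0, hd, minus_semisim_of m a b c d hd0 _ ?_ ?_⟩
  · linear_combination hc2
  · apply mul_left_cancel₀ h4
    linear_combination (frobAut (F := F) p a + a * d + 2 * c) * hc2 - hdd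

/-- Powers of a Frobenius twist. -/
theorem twistPair_pow (m : ℕ) (Qf : ((Fin m ⊕ Fin m) ⊕ Fin 2 → F) → F) (c d : F) (hd : d ≠ 0)
    (hx : (⟨twistGL m c d hd, frobAut (F := F) p⟩ : SemiGL ((Fin m ⊕ Fin m) ⊕ Fin 2) F) ∈
      semiSim Qf) (n : ℕ) :
    ∃ X : F, ((((⟨⟨twistGL m c d hd, frobAut (F := F) p⟩, hx⟩ : ↥(semiSim Qf)) ^ n :
        ↥(semiSim Qf)) : SemiGL ((Fin m ⊕ Fin m) ⊕ Fin 2) F).left :
        Matrix ((Fin m ⊕ Fin m) ⊕ Fin 2) ((Fin m ⊕ Fin m) ⊕ Fin 2) F) =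
      twistMat m X (d ^ (∑ j ∈ Finset.range n, p ^ j)) ∧
    (((⟨⟨twistGL m c d hd, frobAut (F := F) p⟩, hx⟩ : ↥(semiSim Qf)) ^ n :
        ↥(semiSim Qf)) : SemiGL ((Fin m ⊕ Fin m) ⊕ Fin 2) F).right = frobAut (F := F) p ^ n := by
  induction n with
  | zero =>
    refine ⟨0, ?_, rfl⟩
    rw [pow_zero, Subgroup.coe_one, SemidirectProduct.one_left, Units.val_one,
      Finset.range_zero, Finset.sum_empty, pow_zero, twistMat_one]
  | succ n ih =>
    obtain ⟨X, ih1, ih2⟩ := ih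
    refine ⟨c ^ (p ^ n) + X * d ^ (p ^ n), ?_, ?_⟩
    · rw [pow_succ, Subgroup.coe_mul, SemidirectProduct.mul_left, Units.val_mul, ih1,
        glAut_apply, glMap_coe, ih2]
      have e : (((⟨⟨twistGL m c d hd, frobAut (F := F) p⟩, hx⟩ : ↥(semiSim Qf)) :
          SemiGL ((Fin m ⊕ Fin m) ⊕ Fin 2) F).left :
          Matrix ((Fin m ⊕ Fin m) ⊕ Fin 2) ((Fin m ⊕ Fin m) ⊕ Fin 2) F) = twistMat m c d := rfl
      rw [e, twistMat_map, twistMat_mul, frobAut_pow_apply, frobAut_pow_apply,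
        Finset.sum_range_succ, pow_add]
    · rw [pow_succ, Subgroup.coe_mul, SemidirectProduct.mul_right, ih2, pow_succ]

omit [Fintype F] [CharP F p] in
theorem geom_sum_odd (e n : ℕ) :
    2 * (e * ∑ j ∈ Finset.range n, (2 * e + 1) ^ j) + 1 = (2 * e + 1) ^ n := by
  induction n with
  | zero => simp
  | succ n ih =>
    rw [Finset.sum_range_succ, pow_succ, ← ih]
    ring

end minusOdd

section minusOut

variable {F : Type*} [Field F] [Fintype F]

open Cfsg.Agent.Lib.Helper44 in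
/-- The `f`-th power of the Frobenius semisimilarity is a reflection: it is not induced by an
element of `SO`. -/
theorem minus_frob_pow_not_pso (p : ℕ) [Fact p.Prime] [CharP F p] (h2 : (2 : F) ≠ 0) {f : ℕ}
    (hF : Fintype.card F = p ^ f) (k : ℕ) (hk : 3 ≤ k) (a b : F)
    (hab : ∀ z₁ z₂ : F, z₁ ^ 2 + a * z₁ * z₂ + b * z₂ ^ 2 = 0 → z₁ = 0 ∧ z₂ = 0)
    (c d : F) (hd : d ≠ 0) (hdd : d = (a ^ 2 - 4 * b) ^ ((p - 1) / 2))
    (hpair : (⟨twistGL k c d hd, frobAut (F := F) p⟩ : SemiGL ((Fin k ⊕ Fin k) ⊕ Fin 2) F) ∈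
      semiSim ⇑(minusQF k F a b)) :
    semiAut ⇑(minusQF k F a b)
      ((⟨⟨twistGL k c d hd, frobAut (F := F) p⟩, hpair⟩ : ↥(semiSim ⇑(minusQF k F a b))) ^ f) ∉
        Cfsg.psoAut F ⇑(minusQF k F a b) := by
  have hQ := minusQF_nondegenerate_all k F a b hab
  have hn7 : 7 ≤ Fintype.card ((Fin k ⊕ Fin k) ⊕ Fin 2) := by
    rw [minus_card_idx]
    omega
  have hl2 : Fintype.card ((Fin k ⊕ Fin k) ⊕ Fin 2) = 2 * (k + 1) := by
    rw [minus_card_idx]
    ring
  obtain ⟨X, hl, hr⟩ := twistPair_pow p k ⇑(minusQF k F a b) c d hd hpair f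
  have hp2 : p ≠ 2 := by
    rintro rfl
    apply h2
    exact_mod_cast CharP.cast_eq_zero F 2
  have hpodd : p % 2 = 1 := by
    have h1 := (Fact.out : p.Prime).eq_one_or_self_of_dvd 2
    have h3 := (Fact.out : p.Prime).two_le
    rcases Nat.mod_two_eq_zero_or_one p with h | h
    · exfalso
      rcases h1 (Nat.dvd_of_mod_eq_zero h) with h4 | h4
      · omega
      · exact hp2 h4.symm
    · exact h
  have hD : d ^ (∑ j ∈ Finset.range f, p ^ j) = -1 := by
    obtain ⟨e, he⟩ : ∃ e, p = 2 * e + 1 := ⟨p / 2, by omega⟩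
    have he2 : (p - 1) / 2 = e := by omega
    have hg := geom_sum_odd e f
    rw [← he, ← hF] at hg
    obtain ⟨t, ht⟩ : ∃ t, t = e * ∑ j ∈ Finset.range f, p ^ j := ⟨_, rfl⟩
    rw [← ht] at hg
    have ht2 : t = Fintype.card F / 2 := by omega
    rw [hdd, he2, ← pow_mul, ← ht, ht2]
    have hchar : ringChar F ≠ 2 := by
      rw [ringChar.eq F p]
      exact hp2
    have hΔ : a ^ 2 - 4 * b ≠ 0 := by
      intro h0
      exact minus_disc_not_isSquare F h2 a b hab ⟨0, by rw [h0, mul_zero]⟩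
    rcases FiniteField.pow_dichotomy hchar hΔ with h | h
    · exfalso
      exact minus_disc_not_isSquare F h2 a b hab ((FiniteField.isSquare_iff hchar hΔ).mpr h)
    · exact h
  rw [hD] at hl
  have hr1 : frobAut (F := F) p ^ f = 1 := by
    apply RingEquiv.ext
    intro x
    rw [frobAut_pow_apply, ← hF, FiniteField.pow_card]
    rfl
  rw [hr1] at hr
  obtain ⟨y, hy⟩ : ∃ y : ↥(semiSim ⇑(minusQF k F a b)),
      y = (⟨⟨twistGL k c d hd, frobAut (F := F) p⟩, hpair⟩ : ↥(semiSim ⇑(minusQF k F a b))) ^ f :=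
    ⟨_, rfl⟩
  rw [← hy] at hl hr ⊢
  obtain ⟨g, hg⟩ := exists_sim_of_right_eq_one ⇑(minusQF k F a b) y hr
  have hgmat : ((g : GL ((Fin k ⊕ Fin k) ⊕ Fin 2) F) :
      Matrix ((Fin k ⊕ Fin k) ⊕ Fin 2) ((Fin k ⊕ Fin k) ⊕ Fin 2) F) = twistMat k X (-1) := by
    rw [← hl, ← hg]
    rfl
  rw [← hg, semiAut_simToSemi]
  intro hmem
  obtain ⟨E, hE, hE0⟩ := exists_ts3 (minusQF k F a b) hQ hn7
  have hne := minus_exists_nonsing (F := F) k a b
  rw [← simChar_eq_one_iff_mem_psoAut h2 (minusQF k F a b) hQ hne E hE hE0 (k + 1) hl2,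
    simChar_eq_one_iff] at hmem
  obtain ⟨-, hdet⟩ := hmem
  have hμ : (simMult ⇑(minusQF k F a b) g : F) = 1 := by
    have h1 := simMult_spec ⇑(minusQF k F a b) g (Pi.single (Sum.inr 0) 1)
    have e1 : minusQF k F a b (Pi.single (Sum.inr 0) 1) = 1 := by
      rw [minusQF_coe]
      simp [Cfsg.quadFormMinus]
    have e2 : minusQF k F a b (twistMat k X (-1) *ᵥ Pi.single (Sum.inr 0) 1) = 1 := by
      rw [minusQF_coe, twistMat_mulVec]
      simp [Cfsg.quadFormMinus]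
    rw [hgmat, e2, e1, mul_one] at h1
    exact h1.symm
  rw [hμ, one_pow, hgmat, twistMat_det] at hdet
  apply h2
  linear_combination -hdet

end minusOut

section minusOutMain

variable {F : Type*} [Field F] [Fintype F]

/-- `Out(PΩ⁻_{2k+2}(q))` for odd `q` (`k ≥ 3`): `D₈ × C_f` if `k` is even and `q ≡ 3 (mod 4)`,
and `C₂ × C_{2f}` otherwise. -/
theorem out_minus_odd (p f : ℕ) [Fact p.Prime] (hf : 1 ≤ f) (hF : Fintype.card F = p ^ f)
    (hp : p ≠ 2) (k : ℕ) (hk : 3 ≤ k) (a b : F)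
    (hab : ∀ z₁ z₂ : F, z₁ ^ 2 + a * z₁ * z₂ + b * z₂ ^ 2 = 0 → z₁ = 0 ∧ z₂ = 0) :
    (Even k ∧ p ^ f % 4 = 3 →
      Nonempty (Cfsg.Out (Cfsg.POmega F (Cfsg.quadFormMinus k F a b)) ≃*
        DihedralGroup 4 × Multiplicative (ZMod f))) ∧
    (¬ (Even k ∧ p ^ f % 4 = 3) →
      Nonempty (Cfsg.Out (Cfsg.POmega F (Cfsg.quadFormMinus k F a b)) ≃*
        Multiplicative (ZMod 2 × ZMod (2 * f)))) := by
  haveI : CharP F p := charP_of_card_eq_prime_pow hF
  have hodd : Odd (Fintype.card F) := by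
    rw [hF]
    exact Odd.pow ((Fact.out : p.Prime).odd_of_ne_two hp)
  have h2 : (2 : F) ≠ 0 := two_ne_zero_of_card_odd hodd
  have hQ := Cfsg.Agent.Lib.Helper44.minusQF_nondegenerate_all k F a b hab
  have hAut := minus_gamma_top k hk a b hab
  have hn7 : 7 ≤ Fintype.card ((Fin k ⊕ Fin k) ⊕ Fin 2) := by
    rw [minus_card_idx]
    omega
  have hn5 : 5 ≤ Fintype.card ((Fin k ⊕ Fin k) ⊕ Fin 2) := by omega
  have hl2 : Fintype.card ((Fin k ⊕ Fin k) ⊕ Fin 2) = 2 * (k + 1) := by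
    rw [minus_card_idx]
    ring
  have hex : ∀ σ : RingAut F, ∃ g : GL ((Fin k ⊕ Fin k) ⊕ Fin 2) F,
      Cfsg.IsSemisimilarityPair ⇑(minusQF k F a b) g σ := by
    rw [minusQF_coe]
    exact minus_exists_semisim k a b hab
  rw [← minusQF_coe]
  obtain ⟨θ, hθdef⟩ : ∃ θ, θ = outTypeHom (minusQF k F a b) hQ hn5 hAut := ⟨_, rfl⟩
  have hθsurj : Function.Surjective θ := by
    rw [hθdef]
    exact outTypeHom_surjective _ hQ hn5 hAut hex
  have hθker : θ.ker = (Cfsg.pgoAut F ⇑(minusQF k F a b)).map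
      (QuotientGroup.mk' (Cfsg.Inn (Cfsg.POmega F ⇑(minusQF k F a b)))) := by
    rw [hθdef]
    exact outTypeHom_ker _ hQ hn5 hAut
  constructor
  · intro hc
    have hfodd : Odd f := by
      rcases Nat.even_or_odd f with hev | hod
      · exfalso
        obtain ⟨t, rfl⟩ := hev
        have hsq : ∀ n : ℕ, n * n % 4 ≠ 3 := by
          intro n
          have := Nat.mod_lt n (by norm_num : 0 < 4)
          rw [Nat.mul_mod]
          interval_cases (n % 4) <;> simp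
        have h3 := hc.2
        rw [pow_add] at h3
        exact hsq _ h3
      · exact hod
    obtain ⟨e⟩ := Cfsg.Agent.Lib.Helper43.AutPSL2.exists_ringAut_equiv (F := F) hF
    have hdih := Cfsg.Agent.Lib.Helper44.minus_pgo_inn_dihedral hodd k hk a b hab
      (by rw [hF]; exact hc)
    rw [← minusQF_coe] at hdih
    obtain ⟨φ, hφ, hker⟩ := hdih
    obtain ⟨κ⟩ := map_mk_equiv (Cfsg.Inn (Cfsg.POmega F ⇑(minusQF k F a b)))
      (Cfsg.pgoAut F ⇑(minusQF k F a b)) φ hφ hker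
    exact iso_dihedral_prod θ hθsurj hfodd e ((MulEquiv.subgroupCongr hθker).trans κ)
  · intro hc
    have hkl := Cfsg.Agent.Lib.Helper44.minus_pgo_inn_klein hodd k hk a b hab
      (by rw [hF]; exact hc)
    rw [← minusQF_coe] at hkl
    obtain ⟨φ, hφ, hker⟩ := hkl
    obtain ⟨κ⟩ := map_mk_equiv (Cfsg.Inn (Cfsg.POmega F ⇑(minusQF k F a b)))
      (Cfsg.pgoAut F ⇑(minusQF k F a b)) φ hφ hker
    obtain ⟨κ', hκ'⟩ : ∃ κ' : ↥θ.ker ≃* Multiplicative (ZMod 2 × ZMod 2),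
        κ' = (MulEquiv.subgroupCongr hθker).trans κ := ⟨_, rfl⟩
    have hK4 : Nat.card ↥θ.ker = 4 := by
      rw [Nat.card_congr κ'.toEquiv, Nat.card_congr Multiplicative.toAdd, Nat.card_prod,
        Nat.card_zmod]
    have hK2 : ∀ x ∈ θ.ker, x * x = 1 := by
      intro x hx
      have h3 := Cfsg.Agent.Lib.Helper44.zmod22_mul_self (κ' ⟨x, hx⟩)
      rw [← map_mul] at h3
      have h4 := κ'.injective (h3.trans (map_one κ').symm)
      exact congrArg Subtype.val h4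
    obtain ⟨c, d, hd, hdd, hpair⟩ := minus_frob_odd_pair p h2 k a b hab
    rw [← minusQF_coe] at hpair
    obtain ⟨x₀, hx₀⟩ : ∃ x₀ : ↥(semiSim ⇑(minusQF k F a b)),
        x₀ = ⟨⟨twistGL k c d hd, frobAut (F := F) p⟩, hpair⟩ := ⟨_, rfl⟩
    obtain ⟨ξ, hξdef⟩ : ∃ ξ : Cfsg.Out (Cfsg.POmega F ⇑(minusQF k F a b)),
        ξ = QuotientGroup.mk (semiAut ⇑(minusQF k F a b) x₀) := ⟨_, rfl⟩
    have hθξ : θ ξ = frobAut (F := F) p := by
      rw [hθdef, hξdef, outTypeHom_mk, typeHom_semiAut, hx₀]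
    have hξord : orderOf (θ ξ) = f := by
      rw [hθξ]
      exact orderOf_frobAut p hF
    obtain ⟨E, hE, hE0⟩ := exists_ts3 (minusQF k F a b) hQ hn7
    have hiff := Cfsg.Agent.Lib.Helper44.minus_neg_one_iff hodd k a b hab
    rw [← minusQF_coe] at hiff
    have hneg : ¬ ∃ g : ↥(Cfsg.isometryGroup F ⇑(minusQF k F a b)),
        g ∈ Cfsg.Omega F ⇑(minusQF k F a b) ∧
        ((g : GL ((Fin k ⊕ Fin k) ⊕ Fin 2) F) :
          Matrix ((Fin k ⊕ Fin k) ⊕ Fin 2) ((Fin k ⊕ Fin k) ⊕ Fin 2) F) = -1 := by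
      intro h
      have h3 := hiff.mp h
      rw [hF] at h3
      exact hc h3
    have hpso : Cfsg.psoAut F ⇑(minusQF k F a b) ≤
        Cfsg.Inn (Cfsg.POmega F ⇑(minusQF k F a b)) :=
      Subgroup.relIndex_eq_one.mp
        ((Cfsg.Agent.Lib.Helper44.relIndex_inn_psoAut h2 (minusQF k F a b) hQ E hE hE0
          ⟨k + 1, by rw [hl2]; ring⟩).2 hneg)
    have hξf : ξ ^ f ≠ 1 := by
      rw [hξdef, ← QuotientGroup.mk_pow, ← map_pow]
      intro h
      have h3 := (QuotientGroup.eq_one_iff _).mp h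
      have h4 := minus_frob_pow_not_pso p h2 hF k hk a b hab c d hd hdd hpair
      rw [← hx₀] at h4
      exact h4 (Cfsg.Agent.Lib.Helper44.inn_le_psoAut _ h3)
    have hcomm : ∀ x ∈ θ.ker, Commute x ξ := by
      intro x hx
      rw [hθker] at hx
      obtain ⟨β, hβ, rfl⟩ := hx
      have h3 := semiAut_comm_mem_psoAut h2 (minusQF k F a b) hQ hn7 (k + 1) hl2 x₀ β hβ
      have h4 := hpso h3
      have h5 : (QuotientGroup.mk (semiAut ⇑(minusQF k F a b) x₀ * β *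
          (semiAut ⇑(minusQF k F a b) x₀)⁻¹ * β⁻¹) :
          Cfsg.Out (Cfsg.POmega F ⇑(minusQF k F a b))) = 1 :=
        (QuotientGroup.eq_one_iff _).mpr h4
      rw [QuotientGroup.mk_mul, QuotientGroup.mk_mul, QuotientGroup.mk_mul, QuotientGroup.mk_inv,
        QuotientGroup.mk_inv, ← hξdef, mul_inv_eq_one, mul_inv_eq_iff_eq_mul] at h5
      exact h5.symm
    exact iso_c2_c2f θ hθsurj hf (card_ringAut hF) hK4 hK2 ξ hξord hξf hcomm

end minusOutMain

end Cfsg.Agent.Lib.Helper14
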