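import Mathlib
import Cfsg.Agent.Lib.Helper14.Forms
import Cfsg.Agent.Lib.Helper44.Char2Forms

/-!
Anisotropic binary forms `z₁² + a z₁ z₂ + b z₂²` over a finite field: any two of them are related by
a substitution `(z₁, z₂) ↦ (z₁ + c z₂, d z₂)`.
-/

set_option autoImplicit false

namespace Cfsg.Agent.Lib.Helper14

section twistEx

variable {K : Type*} [Field K] [Fintype K]

/-- Artin–Schreier: in a finite field of characteristic two, the sum of two elements not of the form
`t² + t` is of this form. -/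
theorem exists_as_add (h2 : (2 : K) = 0) (u u' : K) (hu : ∀ t : K, t ^ 2 + t ≠ u)
    (hu' : ∀ t : K, t ^ 2 + t ≠ u') : ∃ t : K, t ^ 2 + t = u + u' := by
  obtain ⟨P, hP⟩ : ∃ P : K →+ K, ∀ t, P t = t ^ 2 + t :=
    ⟨{ toFun := fun t => t ^ 2 + t
       map_zero' := by simp
       map_add' := fun x y => by linear_combination (x * y) * h2 }, fun t => rfl⟩
  have hker : Nat.card ↥P.ker = 2 := by
    rw [Nat.card_eq_two_iff]
    refine ⟨⟨0, by rw [AddMonoidHom.mem_ker, map_zero]⟩,
      ⟨1, by rw [AddMonoidHom.mem_ker, hP]; linear_combination h2⟩, ?_, ?_⟩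
    · intro h
      exact zero_ne_one (congrArg Subtype.val h)
    · rw [Set.eq_univ_iff_forall]
      rintro ⟨z, hz⟩
      rw [AddMonoidHom.mem_ker, hP] at hz
      have h3 : z * (z + 1) = 0 := by linear_combination hz
      rcases mul_eq_zero.mp h3 with h4 | h4
      · left
        exact Subtype.ext h4
      · right
        rw [Set.mem_singleton_iff]
        apply Subtype.ext
        show z = 1
        linear_combination h4 - h2
  have h1 := AddSubgroup.card_mul_index P.ker
  rw [AddSubgroup.index_ker, hker] at h1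
  have h3 := AddSubgroup.card_mul_index P.range
  have hpos : 0 < Nat.card ↥P.range := Nat.card_pos
  have hidx : P.range.index = 2 := by
    have h4 : Nat.card ↥P.range * P.range.index = Nat.card ↥P.range * 2 := by
      rw [h3, ← h1, mul_comm]
    exact Nat.eq_of_mul_eq_mul_left hpos h4
  have h5 := AddSubgroup.add_mem_iff_of_index_two hidx (a := u) (b := u')
  have hun : u ∉ P.range := by
    rintro ⟨t, ht⟩
    exact hu t (by rw [← hP]; exact ht)
  have hun' : u' ∉ P.range := by
    rintro ⟨t, ht⟩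
    exact hu' t (by rw [← hP]; exact ht)
  obtain ⟨t, ht⟩ := h5.mpr ⟨fun h => absurd h hun, fun h => absurd h hun'⟩
  exact ⟨t, by rw [← hP]; exact ht⟩

/-- In a finite field of odd characteristic the ratio of two non-squares is a square. -/
theorem exists_sq_ratio (x y : K) (hx : ¬ IsSquare x) (hy : ¬ IsSquare y) :
    ∃ e : K, y = e ^ 2 * x := by
  classical
  have hx0 : x ≠ 0 := by
    rintro rfl
    exact hx IsSquare.zero
  have hy0 : y ≠ 0 := by
    rintro rfl
    exact hy IsSquare.zero
  have h1 := quadraticChar_neg_one_iff_not_isSquare.mpr hx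
  have h2 := quadraticChar_neg_one_iff_not_isSquare.mpr hy
  have h3 : quadraticChar K (y * x) = 1 := by
    rw [map_mul, h1, h2]
    norm_num
  obtain ⟨s, hs⟩ := (quadraticChar_one_iff_isSquare (mul_ne_zero hy0 hx0)).mp h3
  refine ⟨s / x, ?_⟩
  rw [div_pow, div_mul_eq_mul_div, eq_div_iff (pow_ne_zero 2 hx0)]
  linear_combination x * hs

/-- Any two anisotropic binary forms over a finite field are related by a triangular
substitution. -/
theorem exists_twist (a b a' b' : K)
    (hab : ∀ z₁ z₂ : K, z₁ ^ 2 + a * z₁ * z₂ + b * z₂ ^ 2 = 0 → z₁ = 0 ∧ z₂ = 0)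
    (hab' : ∀ z₁ z₂ : K, z₁ ^ 2 + a' * z₁ * z₂ + b' * z₂ ^ 2 = 0 → z₁ = 0 ∧ z₂ = 0) :
    ∃ c d : K, d ≠ 0 ∧ 2 * c + a * d = a' ∧ c ^ 2 + a * c * d + b * d ^ 2 = b' := by
  by_cases h2 : (2 : K) = 0
  · have ha := Cfsg.Agent.Lib.Helper44.minus_coeff_ne_zero_char2 K h2 a b hab
    have ha' := Cfsg.Agent.Lib.Helper44.minus_coeff_ne_zero_char2 K h2 a' b' hab'
    have hu : ∀ t : K, t ^ 2 + t ≠ b / a ^ 2 := by
      intro t ht
      have h := hab (a * t) 1 (by
        have h3 : b = a ^ 2 * (t ^ 2 + t) := by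
          rw [ht]
          field_simp
        rw [h3]
        linear_combination (a ^ 2 * t ^ 2 + a ^ 2 * t) * h2)
      exact one_ne_zero h.2
    have hu' : ∀ t : K, t ^ 2 + t ≠ b' / a' ^ 2 := by
      intro t ht
      have h := hab' (a' * t) 1 (by
        have h3 : b' = a' ^ 2 * (t ^ 2 + t) := by
          rw [ht]
          field_simp
        rw [h3]
        linear_combination (a' ^ 2 * t ^ 2 + a' ^ 2 * t) * h2)
      exact one_ne_zero h.2
    obtain ⟨t, ht⟩ := exists_as_add h2 _ _ hu hu'
    obtain ⟨u, hu_def⟩ : ∃ u : K, u = b / a ^ 2 := ⟨_, rfl⟩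
    obtain ⟨u', hu'_def⟩ : ∃ u' : K, u' = b' / a' ^ 2 := ⟨_, rfl⟩
    obtain ⟨d, hd_def⟩ : ∃ d : K, d = a' / a := ⟨_, rfl⟩
    have hb : b = u * a ^ 2 := by
      rw [hu_def]
      field_simp
    have hb' : b' = u' * a' ^ 2 := by
      rw [hu'_def]
      field_simp
    have hd : a * d = a' := by
      rw [hd_def]
      field_simp
    rw [← hu_def, ← hu'_def] at ht
    refine ⟨a' * t, d, ?_, ?_, ?_⟩
    · rw [hd_def]
      exact div_ne_zero ha' ha
    · linear_combination (a' * t) * h2 + hd
    · linear_combination a' ^ 2 * ht + (u * a' ^ 2) * h2 + (a' * t + u * (a * d + a')) * hd +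
        d ^ 2 * hb - hb'
  · have hΔ := minus_disc_not_isSquare K h2 a b hab
    have hΔ' := minus_disc_not_isSquare K h2 a' b' hab'
    obtain ⟨e, he⟩ := exists_sq_ratio _ _ hΔ hΔ'
    have h4 : (4 : K) ≠ 0 := by
      have : (4 : K) = 2 * 2 := by norm_num
      rw [this]
      exact mul_ne_zero h2 h2
    obtain ⟨c, hc_def⟩ : ∃ c : K, c = (a' - a * e) / 2 := ⟨_, rfl⟩
    have hc : 2 * c = a' - a * e := by
      rw [hc_def]
      field_simp
    refine ⟨c, e, ?_, ?_, ?_⟩
    · rintro rfl
      apply hΔ'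
      rw [he]
      exact ⟨0, by ring⟩
    · linear_combination hc
    · have h5 : 4 * (c ^ 2 + a * c * e + b * e ^ 2) = 4 * b' := by
        linear_combination (2 * c + (a' - a * e) + 2 * a * e) * hc + he
      exact mul_left_cancel₀ h4 h5

end twistEx

end Cfsg.Agent.Lib.Helper14
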