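import Mathlib
import Cfsg.Prelude.Def_LieTypeDatum
import Cfsg.Agent.Lib.Helper14.FldA
import Cfsg.Agent.Lib.Helper14.AutOT
import Cfsg.Agent.Lib.Helper43.FieldAut.Galois
import Cfsg.Agent.Lib.Helper99.Quad2

/-!
Quadratic forms on `F^ι` compatible with a field automorphism `τ` (coefficients in the fixed field):
restriction to the fixed field, and the normal form of a minus-type one, by a matrix with entries in
the fixed field.
-/

set_option autoImplicit false

namespace Cfsg.Agent.Lib.Helper14

open Matrix Module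
open Cfsg.Agent.Lib.Helper43.FieldAut (fixF mem_fixF)
open Cfsg.Agent.Lib.Helper99 (witt quad_ext_basis HypFam)

theorem fin2_cases (t : Fin 2) : t = 0 ∨ t = 1 := by
  fin_cases t <;> simp

section gen

variable {F : Type*} [Field F] {V : Type*} [AddCommGroup V] [Module F V]

/-- A linear combination of pairwise orthogonal singular vectors is singular. -/
theorem quad_sum_eq_zero {κ : Type*} [DecidableEq κ] (R : QuadraticForm F V) (u : κ → V)
    (hu : ∀ i, R (u i) = 0) (hp : ∀ i j, QuadraticMap.polar ⇑R (u i) (u j) = 0) (c : κ → F)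
    (s : Finset κ) :
    R (∑ i ∈ s, c i • u i) = 0 ∧ ∀ j, QuadraticMap.polar ⇑R (∑ i ∈ s, c i • u i) (u j) = 0 := by
  induction s using Finset.induction_on with
  | empty =>
    refine ⟨by rw [Finset.sum_empty, map_zero], fun j => ?_⟩
    rw [Finset.sum_empty, QuadraticMap.polar_zero_left]
  | insert a s ha ih =>
    rw [Finset.sum_insert ha]
    constructor
    · rw [QuadraticMap.map_add (⇑R) (c a • u a) (∑ i ∈ s, c i • u i), QuadraticMap.map_smul, hu,
        smul_zero, ih.1, QuadraticMap.polar_smul_left, QuadraticMap.polar_comm, ih.2 a, smul_zero]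
      simp
    · intro j
      rw [QuadraticMap.polar_add_left, QuadraticMap.polar_smul_left, hp, smul_zero, ih.2 j,
        add_zero]

end gen

section normal

variable {F : Type*} [Field F]

/-- A family of vectors with the Gram data of the standard basis of the form
`Σ xᵢ yᵢ + z₁² + z₁ z₂ + c z₂²`, as the columns of a matrix, puts a form in this shape. -/
theorem minus_normal_of_basis (m : ℕ) (R : QuadraticForm F ((Fin m ⊕ Fin m) ⊕ Fin 2 → F))
    (v : (Fin m ⊕ Fin m) ⊕ Fin 2 → ((Fin m ⊕ Fin m) ⊕ Fin 2 → F)) (c : F)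
    (he : ∀ i, R (v (Sum.inl (Sum.inl i))) = 0) (hf : ∀ i, R (v (Sum.inl (Sum.inr i))) = 0)
    (hx : R (v (Sum.inr 0)) = 1) (hy : R (v (Sum.inr 1)) = c)
    (hef : ∀ i j, QuadraticMap.polar ⇑R (v (Sum.inl (Sum.inl i))) (v (Sum.inl (Sum.inr j))) =
      if i = j then 1 else 0)
    (hee : ∀ i j, QuadraticMap.polar ⇑R (v (Sum.inl (Sum.inl i))) (v (Sum.inl (Sum.inl j))) = 0)
    (hff : ∀ i j, QuadraticMap.polar ⇑R (v (Sum.inl (Sum.inr i))) (v (Sum.inl (Sum.inr j))) = 0)
    (hxe : ∀ i, QuadraticMap.polar ⇑R (v (Sum.inr 0)) (v (Sum.inl (Sum.inl i))) = 0)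
    (hxf : ∀ i, QuadraticMap.polar ⇑R (v (Sum.inr 0)) (v (Sum.inl (Sum.inr i))) = 0)
    (hye : ∀ i, QuadraticMap.polar ⇑R (v (Sum.inr 1)) (v (Sum.inl (Sum.inl i))) = 0)
    (hyf : ∀ i, QuadraticMap.polar ⇑R (v (Sum.inr 1)) (v (Sum.inl (Sum.inr i))) = 0)
    (hxy : QuadraticMap.polar ⇑R (v (Sum.inr 0)) (v (Sum.inr 1)) = 1)
    (C : Matrix ((Fin m ⊕ Fin m) ⊕ Fin 2) ((Fin m ⊕ Fin m) ⊕ Fin 2) F)
    (hC : ∀ j, C *ᵥ Pi.single j 1 = v j) :
    ∀ w, R (C *ᵥ w) = Cfsg.quadFormMinus m F 1 c w := by
  have key := quad_ext_basis (Pi.basisFun F ((Fin m ⊕ Fin m) ⊕ Fin 2))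
    (R.comp (Matrix.toLin' C)) (minusQF m F 1 c) ?_ ?_
  · intro w
    have h := DFunLike.congr_fun key w
    rw [QuadraticMap.comp_apply, Matrix.toLin'_apply] at h
    rw [h, minusQF_coe]
  · intro j
    rw [QuadraticMap.comp_apply, Pi.basisFun_apply, Matrix.toLin'_apply, hC, minusQF_coe]
    rcases j with (i | i) | t
    · rw [he]
      simp [Cfsg.quadFormMinus]
    · rw [hf]
      simp [Cfsg.quadFormMinus]
    · rcases fin2_cases t with rfl | rfl
      · rw [hx]
        simp [Cfsg.quadFormMinus]
      · rw [hy]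
        simp [Cfsg.quadFormMinus]
  · intro i j hij
    have hL : QuadraticMap.polar ⇑(R.comp (Matrix.toLin' C))
        (Pi.basisFun F ((Fin m ⊕ Fin m) ⊕ Fin 2) i) (Pi.basisFun F ((Fin m ⊕ Fin m) ⊕ Fin 2) j) =
        QuadraticMap.polar ⇑R (v i) (v j) := by
      unfold QuadraticMap.polar
      rw [QuadraticMap.comp_apply, QuadraticMap.comp_apply, QuadraticMap.comp_apply, map_add,
        Pi.basisFun_apply, Pi.basisFun_apply, Matrix.toLin'_apply, Matrix.toLin'_apply, hC, hC]
    rw [hL, minusQF_coe, Pi.basisFun_apply, Pi.basisFun_apply]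
    rcases i with (i | i) | t
    · rw [minus_polar_inl]
      rcases j with (j | j) | s
      · rw [hee]
        simp [Pi.single_apply]
      · rw [hef]
        simp [Pi.single_apply]
      · rw [QuadraticMap.polar_comm]
        rcases fin2_cases s with rfl | rfl
        · rw [hxe]
          simp [Pi.single_apply]
        · rw [hye]
          simp [Pi.single_apply]
    · rw [minus_polar_inr]
      rcases j with (j | j) | s
      · rw [QuadraticMap.polar_comm, hef]
        by_cases h : j = i
        · subst h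
          simp
        · have h' : i ≠ j := fun e => h e.symm
          simp [h, h']
      · rw [hff]
        simp [Pi.single_apply]
      · rw [QuadraticMap.polar_comm]
        rcases fin2_cases s with rfl | rfl
        · rw [hxf]
          simp [Pi.single_apply]
        · rw [hyf]
          simp [Pi.single_apply]
    · rcases fin2_cases t with rfl | rfl
      · rw [minus_polar_zero]
        rcases j with (j | j) | s
        · rw [hxe]
          simp [Pi.single_apply]
        · rw [hxf]
          simp [Pi.single_apply]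
        · rcases fin2_cases s with rfl | rfl
          · exact absurd rfl hij
          · rw [hxy]
            simp [Pi.single_apply]
      · rw [minus_polar_one]
        rcases j with (j | j) | s
        · rw [hye]
          simp [Pi.single_apply]
        · rw [hyf]
          simp [Pi.single_apply]
        · rcases fin2_cases s with rfl | rfl
          · rw [QuadraticMap.polar_comm, hxy]
            simp [Pi.single_apply]
          · exact absurd rfl hij

end normal

section fixform

variable {ι : Type} [Fintype ι] [DecidableEq ι] {F : Type*} [Field F] [Fintype F]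
variable (τ : RingAut F)

/-- The inclusion of `F₀^ι` in `F^ι`, `F₀` the fixed field of `τ`. -/
def femb (w : ι → ↥(fixF τ)) : ι → F := fun i => (w i : F)

omit [Fintype ι] [DecidableEq ι] in
theorem femb_apply (w : ι → ↥(fixF τ)) (i : ι) : femb τ w i = (w i : F) := rfl

omit [Fintype ι] [DecidableEq ι] in
theorem femb_add (w w' : ι → ↥(fixF τ)) : femb τ (w + w') = femb τ w + femb τ w' := rfl

omit [Fintype ι] [DecidableEq ι] in
theorem femb_smul (c : ↥(fixF τ)) (w : ι → ↥(fixF τ)) : femb τ (c • w) = (c : F) • femb τ w := rfl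

omit [Fintype ι] [DecidableEq ι] in
theorem femb_zero : femb τ (0 : ι → ↥(fixF τ)) = 0 := rfl

omit [Fintype ι] [DecidableEq ι] in
theorem femb_injective : Function.Injective (femb τ : (ι → ↥(fixF τ)) → ι → F) := by
  intro w w' h
  funext i
  exact Subtype.ext (congrFun h i)

omit [Fintype ι] [DecidableEq ι] in
theorem femb_fixed (w : ι → ↥(fixF τ)) : (fun i => τ (femb τ w i)) = femb τ w :=
  funext fun i => (mem_fixF τ).mp (w i).2

omit [Fintype ι] in
theorem femb_single (j : ι) : femb τ (Pi.single j (1 : ↥(fixF τ))) = Pi.single j 1 := by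
  funext i
  rw [femb_apply, Pi.single_apply, Pi.single_apply]
  split_ifs <;> rfl

/-- The restriction to `F₀^ι`, as a function. -/
def fixFun (R : QuadraticForm F (ι → F)) (hR : ∀ v : ι → F, R (fun i => τ (v i)) = τ (R v))
    (w : ι → ↥(fixF τ)) : ↥(fixF τ) :=
  ⟨R (femb τ w), (mem_fixF τ).mpr (by rw [← hR, femb_fixed])⟩

omit [Fintype ι] [DecidableEq ι] in
theorem fixFun_coe (R : QuadraticForm F (ι → F))
    (hR : ∀ v : ι → F, R (fun i => τ (v i)) = τ (R v)) (w : ι → ↥(fixF τ)) :
    ((fixFun τ R hR w : ↥(fixF τ)) : F) = R (femb τ w) := rfl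

omit [Fintype ι] [DecidableEq ι] in
theorem polar_fixFun_coe (R : QuadraticForm F (ι → F))
    (hR : ∀ v : ι → F, R (fun i => τ (v i)) = τ (R v)) (x y : ι → ↥(fixF τ)) :
    ((QuadraticMap.polar (fixFun τ R hR) x y : ↥(fixF τ)) : F) =
      QuadraticMap.polar ⇑R (femb τ x) (femb τ y) := by
  unfold QuadraticMap.polar
  rw [Subfield.coe_sub, Subfield.coe_sub, fixFun_coe, fixFun_coe, fixFun_coe, femb_add]

/-- The restriction to `F₀^ι` of a quadratic form compatible with `τ`. -/
noncomputable def fixForm (R : QuadraticForm F (ι → F))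
    (hR : ∀ v : ι → F, R (fun i => τ (v i)) = τ (R v)) :
    QuadraticForm ↥(fixF τ) (ι → ↥(fixF τ)) :=
  QuadraticMap.ofPolar (fixFun τ R hR)
    (fun c w => Subtype.ext (by
      rw [smul_eq_mul, Subfield.coe_mul, Subfield.coe_mul, fixFun_coe, fixFun_coe, femb_smul,
        QuadraticMap.map_smul, smul_eq_mul]))
    (fun x x' y => Subtype.ext (by
      rw [Subfield.coe_add, polar_fixFun_coe, polar_fixFun_coe, polar_fixFun_coe, femb_add,
        QuadraticMap.polar_add_left]))
    (fun c x y => Subtype.ext (by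
      rw [smul_eq_mul, Subfield.coe_mul, polar_fixFun_coe, polar_fixFun_coe, femb_smul,
        QuadraticMap.polar_smul_left, smul_eq_mul]))

omit [Fintype ι] [DecidableEq ι] in
theorem fixForm_coe (R : QuadraticForm F (ι → F))
    (hR : ∀ v : ι → F, R (fun i => τ (v i)) = τ (R v)) (w : ι → ↥(fixF τ)) :
    ((fixForm τ R hR w : ↥(fixF τ)) : F) = R (femb τ w) := rfl

omit [Fintype ι] [DecidableEq ι] in
theorem fixForm_polar_coe (R : QuadraticForm F (ι → F))
    (hR : ∀ v : ι → F, R (fun i => τ (v i)) = τ (R v)) (x y : ι → ↥(fixF τ)) :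
    ((QuadraticMap.polar ⇑(fixForm τ R hR) x y : ↥(fixF τ)) : F) =
      QuadraticMap.polar ⇑R (femb τ x) (femb τ y) :=
  polar_fixFun_coe τ R hR x y

theorem fixForm_nondegenerate (R : QuadraticForm F (ι → F))
    (hR : ∀ v : ι → F, R (fun i => τ (v i)) = τ (R v))
    (hnd : (QuadraticMap.polarBilin R).Nondegenerate) :
    (QuadraticMap.polarBilin (fixForm τ R hR)).Nondegenerate := by
  have key : ∀ x : ι → ↥(fixF τ),
      (∀ y, QuadraticMap.polar ⇑(fixForm τ R hR) x y = 0) → x = 0 := by
    intro x hx
    apply femb_injective τ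
    rw [femb_zero]
    apply hnd.1
    intro v
    have h0 : QuadraticMap.polarBilin R (femb τ x) = 0 := by
      apply (Pi.basisFun F ι).ext
      intro j
      rw [Pi.basisFun_apply, LinearMap.zero_apply, QuadraticMap.polarBilin_apply_apply]
      have h1 : ((QuadraticMap.polar ⇑(fixForm τ R hR) x (Pi.single j 1) : ↥(fixF τ)) : F) =
          ((0 : ↥(fixF τ)) : F) := congrArg Subtype.val (hx (Pi.single j 1))
      rw [fixForm_polar_coe, femb_single] at h1
      exact h1
    rw [h0]
    rfl
  constructor
  · intro x hx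
    exact key x (fun y => by
      have := hx y
      rwa [QuadraticMap.polarBilin_apply_apply] at this)
  · intro y hy
    exact key y (fun x => by
      have := hy x
      rw [QuadraticMap.polarBilin_apply_apply, QuadraticMap.polar_comm] at this
      exact this)

end fixform

end Cfsg.Agent.Lib.Helper14
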