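import Mathlib
import Cfsg.Prelude.Def_LieTypeDatum
import Cfsg.Agent.Lib.Helper14.FldB

/-!
Normal form of a minus-type quadratic form with coefficients in the fixed field of a field
automorphism, by a matrix with entries in the fixed field.
-/

set_option autoImplicit false

namespace Cfsg.Agent.Lib.Helper14

open Matrix Module
open Cfsg.Agent.Lib.Helper43.FieldAut (fixF mem_fixF)
open Cfsg.Agent.Lib.Helper99 (witt quad_ext_basis HypFam)

section nf

variable {F : Type*} [Field F] [Fintype F]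

set_option maxHeartbeats 1600000 in
/-- A non-degenerate quadratic form on `F^(2m+2)` compatible with the field automorphism `τ` and
without totally singular subspaces of dimension `m+1` is, after a change of basis with entries in
the fixed field, the minus-type form with any prescribed anisotropic binary part over the fixed
field. -/
theorem exists_fixed_normal_form (m : ℕ) (τ : RingAut F)
    (R : QuadraticForm F ((Fin m ⊕ Fin m) ⊕ Fin 2 → F))
    (hR : ∀ v : (Fin m ⊕ Fin m) ⊕ Fin 2 → F, R (fun i => τ (v i)) = τ (R v))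
    (hnd : (QuadraticMap.polarBilin R).Nondegenerate)
    (hts : ∀ W : Submodule F ((Fin m ⊕ Fin m) ⊕ Fin 2 → F), (∀ x ∈ W, R x = 0) → finrank F W ≤ m)
    (a₀ b₀ : F) (ha₀ : τ a₀ = a₀) (hb₀ : τ b₀ = b₀)
    (hab₀ : ∀ z₁ z₂ : F, z₁ ^ 2 + a₀ * z₁ * z₂ + b₀ * z₂ ^ 2 = 0 → z₁ = 0 ∧ z₂ = 0) :
    ∃ C : Matrix ((Fin m ⊕ Fin m) ⊕ Fin 2) ((Fin m ⊕ Fin m) ⊕ Fin 2) F,
      C.det ≠ 0 ∧ C.map τ = C ∧ ∀ v, R (C *ᵥ v) = Cfsg.quadFormMinus m F a₀ b₀ v := by
  classical
  haveI : Fintype ↥(fixF τ) := Fintype.ofFinite _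
  obtain ⟨k, e, f, hH, h⟩ := witt (fixForm τ R hR) (fixForm_nondegenerate τ R hR hnd)
  have hcard : finrank ↥(fixF τ) ((Fin m ⊕ Fin m) ⊕ Fin 2 → ↥(fixF τ)) = 2 * m + 2 := by
    rw [Module.finrank_fintype_fun_eq_card]
    simp only [Fintype.card_sum, Fintype.card_fin]
    ring
  have hQe : ∀ i, R (femb τ (e i)) = 0 := by
    intro i
    have h1 : ((fixForm τ R hR (e i) : ↥(fixF τ)) : F) = ((0 : ↥(fixF τ)) : F) :=
      congrArg Subtype.val (hH.1 i).1
    rw [fixForm_coe] at h1
    exact h1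
  have hQf : ∀ i, R (femb τ (f i)) = 0 := by
    intro i
    have h1 : ((fixForm τ R hR (f i) : ↥(fixF τ)) : F) = ((0 : ↥(fixF τ)) : F) :=
      congrArg Subtype.val (hH.1 i).2
    rw [fixForm_coe] at h1
    exact h1
  have hef : ∀ i j, QuadraticMap.polar ⇑R (femb τ (e i)) (femb τ (f j)) =
      if i = j then 1 else 0 := by
    intro i j
    have h1 : ((QuadraticMap.polar ⇑(fixForm τ R hR) (e i) (f j) : ↥(fixF τ)) : F) =
        ((if i = j then 1 else 0 : ↥(fixF τ)) : F) := congrArg Subtype.val (hH.2.1 i j)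
    rw [fixForm_polar_coe] at h1
    rw [h1]
    split_ifs <;> rfl
  have hee : ∀ i j, QuadraticMap.polar ⇑R (femb τ (e i)) (femb τ (e j)) = 0 := by
    intro i j
    have h1 : ((QuadraticMap.polar ⇑(fixForm τ R hR) (e i) (e j) : ↥(fixF τ)) : F) =
        ((0 : ↥(fixF τ)) : F) := congrArg Subtype.val (hH.2.2 i j).1
    rw [fixForm_polar_coe] at h1
    exact h1
  have hff : ∀ i j, QuadraticMap.polar ⇑R (femb τ (f i)) (femb τ (f j)) = 0 := by
    intro i j
    have h1 : ((QuadraticMap.polar ⇑(fixForm τ R hR) (f i) (f j) : ↥(fixF τ)) : F) =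
        ((0 : ↥(fixF τ)) : F) := congrArg Subtype.val (hH.2.2 i j).2
    rw [fixForm_polar_coe] at h1
    exact h1
  rcases h with h | h | h
  · obtain ⟨b, -, -⟩ := h
    exfalso
    have hk : k = m + 1 := by
      have h1 := Module.finrank_eq_card_basis b
      rw [hcard] at h1
      simp only [Fintype.card_sum, Fintype.card_fin] at h1
      omega
    obtain ⟨L, hL⟩ : ∃ L : (Fin k → F) →ₗ[F] ((Fin m ⊕ Fin m) ⊕ Fin 2 → F),
        ∀ c, L c = ∑ i, c i • femb τ (e i) :=
      ⟨Fintype.linearCombination F (fun i => femb τ (e i)),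
        fun c => Fintype.linearCombination_apply F _ c⟩
    have hinj : Function.Injective L := by
      rw [injective_iff_map_eq_zero]
      intro c hc
      funext j
      have h1 : QuadraticMap.polarBilin R (L c) (femb τ (f j)) = c j := by
        rw [hL]
        simp only [map_sum, map_smul, LinearMap.sum_apply, LinearMap.smul_apply, smul_eq_mul,
          QuadraticMap.polarBilin_apply_apply, hef]
        simp
      rw [hc, map_zero, LinearMap.zero_apply] at h1
      exact h1.symm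
    have hT : ∀ x ∈ LinearMap.range L, R x = 0 := by
      rintro _ ⟨c, rfl⟩
      rw [hL]
      exact (quad_sum_eq_zero R (fun i => femb τ (e i)) hQe hee c Finset.univ).1
    have h2 := hts _ hT
    rw [LinearMap.finrank_range_of_inj hinj, Module.finrank_fin_fun] at h2
    omega
  · obtain ⟨x, b, -⟩ := h
    exfalso
    have h1 := Module.finrank_eq_card_basis b
    rw [hcard] at h1
    simp only [Fintype.card_sum, Fintype.card_fin, Fintype.card_unit] at h1
    omega
  · obtain ⟨x, y, b, hQx, hxy, hani, hxe, hye, hbe, hbf, hbx, hby⟩ := h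
    have hk : k = m := by
      have h1 := Module.finrank_eq_card_basis b
      rw [hcard] at h1
      simp only [Fintype.card_sum, Fintype.card_fin] at h1
      omega
    subst hk
    obtain ⟨c₀, hc₀⟩ : ∃ c₀ : ↥(fixF τ), c₀ = fixForm τ R hR y := ⟨_, rfl⟩
    rw [← hc₀] at hani
    have han1 : ∀ z₁ z₂ : ↥(fixF τ), z₁ ^ 2 + 1 * z₁ * z₂ + c₀ * z₂ ^ 2 = 0 →
        z₁ = 0 ∧ z₂ = 0 := by
      intro z₁ z₂ hz
      by_cases hz2 : z₂ = 0
      · subst hz2
        refine ⟨?_, rfl⟩
        have h3 : z₁ ^ 2 = 0 := by linear_combination hz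
        exact (pow_eq_zero_iff two_ne_zero).mp h3
      · exfalso
        apply hani (z₁ / z₂)
        field_simp
        linear_combination hz
    have han2 : ∀ z₁ z₂ : ↥(fixF τ),
        z₁ ^ 2 + (⟨a₀, (mem_fixF τ).mpr ha₀⟩ : ↥(fixF τ)) * z₁ * z₂ +
          (⟨b₀, (mem_fixF τ).mpr hb₀⟩ : ↥(fixF τ)) * z₂ ^ 2 = 0 → z₁ = 0 ∧ z₂ = 0 := by
      intro z₁ z₂ hz
      have h1 : (z₁ : F) ^ 2 + a₀ * (z₁ : F) * (z₂ : F) + b₀ * (z₂ : F) ^ 2 = 0 :=
        congrArg Subtype.val hz
      have h2 := hab₀ (z₁ : F) (z₂ : F) h1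
      exact ⟨Subtype.ext h2.1, Subtype.ext h2.2⟩
    obtain ⟨cc, d, hd, h1, h2⟩ := exists_twist 1 c₀ ⟨a₀, (mem_fixF τ).mpr ha₀⟩
      ⟨b₀, (mem_fixF τ).mpr hb₀⟩ han1 han2
    have h1' : 2 * (cc : F) + 1 * (d : F) = a₀ := congrArg Subtype.val h1
    have h2' : (cc : F) ^ 2 + 1 * (cc : F) * (d : F) + (c₀ : F) * (d : F) ^ 2 = b₀ :=
      congrArg Subtype.val h2
    obtain ⟨C₁, hC₁⟩ : ∃ C₁ : Matrix ((Fin k ⊕ Fin k) ⊕ Fin 2) ((Fin k ⊕ Fin k) ⊕ Fin 2) F,
        C₁ = Matrix.of (fun i j => ((b j i : ↥(fixF τ)) : F)) := ⟨_, rfl⟩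
    obtain ⟨v, hv⟩ : ∃ v : (Fin k ⊕ Fin k) ⊕ Fin 2 → ((Fin k ⊕ Fin k) ⊕ Fin 2 → F),
        ∀ j, v j = femb τ (b j) := ⟨fun j => femb τ (b j), fun j => rfl⟩
    have hcol : ∀ j, C₁ *ᵥ Pi.single j 1 = v j := by
      intro j
      rw [Matrix.mulVec_single_one, hC₁, hv]
      rfl
    have hmap1 : C₁.map τ = C₁ := by
      rw [hC₁]
      ext i j
      exact (mem_fixF τ).mp (b j i).2
    have hdet1 : C₁.det ≠ 0 := by
      have h3 : C₁ = ((Pi.basisFun ↥(fixF τ) ((Fin k ⊕ Fin k) ⊕ Fin 2)).toMatrix ⇑b).map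
          (fixF τ).subtype := by
        rw [hC₁]
        ext i j
        rw [Matrix.map_apply, Module.Basis.toMatrix_apply, Pi.basisFun_repr]
        rfl
      rw [h3, ← RingHom.mapMatrix_apply, ← RingHom.map_det, ← Module.Basis.det_apply]
      have h4 := (Pi.basisFun ↥(fixF τ) ((Fin k ⊕ Fin k) ⊕ Fin 2)).isUnit_det b
      intro h5
      exact h4.ne_zero (Subtype.ext h5)
    have hnorm : ∀ w, R (C₁ *ᵥ w) = Cfsg.quadFormMinus k F 1 (c₀ : F) w := by
      apply minus_normal_of_basis k R v (c₀ : F) _ _ _ _ _ _ _ _ _ _ _ _ C₁ hcol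
      · intro i
        rw [hv, hbe]
        exact hQe i
      · intro i
        rw [hv, hbf]
        exact hQf i
      · rw [hv, hbx]
        have h3 : ((fixForm τ R hR x : ↥(fixF τ)) : F) = ((1 : ↥(fixF τ)) : F) :=
          congrArg Subtype.val hQx
        rw [fixForm_coe] at h3
        exact h3
      · rw [hv, hby, ← fixForm_coe τ R hR y, hc₀]
      · intro i j
        rw [hv, hv, hbe, hbf]
        exact hef i j
      · intro i j
        rw [hv, hv, hbe, hbe]
        exact hee i j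
      · intro i j
        rw [hv, hv, hbf, hbf]
        exact hff i j
      · intro i
        rw [hv, hv, hbx, hbe]
        have h3 : ((QuadraticMap.polar ⇑(fixForm τ R hR) x (e i) : ↥(fixF τ)) : F) =
            ((0 : ↥(fixF τ)) : F) := congrArg Subtype.val (hxe i).1
        rw [fixForm_polar_coe] at h3
        exact h3
      · intro i
        rw [hv, hv, hbx, hbf]
        have h3 : ((QuadraticMap.polar ⇑(fixForm τ R hR) x (f i) : ↥(fixF τ)) : F) =
            ((0 : ↥(fixF τ)) : F) := congrArg Subtype.val (hxe i).2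
        rw [fixForm_polar_coe] at h3
        exact h3
      · intro i
        rw [hv, hv, hby, hbe]
        have h3 : ((QuadraticMap.polar ⇑(fixForm τ R hR) y (e i) : ↥(fixF τ)) : F) =
            ((0 : ↥(fixF τ)) : F) := congrArg Subtype.val (hye i).1
        rw [fixForm_polar_coe] at h3
        exact h3
      · intro i
        rw [hv, hv, hby, hbf]
        have h3 : ((QuadraticMap.polar ⇑(fixForm τ R hR) y (f i) : ↥(fixF τ)) : F) =
            ((0 : ↥(fixF τ)) : F) := congrArg Subtype.val (hye i).2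
        rw [fixForm_polar_coe] at h3
        exact h3
      · rw [hv, hv, hbx, hby]
        have h3 : ((QuadraticMap.polar ⇑(fixForm τ R hR) x y : ↥(fixF τ)) : F) =
            ((1 : ↥(fixF τ)) : F) := congrArg Subtype.val hxy
        rw [fixForm_polar_coe] at h3
        exact h3
    have hmm : (C₁ * twistMat k (cc : F) (d : F)).map τ =
        C₁.map τ * (twistMat k (cc : F) (d : F)).map τ := Matrix.map_mul (f := (τ : F →+* F))
    refine ⟨C₁ * twistMat k (cc : F) (d : F), ?_, ?_, ?_⟩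
    · rw [Matrix.det_mul, twistMat_det]
      exact mul_ne_zero hdet1 (fun h => hd (Subtype.ext h))
    · rw [hmm, hmap1, twistMat_map, (mem_fixF τ).mp cc.2, (mem_fixF τ).mp d.2]
    · intro w
      rw [← Matrix.mulVec_mulVec, hnorm,
        twistMat_quad k 1 (c₀ : F) (cc : F) (d : F) a₀ b₀ h1' h2']

end nf

end Cfsg.Agent.Lib.Helper14
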