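import Mathlib
import Cfsg.Prelude.Def_LieTypeDatum
import Cfsg.Agent.Lib.Helper14.AutON
import Cfsg.Agent.Lib.Helper43.FieldAut.H90
import Cfsg.Agent.Lib.Helper43.FieldAut.Galois

/-!
Galois descent for a semisimilarity `(g, τ)` whose `r`-th power (`r` the order of `τ`) is a scalar:
after rescaling, `g = B τ(B)⁻¹`, and a scalar multiple of the form `v ↦ Q(B v)` has its
coefficients in the fixed field of `τ`.
-/

set_option autoImplicit false

namespace Cfsg.Agent.Lib.Helper14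

open Matrix Module
open Cfsg.Agent.Lib.Helper43.FieldAut (exists_fixed_matrix exists_scalar_of_norm_one exists_norm_eq)

section desc

variable {ι : Type} [Fintype ι] [DecidableEq ι] {F : Type*} [Field F]

/-- The partial norms `g τ(g) ⋯ τ^{i-1}(g)`. -/
def nrmSeq (g : Matrix ι ι F) (τ : RingAut F) : ℕ → Matrix ι ι F
  | 0 => 1
  | i + 1 => g * (nrmSeq g τ i).map τ

theorem nrmSeq_zero (g : Matrix ι ι F) (τ : RingAut F) : nrmSeq g τ 0 = 1 := rfl

theorem nrmSeq_succ (g : Matrix ι ι F) (τ : RingAut F) (i : ℕ) :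
    nrmSeq g τ (i + 1) = g * (nrmSeq g τ i).map τ := rfl

theorem semi_pow_left (S : SemiGL ι F) (i : ℕ) :
    ((S ^ i).left : Matrix ι ι F) = nrmSeq (S.left : Matrix ι ι F) S.right i := by
  induction i with
  | zero =>
    rw [pow_zero, SemidirectProduct.one_left, Units.val_one]
    rfl
  | succ i ih =>
    rw [pow_succ', SemidirectProduct.mul_left, Units.val_mul, glAut_apply, glMap_coe, ih]
    rfl

theorem semi_pow_right (S : SemiGL ι F) (i : ℕ) : (S ^ i).right = S.right ^ i :=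
  map_pow (SemidirectProduct.rightHom (φ := glAut (ι := ι) (F := F))) S i

theorem nrmSeq_smul (c : F) (g : Matrix ι ι F) (τ : RingAut F) (i : ℕ) :
    nrmSeq (c • g) τ i = (∏ j ∈ Finset.range i, (τ ^ j) c) • nrmSeq g τ i := by
  induction i with
  | zero => rw [nrmSeq_zero, nrmSeq_zero, Finset.prod_range_zero, one_smul]
  | succ i ih =>
    rw [nrmSeq_succ, nrmSeq_succ, ih, Matrix.map_smul' _ _ _ (map_mul τ), Matrix.smul_mul,
      Matrix.mul_smul, smul_smul, Finset.prod_range_succ', map_prod]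
    congr 1
    rw [pow_zero, RingAut.one_apply, mul_comm]
    congr 1
    apply Finset.prod_congr rfl
    intro j _
    rw [pow_succ']
    rfl

variable [Fintype F]

set_option maxHeartbeats 1600000 in
/-- **Descent.** -/
theorem descent (Q : QuadraticForm F (ι → F)) (S : SemiGL ι F) (hS : S ∈ semiSim ⇑Q) (r : ℕ)
    (hr : orderOf S.right = r) (hpos : 0 < r) (lam : F) (hlam : lam ≠ 0)
    (hpow : ((S ^ r).left : Matrix ι ι F) = lam • (1 : Matrix ι ι F)) (hne : ∃ v, Q v ≠ 0) :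
    ∃ (B : Matrix ι ι F) (ν κ : F), B.det ≠ 0 ∧ ν ≠ 0 ∧ κ ≠ 0 ∧
      (ν • (S.left : Matrix ι ι F)) * B.map S.right = B ∧
      ∀ v, κ * Q (B *ᵥ (fun i => S.right (v i))) = S.right (κ * Q (B *ᵥ v)) := by
  obtain ⟨g, hg⟩ : ∃ g : Matrix ι ι F, g = (S.left : Matrix ι ι F) := ⟨_, rfl⟩
  obtain ⟨τ, hτ⟩ : ∃ τ : RingAut F, τ = S.right := ⟨_, rfl⟩
  rw [← hτ] at hr
  rw [← hτ, ← hg]
  have hτr : τ ^ r = 1 := by
    rw [← hr]
    exact pow_orderOf_eq_one τ
  have hN : nrmSeq g τ r = lam • (1 : Matrix ι ι F) := by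
    rw [hg, hτ, ← semi_pow_left]
    exact hpow
  have hgu : IsUnit g := by
    rw [hg]
    exact ⟨S.left, rfl⟩
  obtain ⟨i₀⟩ : Nonempty ι := by
    by_contra hemp
    rw [not_nonempty_iff] at hemp
    obtain ⟨v, hv⟩ := hne
    apply hv
    rw [Subsingleton.elim v 0, map_zero]
  have hfix : τ lam = lam := by
    have h1 : nrmSeq g τ (r + 1) = τ lam • g := by
      rw [nrmSeq_succ, hN, Matrix.map_smul' _ _ _ (map_mul τ), Matrix.mul_smul]
      congr 1
      have : (1 : Matrix ι ι F).map τ = 1 := by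
        ext i j
        simp [Matrix.one_apply, apply_ite]
      rw [this, mul_one]
    have h2 : nrmSeq g τ (r + 1) = lam • g := by
      rw [hg, hτ, ← semi_pow_left, pow_succ, SemidirectProduct.mul_left, Units.val_mul,
        glAut_apply, glMap_coe, semi_pow_right, ← hτ, hτr, hpow, map_one_eq, Matrix.smul_mul,
        one_mul]
    rw [h1] at h2
    obtain ⟨gi, hgi⟩ := hgu.exists_right_inv
    have h3 := congrArg (fun M : Matrix ι ι F => (M * gi) i₀ i₀) h2
    simp only [Matrix.smul_mul, hgi, Matrix.smul_apply, Matrix.one_apply_eq, smul_eq_mul,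
      mul_one] at h3
    exact h3
  obtain ⟨ν, hν0, hνN⟩ := exists_norm_eq τ hlam hfix
  rw [hr] at hνN
  have hG : nrmSeq (ν⁻¹ • g) τ r = 1 := by
    rw [nrmSeq_smul, hN, smul_smul]
    have h1 : (∏ j ∈ Finset.range r, (τ ^ j) ν⁻¹) * lam = 1 := by
      rw [← hνN, ← Finset.prod_mul_distrib]
      apply Finset.prod_eq_one
      intro j _
      rw [map_inv₀, inv_mul_cancel₀]
      exact (map_ne_zero _).mpr hν0
    rw [h1, one_smul]
  obtain ⟨B, hBu, hB⟩ := exists_fixed_matrix τ (ν⁻¹ • g) (nrmSeq (ν⁻¹ • g) τ) r rfl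
    (fun i => rfl) hG hr hpos
  have hBdet : IsUnit B.det := (Matrix.isUnit_iff_isUnit_det B).mp hBu
  obtain ⟨c, hc⟩ := (mem_semiSim_iff ⇑Q S).mp hS
  have hc' : ∀ v : ι → F, Q (g *ᵥ (fun i => τ (v i))) = (c : F) * τ (Q v) := by
    intro v
    have h1 := hc v
    unfold sact at h1
    rw [← hg, ← hτ] at h1
    exact h1
  obtain ⟨μ₁, hμ₁⟩ : ∃ μ₁ : F, μ₁ = ν⁻¹ * ν⁻¹ * c := ⟨_, rfl⟩
  have key : ∀ v : ι → F, Q (B *ᵥ (fun i => τ (v i))) = μ₁ * τ (Q (B *ᵥ v)) := by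
    intro v
    have e1 : B *ᵥ (fun i => τ (v i)) = ν⁻¹ • (g *ᵥ (fun i => τ ((B *ᵥ v) i))) := by
      have e2 : B *ᵥ (fun i => τ (v i)) = ((ν⁻¹ • g) * B.map τ) *ᵥ (fun i => τ (v i)) := by
        rw [hB]
      rw [e2, ← Matrix.mulVec_mulVec, map_mulVec_equiv, Matrix.smul_mulVec]
    rw [e1, QuadraticMap.map_smul, hc', smul_eq_mul, hμ₁]
    ring
  have hiter : ∀ (i : ℕ) (v : ι → F), Q (B *ᵥ (fun k => (τ ^ i) (v k))) =
      (∏ j ∈ Finset.range i, (τ ^ j) μ₁) * (τ ^ i) (Q (B *ᵥ v)) := by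
    intro i
    induction i with
    | zero =>
      intro v
      simp
    | succ i ih =>
      intro v
      have e : (fun k => (τ ^ (i + 1)) (v k)) = fun k => τ ((fun k' => (τ ^ i) (v k')) k) := by
        funext k
        rw [pow_succ']
        rfl
      rw [e, key, ih, Finset.prod_range_succ', map_mul, map_prod]
      have e3 : ∀ (n : ℕ) (x : F), (τ ^ (n + 1)) x = τ ((τ ^ n) x) := by
        intro n x
        rw [pow_succ']
        rfl
      rw [e3, pow_zero, RingAut.one_apply]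
      have e4 : ∏ j ∈ Finset.range i, (τ ^ (j + 1)) μ₁ = ∏ j ∈ Finset.range i, τ ((τ ^ j) μ₁) :=
        Finset.prod_congr rfl (fun j _ => e3 j μ₁)
      rw [e4]
      ring
  obtain ⟨w, hw⟩ := hne
  have hP : ∏ j ∈ Finset.range r, (τ ^ j) μ₁ = 1 := by
    have h1 := hiter r (B⁻¹ *ᵥ w)
    rw [hτr] at h1
    have h2 : B *ᵥ (B⁻¹ *ᵥ w) = w := by
      rw [Matrix.mulVec_mulVec, Matrix.mul_nonsing_inv B hBdet, Matrix.one_mulVec]
    have h3 : (fun k => (1 : RingAut F) ((B⁻¹ *ᵥ w) k)) = B⁻¹ *ᵥ w := rfl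
    rw [h3, h2, RingAut.one_apply] at h1
    have h4 : (∏ j ∈ Finset.range r, (τ ^ j) μ₁ - 1) * Q w = 0 := by linear_combination -h1
    rcases mul_eq_zero.mp h4 with h5 | h5
    · exact sub_eq_zero.mp h5
    · exact absurd h5 hw
  obtain ⟨μ, hμ0, hμ⟩ := exists_scalar_of_norm_one τ r hr hpos μ₁ hP
  have hτμ : τ μ ≠ 0 := (map_ne_zero _).mpr hμ0
  refine ⟨B, ν⁻¹, μ⁻¹, hBdet.ne_zero, inv_ne_zero hν0, inv_ne_zero hμ0, hB, ?_⟩
  intro v
  rw [key, map_mul, map_inv₀]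
  have h1 : μ⁻¹ * μ₁ = (τ μ)⁻¹ :=
    eq_inv_of_mul_eq_one_left (by rw [mul_assoc, hμ, inv_mul_cancel₀ hμ0])
  rw [← h1]
  ring

end desc

end Cfsg.Agent.Lib.Helper14
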