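import Mathlib
import Cfsg.Prelude.Def_LieTypeDatum
import Cfsg.Agent.Lib.Helper14.FldC
import Cfsg.Agent.Lib.Helper14.FldD

/-!
Frames for a semisimilarity of the minus-type form whose `r`-th power is a scalar, and conjugacy
of two semisimilarities with frames to the same form.
-/

set_option autoImplicit false

namespace Cfsg.Agent.Lib.Helper14

open Matrix Module
open Cfsg.Agent.Lib.Helper44 (simAut simAut_eq_one_of_scalar)

section frames

variable {F : Type*} [Field F] [Fintype F]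

set_option maxHeartbeats 1600000 in
/-- A frame for a semisimilarity `(g, τ)` of the minus-type form with `(g, τ)^r` scalar, `r` the
order of `τ`: a matrix `A` with `ν g τ(A) = A` in which a scalar multiple of the form becomes the
minus-type form with a prescribed `τ`-fixed anisotropic binary part. -/
theorem exists_frame (m : ℕ) (a b : F)
    (hab : ∀ z₁ z₂ : F, z₁ ^ 2 + a * z₁ * z₂ + b * z₂ ^ 2 = 0 → z₁ = 0 ∧ z₂ = 0)
    (S : SemiGL ((Fin m ⊕ Fin m) ⊕ Fin 2) F) (hS : S ∈ semiSim ⇑(minusQF m F a b)) (r : ℕ)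
    (hr : orderOf S.right = r) (hpos : 0 < r) (lam : F) (hlam : lam ≠ 0)
    (hpow : ((S ^ r).left : Matrix ((Fin m ⊕ Fin m) ⊕ Fin 2) ((Fin m ⊕ Fin m) ⊕ Fin 2) F) =
      lam • (1 : Matrix ((Fin m ⊕ Fin m) ⊕ Fin 2) ((Fin m ⊕ Fin m) ⊕ Fin 2) F))
    (a₀ b₀ : F) (ha₀ : S.right a₀ = a₀) (hb₀ : S.right b₀ = b₀)
    (hab₀ : ∀ z₁ z₂ : F, z₁ ^ 2 + a₀ * z₁ * z₂ + b₀ * z₂ ^ 2 = 0 → z₁ = 0 ∧ z₂ = 0) :
    ∃ (A : Matrix ((Fin m ⊕ Fin m) ⊕ Fin 2) ((Fin m ⊕ Fin m) ⊕ Fin 2) F) (ν κ : F),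
      A.det ≠ 0 ∧ ν ≠ 0 ∧ κ ≠ 0 ∧
      (ν • (S.left : Matrix ((Fin m ⊕ Fin m) ⊕ Fin 2) ((Fin m ⊕ Fin m) ⊕ Fin 2) F)) *
        A.map S.right = A ∧
      ∀ v, κ * minusQF m F a b (A *ᵥ v) = Cfsg.quadFormMinus m F a₀ b₀ v := by
  obtain ⟨Q, hQdef⟩ : ∃ Q, Q = minusQF m F a b := ⟨_, rfl⟩
  rw [← hQdef] at hS ⊢
  have hQ : (QuadraticMap.polarBilin Q).Nondegenerate := by
    rw [hQdef]
    exact Cfsg.Agent.Lib.Helper44.minusQF_nondegenerate_all m F a b hab
  have hne : ∃ v, Q v ≠ 0 := by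
    rw [hQdef]
    exact minus_exists_nonsing m a b
  obtain ⟨B, ν, κ, hBdet, hν, hκ, hB, hcomp⟩ := descent Q S hS r hr hpos lam hlam hpow hne
  obtain ⟨R, hRdef⟩ : ∃ R : QuadraticForm F ((Fin m ⊕ Fin m) ⊕ Fin 2 → F),
      R = κ • Q.comp (Matrix.toLin' B) := ⟨_, rfl⟩
  have hRapp : ∀ v, R v = κ * Q (B *ᵥ v) := by
    intro v
    rw [hRdef, QuadraticMap.smul_apply, QuadraticMap.comp_apply, Matrix.toLin'_apply, smul_eq_mul]
  have hR : ∀ v : (Fin m ⊕ Fin m) ⊕ Fin 2 → F, R (fun i => S.right (v i)) = S.right (R v) := by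
    intro v
    rw [hRapp, hRapp]
    exact hcomp v
  have hBu : IsUnit B.det := isUnit_iff_ne_zero.mpr hBdet
  have hBB : ∀ w, B *ᵥ (B⁻¹ *ᵥ w) = w := by
    intro w
    rw [mulVec_mulVec, Matrix.mul_nonsing_inv B hBu, one_mulVec]
  have hBB' : ∀ w, B⁻¹ *ᵥ (B *ᵥ w) = w := by
    intro w
    rw [mulVec_mulVec, Matrix.nonsing_inv_mul B hBu, one_mulVec]
  have hpol : ∀ x y, QuadraticMap.polar ⇑R x y = κ * QuadraticMap.polar ⇑Q (B *ᵥ x) (B *ᵥ y) := by
    intro x y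
    unfold QuadraticMap.polar
    rw [hRapp, hRapp, hRapp, Matrix.mulVec_add]
    ring
  have hnd : (QuadraticMap.polarBilin R).Nondegenerate := by
    constructor
    · intro x hx
      have h1 : B *ᵥ x = 0 := by
        apply hQ.1
        intro z
        have h2 := hx (B⁻¹ *ᵥ z)
        rw [QuadraticMap.polarBilin_apply_apply, hpol, hBB] at h2
        rw [QuadraticMap.polarBilin_apply_apply]
        exact (mul_eq_zero.mp h2).resolve_left hκ
      rw [← hBB' x, h1, Matrix.mulVec_zero]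
    · intro y hy
      have h1 : B *ᵥ y = 0 := by
        apply hQ.2
        intro z
        have h2 := hy (B⁻¹ *ᵥ z)
        rw [QuadraticMap.polarBilin_apply_apply, hpol, hBB] at h2
        rw [QuadraticMap.polarBilin_apply_apply]
        exact (mul_eq_zero.mp h2).resolve_left hκ
      rw [← hBB' y, h1, Matrix.mulVec_zero]
  have hts : ∀ W : Submodule F ((Fin m ⊕ Fin m) ⊕ Fin 2 → F), (∀ x ∈ W, R x = 0) →
      finrank F W ≤ m := by
    intro W hW
    have hinj : Function.Injective (Matrix.toLin' B) := by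
      intro x y hxy
      rw [Matrix.toLin'_apply, Matrix.toLin'_apply] at hxy
      rw [← hBB' x, hxy, hBB']
    have h1 := minus_ts_le m F a b hab (W.map (Matrix.toLin' B)) (by
      rintro _ ⟨x, hx, rfl⟩
      have h2 := hW x hx
      rw [hRapp] at h2
      rw [Matrix.toLin'_apply, ← hQdef]
      exact (mul_eq_zero.mp h2).resolve_left hκ)
    rwa [← (Submodule.equivMapOfInjective _ hinj W).finrank_eq] at h1
  obtain ⟨C, hCdet, hCmap, hC⟩ := exists_fixed_normal_form m S.right R hR hnd hts a₀ b₀ ha₀ hb₀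
    hab₀
  have hmm : (B * C).map S.right = B.map S.right * C.map S.right :=
    Matrix.map_mul (f := (S.right : F →+* F))
  refine ⟨B * C, ν, κ, ?_, hν, hκ, ?_, ?_⟩
  · rw [det_mul]
    exact mul_ne_zero hBdet hCdet
  · rw [hmm, hCmap, ← Matrix.mul_assoc, hB]
  · intro v
    rw [← mulVec_mulVec, ← hRapp, hC]

end frames

section conj

variable {ι : Type} [Fintype ι] [DecidableEq ι] {F : Type*} [Field F]

set_option maxHeartbeats 1600000 in
/-- Two semisimilarities with the same field automorphism and frames to the same form are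
conjugate by the similarity `A' A⁻¹`, up to a scalar. -/
theorem semi_conj_of_frames (Q : QuadraticForm F (ι → F)) (Q0 : (ι → F) → F)
    (S S' : ↥(semiSim ⇑Q)) (hright : (S' : SemiGL ι F).right = (S : SemiGL ι F).right)
    (A A' : Matrix ι ι F) (ν κ ν' κ' : F) (hA : A.det ≠ 0) (hA' : A'.det ≠ 0) (hν : ν ≠ 0)
    (hκ' : κ' ≠ 0) (hν' : ν' ≠ 0) (hκ : κ ≠ 0)
    (h1 : (ν • ((S : SemiGL ι F).left : Matrix ι ι F)) * A.map (S : SemiGL ι F).right = A)
    (h1' : (ν' • ((S' : SemiGL ι F).left : Matrix ι ι F)) * A'.map (S : SemiGL ι F).right = A')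
    (h2 : ∀ v, κ * Q (A *ᵥ v) = Q0 v) (h2' : ∀ v, κ' * Q (A' *ᵥ v) = Q0 v) :
    ∃ d : ↥(Cfsg.Geo.quadSimilarityGroup (F := F) ⇑Q),
      ((d : GL ι F) : Matrix ι ι F) = A' * A⁻¹ ∧
      (∀ v, Q ((A' * A⁻¹) *ᵥ v) = (κ'⁻¹ * κ) * Q v) ∧
      semiAut ⇑Q S' = simAut ⇑Q d * semiAut ⇑Q S * (simAut ⇑Q d)⁻¹ := by
  obtain ⟨g, hg⟩ : ∃ g : Matrix ι ι F, g = ((S : SemiGL ι F).left : Matrix ι ι F) := ⟨_, rfl⟩
  obtain ⟨g', hg'⟩ : ∃ g' : Matrix ι ι F, g' = ((S' : SemiGL ι F).left : Matrix ι ι F) :=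
    ⟨_, rfl⟩
  obtain ⟨τ, hτ⟩ : ∃ τ : RingAut F, τ = (S : SemiGL ι F).right := ⟨_, rfl⟩
  rw [← hg, ← hτ] at h1
  rw [← hg', ← hτ] at h1'
  have hAu : IsUnit A.det := isUnit_iff_ne_zero.mpr hA
  obtain ⟨dM, hdM⟩ : ∃ dM : Matrix ι ι F, dM = A' * A⁻¹ := ⟨_, rfl⟩
  have hsim : ∀ v, Q (dM *ᵥ v) = (κ'⁻¹ * κ) * Q v := by
    intro v
    have e1 : Q (A' *ᵥ (A⁻¹ *ᵥ v)) = κ'⁻¹ * Q0 (A⁻¹ *ᵥ v) := by
      rw [← h2', ← mul_assoc, inv_mul_cancel₀ hκ', one_mul]
    have e2 : Q0 (A⁻¹ *ᵥ v) = κ * Q v := by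
      rw [← h2, mulVec_mulVec, Matrix.mul_nonsing_inv A hAu, one_mulVec]
    rw [hdM, ← mulVec_mulVec, e1, e2, mul_assoc]
  have hddet : dM.det ≠ 0 := by
    rw [hdM, det_mul, Matrix.det_nonsing_inv, Ring.inverse_eq_inv']
    exact mul_ne_zero hA' (inv_ne_zero hA)
  obtain ⟨dG, hdG⟩ : ∃ dG : GL ι F, (dG : Matrix ι ι F) = dM :=
    ⟨Matrix.GeneralLinearGroup.mkOfDetNeZero dM hddet, rfl⟩
  have hdmem : dG ∈ Cfsg.Geo.quadSimilarityGroup (F := F) ⇑Q := by
    refine ⟨Units.mk0 (κ'⁻¹ * κ) (mul_ne_zero (inv_ne_zero hκ') hκ), fun v => ?_⟩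
    rw [hdG]
    exact hsim v
  obtain ⟨c, hc⟩ : ∃ c : F, c = ν' * ν⁻¹ := ⟨_, rfl⟩
  have hc0 : c ≠ 0 := by
    rw [hc]
    exact mul_ne_zero hν' (inv_ne_zero hν)
  obtain ⟨zG, hzG⟩ : ∃ zG : GL ι F, (zG : Matrix ι ι F) = c • (1 : Matrix ι ι F) :=
    ⟨Matrix.GeneralLinearGroup.mkOfDetNeZero (c • (1 : Matrix ι ι F)) (by
      rw [Matrix.det_smul, Matrix.det_one, mul_one]
      exact pow_ne_zero _ hc0), rfl⟩
  have hzmem : zG ∈ Cfsg.Geo.quadSimilarityGroup (F := F) ⇑Q := by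
    refine ⟨Units.mk0 (c * c) (mul_ne_zero hc0 hc0), fun v => ?_⟩
    rw [hzG, Matrix.smul_mulVec, Matrix.one_mulVec, QuadraticMap.map_smul, smul_eq_mul]
    rfl
  -- the matrix identity
  have hgA : g * A.map τ = ν⁻¹ • A := by
    have e : ν • (g * A.map τ) = A := by
      rw [← Matrix.smul_mul]
      exact h1
    have e' := congrArg (fun M : Matrix ι ι F => ν⁻¹ • M) e
    simp only [smul_smul, inv_mul_cancel₀ hν, one_smul] at e'
    exact e'
  have hgA' : g' * A'.map τ = ν'⁻¹ • A' := by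
    have e : ν' • (g' * A'.map τ) = A' := by
      rw [← Matrix.smul_mul]
      exact h1'
    have e' := congrArg (fun M : Matrix ι ι F => ν'⁻¹ • M) e
    simp only [smul_smul, inv_mul_cancel₀ hν', one_smul] at e'
    exact e'
  have hmapd : dM.map τ = A'.map τ * (A⁻¹).map τ := by
    rw [hdM]
    exact Matrix.map_mul (f := (τ : F →+* F))
  have hinvA : (A⁻¹).map τ * A.map τ = 1 := by
    have e : (A⁻¹ * A).map τ = (A⁻¹).map τ * A.map τ := Matrix.map_mul (f := (τ : F →+* F))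
    rw [← e, Matrix.nonsing_inv_mul A hAu]
    ext i j
    simp [Matrix.one_apply, apply_ite]
  have hAinv : A.map τ * (A⁻¹).map τ = 1 := by
    have e : (A * A⁻¹).map τ = A.map τ * (A⁻¹).map τ := Matrix.map_mul (f := (τ : F →+* F))
    rw [← e, Matrix.mul_nonsing_inv A hAu]
    ext i j
    simp [Matrix.one_apply, apply_ite]
  have hX : dM * g * A.map τ = ν⁻¹ • A' := by
    rw [Matrix.mul_assoc, hgA, hdM, Matrix.mul_smul, Matrix.mul_assoc,
      Matrix.nonsing_inv_mul A hAu, Matrix.mul_one]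
  have hY : (c • (1 : Matrix ι ι F)) * g' * dM.map τ * A.map τ = ν⁻¹ • A' := by
    rw [hmapd, Matrix.smul_mul, Matrix.one_mul, Matrix.mul_assoc, Matrix.mul_assoc, hinvA,
      Matrix.mul_one, Matrix.smul_mul, hgA', smul_smul, hc]
    congr 1
    rw [mul_assoc, mul_comm ν⁻¹, ← mul_assoc, mul_inv_cancel₀ hν', one_mul]
  have hmat : dM * g = (c • (1 : Matrix ι ι F)) * g' * dM.map τ := by
    have e1 : dM * g = dM * g * A.map τ * (A⁻¹).map τ := by
      rw [Matrix.mul_assoc (dM * g), hAinv, Matrix.mul_one]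
    have e2 : (c • (1 : Matrix ι ι F)) * g' * dM.map τ =
        (c • (1 : Matrix ι ι F)) * g' * dM.map τ * A.map τ * (A⁻¹).map τ := by
      rw [Matrix.mul_assoc ((c • (1 : Matrix ι ι F)) * g' * dM.map τ), hAinv, Matrix.mul_one]
    rw [e1, e2, hX, hY]
  obtain ⟨d, hd⟩ : ∃ d : ↥(Cfsg.Geo.quadSimilarityGroup (F := F) ⇑Q), (d : GL ι F) = dG :=
    ⟨⟨dG, hdmem⟩, rfl⟩
  obtain ⟨z, hz⟩ : ∃ z : ↥(Cfsg.Geo.quadSimilarityGroup (F := F) ⇑Q), (z : GL ι F) = zG :=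
    ⟨⟨zG, hzmem⟩, rfl⟩
  have hE : simToSemi ⇑Q d * S = simToSemi ⇑Q z * S' * simToSemi ⇑Q d := by
    apply Subtype.ext
    rw [Subgroup.coe_mul, Subgroup.coe_mul, Subgroup.coe_mul]
    apply SemidirectProduct.ext
    · rw [SemidirectProduct.mul_left, SemidirectProduct.mul_left, SemidirectProduct.mul_left,
        SemidirectProduct.mul_right, simToSemi_left, simToSemi_right, simToSemi_left,
        simToSemi_right]
      simp only [map_one, MulAut.one_apply, one_mul, glAut_apply]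
      apply Units.ext
      rw [Units.val_mul, Units.val_mul, Units.val_mul, glMap_coe, hd, hz, hdG, hzG, hright, ← hg,
        ← hg', ← hτ]
      exact hmat
    · rw [SemidirectProduct.mul_right, SemidirectProduct.mul_right, SemidirectProduct.mul_right,
        simToSemi_right, simToSemi_right, one_mul, one_mul, mul_one, hright]
  have hz1 : simAut ⇑Q z = 1 := simAut_eq_one_of_scalar ⇑Q z c (by rw [hz, hzG])
  have hE2 := congrArg (semiAut ⇑Q) hE
  rw [map_mul, map_mul, map_mul, semiAut_simToSemi, semiAut_simToSemi, hz1, one_mul] at hE2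
  refine ⟨d, by rw [hd, hdG, hdM], ?_, ?_⟩
  · intro v
    rw [← hdM]
    exact hsim v
  · rw [hE2, mul_inv_cancel_right]

end conj

end Cfsg.Agent.Lib.Helper14
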