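import Mathlib
import Cfsg.Prelude.Def_LieTypeDatum
import Cfsg.Agent.Lib.Helper14.AutOT

/-!
Transport of semisimilarities between two forms related by a change of basis, and the field
automorphism attached to an automorphism of `PΩ(Q)` that becomes a standard field automorphism
under an isomorphism with the group of such a form.
-/

set_option autoImplicit false

namespace Cfsg.Agent.Lib.Helper14

open Matrix Module Subgroup

section grp

/-- An isomorphism of groups induces one of the commutator subgroups. -/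
noncomputable def commEquiv {G H : Type*} [Group G] [Group H] (e : G ≃* H) :
    ↥(commutator G) ≃* ↥(commutator H) where
  toFun s := ⟨e s, by
    have h := Abelianization.commutator_subset_ker
      ((Abelianization.of : H →* Abelianization H).comp e.toMonoidHom) s.2
    rw [MonoidHom.mem_ker, MonoidHom.comp_apply] at h
    rw [← Abelianization.ker_of, MonoidHom.mem_ker]
    exact h⟩
  invFun s := ⟨e.symm s, by
    have h := Abelianization.commutator_subset_ker
      ((Abelianization.of : G →* Abelianization G).comp e.symm.toMonoidHom) s.2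
    rw [MonoidHom.mem_ker, MonoidHom.comp_apply] at h
    rw [← Abelianization.ker_of, MonoidHom.mem_ker]
    exact h⟩
  left_inv s := Subtype.ext (e.symm_apply_apply s)
  right_inv s := Subtype.ext (e.apply_symm_apply s)
  map_mul' s t := Subtype.ext (map_mul e (s : G) (t : G))

theorem commEquiv_coe {G H : Type*} [Group G] [Group H] (e : G ≃* H) (s : ↥(commutator G)) :
    ((commEquiv e s : ↥(commutator H)) : H) = e s := rfl

theorem commEquiv_symm_coe {G H : Type*} [Group G] [Group H] (e : G ≃* H)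
    (s : ↥(commutator H)) : (((commEquiv e).symm s : ↥(commutator G)) : G) = e.symm s := rfl

theorem map_center_equiv {G H : Type*} [Group G] [Group H] (e : G ≃* H) :
    (center G).map e.toMonoidHom = center H := by
  ext y
  constructor
  · rintro ⟨x, hx, rfl⟩
    have hx' := Subgroup.mem_center_iff.mp hx
    refine Subgroup.mem_center_iff.mpr ?_
    intro h
    show h * e x = e x * h
    have h1 := congrArg e (hx' (e.symm h))
    rw [map_mul, map_mul, e.apply_symm_apply] at h1
    exact h1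
  · intro hy
    have hy' := Subgroup.mem_center_iff.mp hy
    refine ⟨e.symm y, ?_, e.apply_symm_apply y⟩
    show e.symm y ∈ center G
    refine Subgroup.mem_center_iff.mpr ?_
    intro g
    have h1 := congrArg e.symm (hy' (e g))
    rw [map_mul, map_mul, e.symm_apply_apply] at h1
    exact h1

/-- An isomorphism of groups induces one of the quotients by the centres. -/
noncomputable def centerQuotEquiv {G H : Type*} [Group G] [Group H] (e : G ≃* H) :
    G ⧸ center G ≃* H ⧸ center H :=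
  QuotientGroup.congr (center G) (center H) e (map_center_equiv e)

theorem centerQuotEquiv_mk {G H : Type*} [Group G] [Group H] (e : G ≃* H) (x : G) :
    centerQuotEquiv e (QuotientGroup.mk x) = QuotientGroup.mk (e x) := rfl

end grp

section transport

variable {ι : Type} [Fintype ι] [DecidableEq ι] {F : Type*} [Field F]

theorem isoIsom_mem (Qf Qf' : (ι → F) → F) (T : GL ι F)
    (hT : ∀ v, Qf ((T : Matrix ι ι F) *ᵥ v) = Qf' v) (s : GL ι F)
    (hs : s ∈ Cfsg.isometryGroup F Qf') : T * s * T⁻¹ ∈ Cfsg.isometryGroup F Qf := by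
  rw [mem_isometryGroup_iff] at hs ⊢
  intro v
  have e1 : v = (T : Matrix ι ι F) *ᵥ (((T⁻¹ : GL ι F) : Matrix ι ι F) *ᵥ v) := by
    rw [mulVec_mulVec, ← Units.val_mul, mul_inv_cancel, Units.val_one, one_mulVec]
  have e2 : ((T * s * T⁻¹ : GL ι F) : Matrix ι ι F) *ᵥ v =
      (T : Matrix ι ι F) *ᵥ ((s : Matrix ι ι F) *ᵥ (((T⁻¹ : GL ι F) : Matrix ι ι F) *ᵥ v)) := by
    rw [Units.val_mul, Units.val_mul, mulVec_mulVec, mulVec_mulVec, Matrix.mul_assoc]
  rw [e2, hT, hs, ← hT, ← e1]

theorem isoIsom_mem' (Qf Qf' : (ι → F) → F) (T : GL ι F)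
    (hT : ∀ v, Qf ((T : Matrix ι ι F) *ᵥ v) = Qf' v) (s : GL ι F)
    (hs : s ∈ Cfsg.isometryGroup F Qf) : T⁻¹ * s * T ∈ Cfsg.isometryGroup F Qf' := by
  rw [mem_isometryGroup_iff] at hs ⊢
  intro v
  have e2 : (T : Matrix ι ι F) *ᵥ (((T⁻¹ * s * T : GL ι F) : Matrix ι ι F) *ᵥ v) =
      (s : Matrix ι ι F) *ᵥ ((T : Matrix ι ι F) *ᵥ v) := by
    rw [mulVec_mulVec, mulVec_mulVec, ← Units.val_mul, ← Units.val_mul, ← mul_assoc, ← mul_assoc,
      mul_inv_cancel, one_mul]
  rw [← hT, e2, hs, hT]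

/-- The isomorphism of isometry groups given by a change of basis `T` with `Qf (T v) = Qf' v`. -/
noncomputable def isoIsom (Qf Qf' : (ι → F) → F) (T : GL ι F)
    (hT : ∀ v, Qf ((T : Matrix ι ι F) *ᵥ v) = Qf' v) :
    ↥(Cfsg.isometryGroup F Qf') ≃* ↥(Cfsg.isometryGroup F Qf) where
  toFun s := ⟨T * (s : GL ι F) * T⁻¹, isoIsom_mem Qf Qf' T hT _ s.2⟩
  invFun s := ⟨T⁻¹ * (s : GL ι F) * T, isoIsom_mem' Qf Qf' T hT _ s.2⟩
  left_inv s := by
    apply Subtype.ext
    show T⁻¹ * (T * (s : GL ι F) * T⁻¹) * T = s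
    group
  right_inv s := by
    apply Subtype.ext
    show T * (T⁻¹ * (s : GL ι F) * T) * T⁻¹ = s
    group
  map_mul' s t := by
    apply Subtype.ext
    show T * ((s : GL ι F) * (t : GL ι F)) * T⁻¹ = T * (s : GL ι F) * T⁻¹ * (T * (t : GL ι F) * T⁻¹)
    group

/-- The induced isomorphism `PΩ(Qf') ≃* PΩ(Qf)`. -/
noncomputable def transPO (Qf Qf' : (ι → F) → F) (T : GL ι F)
    (hT : ∀ v, Qf ((T : Matrix ι ι F) *ᵥ v) = Qf' v) :
    Cfsg.POmega F Qf' ≃* Cfsg.POmega F Qf :=
  centerQuotEquiv (commEquiv (isoIsom Qf Qf' T hT))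

theorem transPO_mk (Qf Qf' : (ι → F) → F) (T : GL ι F)
    (hT : ∀ v, Qf ((T : Matrix ι ι F) *ᵥ v) = Qf' v) (s : ↥(Cfsg.Omega F Qf')) :
    transPO Qf Qf' T hT (QuotientGroup.mk s) =
      QuotientGroup.mk (commEquiv (isoIsom Qf Qf' T hT) s) := rfl

theorem transPO_symm_mk (Qf Qf' : (ι → F) → F) (T : GL ι F)
    (hT : ∀ v, Qf ((T : Matrix ι ι F) *ᵥ v) = Qf' v) (s : ↥(Cfsg.Omega F Qf)) :
    (transPO Qf Qf' T hT).symm (QuotientGroup.mk s) =
      QuotientGroup.mk ((commEquiv (isoIsom Qf Qf' T hT)).symm s) := by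
  rw [MulEquiv.symm_apply_eq, transPO_mk, MulEquiv.apply_symm_apply]

theorem sact_inl (T : GL ι F) (v : ι → F) :
    sact (SemidirectProduct.inl T : SemiGL ι F) v = (T : Matrix ι ι F) *ᵥ v := by
  unfold sact
  rw [SemidirectProduct.left_inl, SemidirectProduct.right_inl]
  rfl

/-- Transport of a semisimilarity along a change of basis. -/
theorem trans_mem_semiSim (Qf Qf' : (ι → F) → F) (T : GL ι F)
    (hT : ∀ v, Qf ((T : Matrix ι ι F) *ᵥ v) = Qf' v) (x : SemiGL ι F) (hx : x ∈ semiSim Qf') :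
    SemidirectProduct.inl T * x * (SemidirectProduct.inl T)⁻¹ ∈ semiSim Qf := by
  obtain ⟨c, hc⟩ := (mem_semiSim_iff Qf' x).mp hx
  rw [mem_semiSim_iff]
  refine ⟨c, fun v => ?_⟩
  have e1 : ∀ w, Qf' (sact ((SemidirectProduct.inl T : SemiGL ι F)⁻¹) w) = Qf w := by
    intro w
    rw [← hT, ← sact_inl, sact_sact_inv]
  have hr : (SemidirectProduct.inl T * x * (SemidirectProduct.inl T)⁻¹ : SemiGL ι F).right =
      x.right := by
    rw [SemidirectProduct.mul_right, SemidirectProduct.mul_right, SemidirectProduct.inv_right,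
      SemidirectProduct.right_inl, inv_one, mul_one, one_mul]
  rw [sact_mul, sact_mul, sact_inl, hT, hc, e1, hr]

set_option maxHeartbeats 1600000 in
/-- Conjugating the automorphism induced by a semisimilarity of `Qf'` by the transport
isomorphism gives the automorphism induced by the transported semisimilarity. -/
theorem transPO_semiAut (Qf Qf' : (ι → F) → F) (T : GL ι F)
    (hT : ∀ v, Qf ((T : Matrix ι ι F) *ᵥ v) = Qf' v) (x : ↥(semiSim Qf')) :
    ((transPO Qf Qf' T hT).symm.trans (semiAut Qf' x)).trans (transPO Qf Qf' T hT) =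
      semiAut Qf ⟨SemidirectProduct.inl T * (x : SemiGL ι F) * (SemidirectProduct.inl T)⁻¹,
        trans_mem_semiSim Qf Qf' T hT _ x.2⟩ := by
  apply MulEquiv.ext
  intro q
  obtain ⟨s, rfl⟩ := QuotientGroup.mk_surjective q
  rw [MulEquiv.trans_apply, MulEquiv.trans_apply, transPO_symm_mk, semiAut_mk, transPO_mk,
    semiAut_mk]
  congr 1
  apply Subtype.ext
  apply Subtype.ext
  show T * semiActGL (x : SemiGL ι F) (T⁻¹ * ((s : ↥(Cfsg.isometryGroup F Qf)) : GL ι F) * T) *
      T⁻¹ = semiActGL (SemidirectProduct.inl T * (x : SemiGL ι F) * (SemidirectProduct.inl T)⁻¹)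
        ((s : ↥(Cfsg.isometryGroup F Qf)) : GL ι F)
  have h1 : ∀ u : GL ι F, semiActGL (SemidirectProduct.inl T : SemiGL ι F) u = T * u * T⁻¹ := by
    intro u
    rw [semiActGL_apply, SemidirectProduct.left_inl, SemidirectProduct.right_inl, glMap_one]
  have h2 : ∀ u : GL ι F,
      semiActGL ((SemidirectProduct.inl T : SemiGL ι F)⁻¹) u = T⁻¹ * u * T := by
    intro u
    have h3 : semiActGL (SemidirectProduct.inl T : SemiGL ι F)
        (semiActGL ((SemidirectProduct.inl T : SemiGL ι F)⁻¹) u) = u := by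
      rw [← MulAut.mul_apply, ← map_mul, mul_inv_cancel, map_one, MulAut.one_apply]
    rw [h1] at h3
    calc semiActGL ((SemidirectProduct.inl T : SemiGL ι F)⁻¹) u
        = T⁻¹ * (T * semiActGL ((SemidirectProduct.inl T : SemiGL ι F)⁻¹) u * T⁻¹) * T := by
          group
      _ = T⁻¹ * u * T := by rw [h3]
  have h4 : semiActGL (SemidirectProduct.inl T * (x : SemiGL ι F) * (SemidirectProduct.inl T)⁻¹) =
      semiActGL (SemidirectProduct.inl T : SemiGL ι F) * semiActGL (x : SemiGL ι F) *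
        semiActGL ((SemidirectProduct.inl T : SemiGL ι F)⁻¹) := by
    rw [map_mul, map_mul]
  rw [h4, MulAut.mul_apply, MulAut.mul_apply, h1, h2]

end transport

section fieldclass

variable {ι : Type} [Fintype ι] [DecidableEq ι] {F : Type*} [Field F] [Fintype F]

/-- Automorphisms of a finite field commute. -/
theorem ringAut_mul_comm (σ τ : RingAut F) : σ * τ = τ * σ := by
  obtain ⟨p, hp⟩ := CharP.exists F
  haveI := hp
  haveI : Fact p.Prime := ⟨CharP.char_is_prime F p⟩
  obtain ⟨i, rfl⟩ := exists_frobAut_pow p σ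
  obtain ⟨j, rfl⟩ := exists_frobAut_pow p τ
  rw [← pow_add, ← pow_add, add_comm]

set_option maxHeartbeats 1600000 in
/-- If `x ∈ Aut(PΩ(Q))` becomes the standard field automorphism of `σ` under an isomorphism with
`PΩ(Qf')`, where `Qf'` is `Q` in another basis and is compatible with `σ`, then the field
automorphism attached to `x` is `σ`. -/
theorem typeHom_of_fieldAut (Q : QuadraticForm F (ι → F))
    (hQ : (QuadraticMap.polarBilin Q).Nondegenerate) (hn : 5 ≤ Fintype.card ι)
    (hAut : Cfsg.gammaPOmega F ⇑Q = ⊤) (Qf' : (ι → F) → F) (T : GL ι F)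
    (hT : ∀ v, Q ((T : Matrix ι ι F) *ᵥ v) = Qf' v) (σ : RingAut F)
    (hσ : ∀ v : ι → F, Qf' (fun i => σ (v i)) = σ (Qf' v))
    (ψ : Cfsg.POmega F ⇑Q ≃* Cfsg.POmega F Qf') (x : MulAut (Cfsg.POmega F ⇑Q))
    (hx : Cfsg.IsFieldAutPOmegaOf Qf' σ ((ψ.symm.trans x).trans ψ)) :
    typeHom Q hQ hn hAut x = σ := by
  obtain ⟨S₀, hS₀l, hS₀r⟩ : ∃ S₀ : ↥(semiSim Qf'), (S₀ : SemiGL ι F).left = 1 ∧
      (S₀ : SemiGL ι F).right = σ := by
    refine ⟨⟨⟨1, σ⟩, ?_⟩, rfl, rfl⟩
    rw [mem_semiSim_iff]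
    refine ⟨1, fun v => ?_⟩
    unfold sact
    rw [Units.val_one, one_mulVec, Units.val_one, one_mul]
    exact hσ v
  have hφ : (ψ.symm.trans x).trans ψ = semiAut Qf' S₀ := by
    apply (induced_iff_semiAut Qf' S₀ _).mp
    intro s s' h
    apply hx
    rw [h, hS₀l, hS₀r, inv_one, Units.val_one, Matrix.one_mul, Matrix.mul_one]
  obtain ⟨P₀, hP₀⟩ : ∃ P₀, P₀ = transPO (⇑Q) Qf' T hT := ⟨_, rfl⟩
  obtain ⟨α, hα⟩ : ∃ α : MulAut (Cfsg.POmega F ⇑Q), α = ψ.trans P₀ := ⟨_, rfl⟩
  have h1 : α * x * α⁻¹ = (P₀.symm.trans ((ψ.symm.trans x).trans ψ)).trans P₀ := by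
    apply MulEquiv.ext
    intro t
    rw [hα]
    rfl
  rw [hφ, hP₀, transPO_semiAut] at h1
  have h2 := congrArg (typeHom Q hQ hn hAut) h1
  rw [typeHom_semiAut, map_mul, map_mul, map_inv, ringAut_mul_comm, ← mul_assoc,
    inv_mul_cancel, one_mul] at h2
  rw [h2]
  show (SemidirectProduct.inl T * (S₀ : SemiGL ι F) * (SemidirectProduct.inl T)⁻¹ :
    SemiGL ι F).right = σ
  rw [SemidirectProduct.mul_right, SemidirectProduct.mul_right, SemidirectProduct.inv_right,
    SemidirectProduct.right_inl, inv_one, mul_one, one_mul, hS₀r]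

end fieldclass

end Cfsg.Agent.Lib.Helper14
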