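import Mathlib
import Cfsg.Prelude.Def_LieTypeDatum
import Cfsg.Agent.Lib.Helper14.AutOT
import Cfsg.Agent.Lib.Helper44.MinusExt
import Cfsg.Agent.Lib.Helper44.SimClass
import Cfsg.Agent.Lib.Helper45.QuadRoots

/-!
Similarities of the minus-type form preserving the two classes of maximal totally singular
subspaces over a quadratic extension, in every characteristic: an isometry does iff `rank (g - 1)`
is even; of a similarity `d` and its product `d c` with an isometry `c` with `rank (c - 1)` odd,
one does.
-/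

set_option autoImplicit false

namespace Cfsg.Agent.Lib.Helper14

open Matrix Module

section basechange

variable {ι : Type} [Fintype ι] [DecidableEq ι] {F : Type*} [Field F] {K : Type*} [Field K]

omit [Fintype ι] in
theorem map_single_one (j : F →+* K) (k : ι) :
    (fun i => j ((Pi.single k (1 : F) : ι → F) i)) = Pi.single k 1 := by
  funext i
  rw [Pi.single_apply, Pi.single_apply, apply_ite j, map_one, map_zero]

theorem reflectionMatrix_map (j : F →+* K) (Qf : (ι → F) → F) (QK : (ι → K) → K)
    (hj : ∀ u : ι → F, QK (fun i => j (u i)) = j (Qf u)) (u : ι → F) :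
    Cfsg.reflectionMatrix QK (fun i => j (u i)) = (Cfsg.reflectionMatrix Qf u).map j := by
  have hpol : ∀ k, Cfsg.polarVec QK (fun i => j (u i)) k = j (Cfsg.polarVec Qf u k) := by
    intro k
    unfold Cfsg.polarVec QuadraticMap.polar
    rw [map_sub, map_sub, ← hj, ← hj, ← hj, map_single_one]
    congr 3
    funext i
    rw [Pi.add_apply, Pi.add_apply, map_add]
    congr 1
    exact (congrFun (map_single_one j k) i).symm
  ext i k
  unfold Cfsg.reflectionMatrix
  rw [Matrix.map_apply, Matrix.sub_apply, Matrix.sub_apply, Matrix.smul_apply, Matrix.smul_apply,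
    Matrix.vecMulVec_apply, Matrix.vecMulVec_apply, hpol, hj, map_sub, smul_eq_mul, smul_eq_mul,
    map_mul, map_mul, map_inv₀, Matrix.one_apply, Matrix.one_apply, apply_ite j, map_one, map_zero]

theorem prod_reflectionMatrix_map (j : F →+* K) (Qf : (ι → F) → F) (QK : (ι → K) → K)
    (hj : ∀ u : ι → F, QK (fun i => j (u i)) = j (Qf u)) (l : List (ι → F)) :
    ((l.map (Cfsg.reflectionMatrix Qf)).prod).map j =
      ((l.map (fun u : ι → F => fun i => j (u i))).map (Cfsg.reflectionMatrix QK)).prod := by
  induction l with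
  | nil =>
    rw [List.map_nil, List.map_nil, List.map_nil, List.prod_nil, List.prod_nil]
    ext i k
    rw [Matrix.map_apply, Matrix.one_apply, Matrix.one_apply, apply_ite j, map_one, map_zero]
  | cons a l ih =>
    rw [List.map_cons, List.prod_cons, List.map_cons, List.map_cons, List.prod_cons, ← ih,
      reflectionMatrix_map j Qf QK hj a]
    exact Matrix.map_mul

end basechange

section classes

variable {ι : Type} [Fintype ι] [DecidableEq ι] {K : Type*} [Field K]

/-- A product of reflections preserves the two classes of maximal totally singular subspaces of a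
form of maximal Witt index iff the number of factors is even. -/
theorem preserves_iff_prod (Q : QuadraticForm K (ι → K))
    (hQ : (QuadraticMap.polarBilin Q).Nondegenerate) (k : ℕ)
    (hdim : finrank K (ι → K) = 2 * k) (E : Submodule K (ι → K)) (hE : IsMTS Q k E)
    (l : List (ι → K)) (hl : ∀ u ∈ l, Q u ≠ 0) :
    Cfsg.PreservesSingularClasses ⇑Q ((l.map (Cfsg.reflectionMatrix ⇑Q)).prod) ↔
      Even l.length := by
  have hmat : (((prodElt Q hQ l hl : ↥(Cfsg.isometryGroup K ⇑Q)) : GL ι K) : Matrix ι ι K) =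
      (l.map (Cfsg.reflectionMatrix ⇑Q)).prod := Cfsg.Agent.Lib.Helper44.prodElt_coe Q hQ l hl
  have key : ∀ U : Submodule K (ι → K), IsMTS Q k U →
      (Even (k - finrank K ↥(U ⊓ U.map (Matrix.mulVecLin
        ((l.map (Cfsg.reflectionMatrix ⇑Q)).prod)))) ↔ Even l.length) := by
    intro U hU
    rw [← hmat, ← mtsChar_eq_one_iff hQ hdim hU, mtsChar_prodElt]
    exact neg_one_pow_eq_one_iff_even (by decide)
  unfold Cfsg.PreservesSingularClasses Cfsg.SameParityClass Cfsg.imageSubmodule
  constructor
  · intro h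
    have h1 := h E ((Cfsg.Agent.Lib.Helper44.isMaxTS_iff_isMTS_gen Q hQ k hdim E hE E).mpr hE)
    rw [hE.1] at h1
    exact (key E hE).mp h1
  · intro h U hU
    have hU' := (Cfsg.Agent.Lib.Helper44.isMaxTS_iff_isMTS_gen Q hQ k hdim E hE U).mp hU
    rw [hU'.1]
    exact (key U hU').mpr h

omit [Fintype ι] [DecidableEq ι] in
theorem preserves_smul [Fintype ι] [DecidableEq ι] (Qf : (ι → K) → K) (c : K) (hc : c ≠ 0)
    (G : Matrix ι ι K) :
    Cfsg.PreservesSingularClasses Qf (c • G) ↔ Cfsg.PreservesSingularClasses Qf G := by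
  unfold Cfsg.PreservesSingularClasses Cfsg.imageSubmodule
  have e : ∀ U : Submodule K (ι → K), U.map (Matrix.toLin' (c • G)) = U.map (Matrix.toLin' G) := by
    intro U
    rw [map_smul]
    exact Submodule.map_smul _ _ c hc
  constructor
  · intro h U hU
    rw [← e]
    exact h U hU
  · intro h U hU
    rw [e]
    exact h U hU

end classes

section minus

universe u

variable {F : Type u} [Field F] [Fintype F]

theorem minus_disc_ne_zero_all (a b : F)
    (hab : ∀ z₁ z₂ : F, z₁ ^ 2 + a * z₁ * z₂ + b * z₂ ^ 2 = 0 → z₁ = 0 ∧ z₂ = 0) :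
    4 * b - a ^ 2 ≠ 0 := by
  by_cases h2 : (2 : F) = 0
  · have ha := Cfsg.Agent.Lib.Helper44.minus_coeff_ne_zero_char2 F h2 a b hab
    intro h
    apply ha
    have h3 : a ^ 2 = 0 := by linear_combination (2 * b) * h2 - h
    exact (pow_eq_zero_iff two_ne_zero).mp h3
  · exact minus_disc_ne_zero F h2 a b hab

set_option maxHeartbeats 1600000 in
/-- A product of reflections of the minus-type form preserves the two classes (over a quadratic
extension) iff the number of factors is even. -/
theorem minus_preserves_prod (m : ℕ) (a b : F)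
    (hab : ∀ z₁ z₂ : F, z₁ ^ 2 + a * z₁ * z₂ + b * z₂ ^ 2 = 0 → z₁ = 0 ∧ z₂ = 0)
    (l : List ((Fin m ⊕ Fin m) ⊕ Fin 2 → F)) (hl : ∀ u ∈ l, minusQF m F a b u ≠ 0) :
    Cfsg.PreservesSingularClassesMinus m a b
        ((l.map (Cfsg.reflectionMatrix ⇑(minusQF m F a b))).prod) ↔ Even l.length := by
  have hd := minus_disc_ne_zero_all a b hab
  have key : ∀ (K : Type u) [Field K] [Algebra F K], finrank F K = 2 →
      (Cfsg.PreservesSingularClasses
          (Cfsg.quadFormMinus m K (algebraMap F K a) (algebraMap F K b))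
          (((l.map (Cfsg.reflectionMatrix ⇑(minusQF m F a b))).prod).map (algebraMap F K)) ↔
        Even l.length) := by
    intro K _ _ hK
    haveI : Module.Finite F K := Module.finite_of_finrank_pos (by rw [hK]; norm_num)
    haveI : Finite K := Module.finite_iff_finite (R := F).mp inferInstance
    haveI : Fintype K := Fintype.ofFinite K
    have hcardK : Fintype.card K = Fintype.card F ^ 2 := by
      rw [Module.card_eq_pow_finrank (K := F) (V := K), hK]
    obtain ⟨α, β, -, hsum, hprod⟩ := Cfsg.Agent.Lib.Helper45.exists_roots_of_anisotropic rfl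
      hcardK (algebraMap F K) a b hab
    have hr : α ^ 2 + algebraMap F K a * α + algebraMap F K b = 0 := by
      linear_combination α * hsum - hprod
    obtain ⟨QK, hQK⟩ : ∃ QK, QK = minusQF m K (algebraMap F K a) (algebraMap F K b) := ⟨_, rfl⟩
    have hQKnd : (QuadraticMap.polarBilin QK).Nondegenerate := by
      rw [hQK]
      apply Cfsg.Agent.Lib.Helper44.minusQF_nondegenerate_of_disc
      rw [← map_pow, ← map_ofNat (algebraMap F K) 4, ← map_mul, ← map_sub]
      exact (map_ne_zero _).mpr hd
    have hdim : finrank K ((Fin m ⊕ Fin m) ⊕ Fin 2 → K) = 2 * (m + 1) := by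
      rw [Module.finrank_fintype_fun_eq_card, minus_card_idx]
      ring
    have hE := Cfsg.Agent.Lib.Helper44.minus_isMTS_of_root m (algebraMap F K a)
      (algebraMap F K b) α hr
    rw [← hQK] at hE
    have hcompat : ∀ u : (Fin m ⊕ Fin m) ⊕ Fin 2 → F,
        QK (fun i => algebraMap F K (u i)) = algebraMap F K (minusQF m F a b u) := by
      intro u
      rw [hQK, minusQF_coe, minusQF_coe]
      simp [Cfsg.quadFormMinus, map_sum]
    have hlK : ∀ u ∈ l.map (fun u : (Fin m ⊕ Fin m) ⊕ Fin 2 → F =>
        fun i => algebraMap F K (u i)), QK u ≠ 0 := by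
      intro u hu
      obtain ⟨u', hu', rfl⟩ := List.mem_map.mp hu
      rw [hcompat]
      exact (map_ne_zero _).mpr (hl u' hu')
    have hprodm := prod_reflectionMatrix_map (algebraMap F K) ⇑(minusQF m F a b) ⇑QK hcompat l
    have h3 := preserves_iff_prod QK hQKnd (m + 1) hdim _ hE _ hlK
    rw [List.length_map] at h3
    rw [hprodm, ← h3, hQK, minusQF_coe]
  constructor
  · rintro ⟨K, instF, instA, hK, hpres⟩
    exact (key K hK).mp hpres
  · intro hev
    obtain ⟨K, instF, instA, hK⟩ := Cfsg.Agent.Lib.Helper44.exists_quadratic_extension a b hab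
    exact ⟨K, instF, instA, hK, (key K hK).mpr hev⟩

/-- An isometry of the minus-type form preserves the two classes iff `rank (g - 1)` is even. -/
theorem minus_preserves_iff_rank (m : ℕ) (hm : 2 ≤ m) (a b : F)
    (hab : ∀ z₁ z₂ : F, z₁ ^ 2 + a * z₁ * z₂ + b * z₂ ^ 2 = 0 → z₁ = 0 ∧ z₂ = 0)
    (g : ↥(Cfsg.isometryGroup F ⇑(minusQF m F a b))) :
    Cfsg.PreservesSingularClassesMinus m a b
        ((g : GL ((Fin m ⊕ Fin m) ⊕ Fin 2) F) :
          Matrix ((Fin m ⊕ Fin m) ⊕ Fin 2) ((Fin m ⊕ Fin m) ⊕ Fin 2) F) ↔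
      Even (((g : GL ((Fin m ⊕ Fin m) ⊕ Fin 2) F) :
          Matrix ((Fin m ⊕ Fin m) ⊕ Fin 2) ((Fin m ⊕ Fin m) ⊕ Fin 2) F) - 1).rank := by
  have hQ := Cfsg.Agent.Lib.Helper44.minusQF_nondegenerate_all m F a b hab
  obtain ⟨l, hl, rfl⟩ := Cfsg.Agent.Lib.Helper44.exists_eq_prodElt_all (minusQF m F a b) hQ
    (Or.inr (by rw [minus_card_idx]; omega)) g
  have h := Cfsg.Agent.Lib.Helper44.rank_prodElt (minusQF m F a b) hQ l hl
  rw [Cfsg.Agent.Lib.Helper44.prodElt_coe] at h ⊢
  rw [minus_preserves_prod m a b hab l hl, Nat.even_iff, Nat.even_iff]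
  omega

/-- Scalar multiples preserve the classes together. -/
theorem minus_preserves_smul (m : ℕ) (a b : F) (t : F) (ht : t ≠ 0)
    (M : Matrix ((Fin m ⊕ Fin m) ⊕ Fin 2) ((Fin m ⊕ Fin m) ⊕ Fin 2) F) :
    Cfsg.PreservesSingularClassesMinus m a b (t • M) ↔
      Cfsg.PreservesSingularClassesMinus m a b M := by
  have key : ∀ (K : Type u) [Field K] [Algebra F K],
      (Cfsg.PreservesSingularClasses
          (Cfsg.quadFormMinus m K (algebraMap F K a) (algebraMap F K b))
          ((t • M).map (algebraMap F K)) ↔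
        Cfsg.PreservesSingularClasses
          (Cfsg.quadFormMinus m K (algebraMap F K a) (algebraMap F K b))
          (M.map (algebraMap F K))) := by
    intro K _ _
    rw [Matrix.map_smul' _ _ _ (map_mul (algebraMap F K))]
    exact preserves_smul _ _ ((map_ne_zero _).mpr ht) _
  constructor
  · rintro ⟨K, instF, instA, hK, hpres⟩
    exact ⟨K, instF, instA, hK, (key K).mp hpres⟩
  · rintro ⟨K, instF, instA, hK, hpres⟩
    exact ⟨K, instF, instA, hK, (key K).mpr hpres⟩

end minus

end Cfsg.Agent.Lib.Helper14
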