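import Mathlib
import Cfsg.Prelude.Def_LieTypeDatum
import Cfsg.Agent.Lib.Helper14.FldE
import Cfsg.Agent.Lib.Helper14.FldF
import Cfsg.Agent.Lib.Helper14.FldG

/-!
Field automorphisms of `PΩ⁻`: elements of prime order in the coset of a field automorphism under
the inner-diagonal group are conjugate to it under the inner-diagonal group.
-/

set_option autoImplicit false

namespace Cfsg.Agent.Lib.Helper14

open Matrix Module
open Cfsg.Agent.Lib.Helper44 (simAut simMult simMult_spec dickson)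

section minus2

universe u

variable {F : Type u} [Field F] [Fintype F]

set_option maxHeartbeats 1600000 in
/-- Of a similarity `d` of the minus-type form and its product with an isometry `c` with
`rank (c - 1)` odd, one preserves the two classes of maximal totally singular subspaces. -/
theorem minus_preserves_or (m : ℕ) (hm : 2 ≤ m) (a b : F)
    (hab : ∀ z₁ z₂ : F, z₁ ^ 2 + a * z₁ * z₂ + b * z₂ ^ 2 = 0 → z₁ = 0 ∧ z₂ = 0)
    (d : ↥(Cfsg.Geo.quadSimilarityGroup (F := F) ⇑(minusQF m F a b)))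
    (c : ↥(Cfsg.isometryGroup F ⇑(minusQF m F a b)))
    (hodd : Odd (((c : GL ((Fin m ⊕ Fin m) ⊕ Fin 2) F) :
      Matrix ((Fin m ⊕ Fin m) ⊕ Fin 2) ((Fin m ⊕ Fin m) ⊕ Fin 2) F) - 1).rank) :
    Cfsg.PreservesSingularClassesMinus m a b
        ((d : GL ((Fin m ⊕ Fin m) ⊕ Fin 2) F) :
          Matrix ((Fin m ⊕ Fin m) ⊕ Fin 2) ((Fin m ⊕ Fin m) ⊕ Fin 2) F) ∨
      Cfsg.PreservesSingularClassesMinus m a b
        (((d : GL ((Fin m ⊕ Fin m) ⊕ Fin 2) F) :
            Matrix ((Fin m ⊕ Fin m) ⊕ Fin 2) ((Fin m ⊕ Fin m) ⊕ Fin 2) F) *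
          ((c : GL ((Fin m ⊕ Fin m) ⊕ Fin 2) F) :
            Matrix ((Fin m ⊕ Fin m) ⊕ Fin 2) ((Fin m ⊕ Fin m) ⊕ Fin 2) F)) := by
  have hQ := Cfsg.Agent.Lib.Helper44.minusQF_nondegenerate_all m F a b hab
  have hcard : Fintype.card F ≠ 2 ∨ Fintype.card ((Fin m ⊕ Fin m) ⊕ Fin 2) ≠ 4 :=
    Or.inr (by rw [minus_card_idx]; omega)
  have hcd := Cfsg.Agent.Lib.Helper44.exists_eq_prodElt_all (minusQF m F a b) hQ hcard
  obtain ⟨μ, hμdef⟩ : ∃ μ : F, μ = (simMult ⇑(minusQF m F a b) d : F) := ⟨_, rfl⟩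
  have hμ0 : μ ≠ 0 := by
    rw [hμdef]
    exact (simMult ⇑(minusQF m F a b) d).ne_zero
  have hμ : ∀ v, minusQF m F a b
      (((d : GL ((Fin m ⊕ Fin m) ⊕ Fin 2) F) :
        Matrix ((Fin m ⊕ Fin m) ⊕ Fin 2) ((Fin m ⊕ Fin m) ⊕ Fin 2) F) *ᵥ v) =
      μ * minusQF m F a b v := by
    intro v
    rw [hμdef]
    exact simMult_spec ⇑(minusQF m F a b) d v
  have hcv : ∀ v, minusQF m F a b
      (((c : GL ((Fin m ⊕ Fin m) ⊕ Fin 2) F) :
        Matrix ((Fin m ⊕ Fin m) ⊕ Fin 2) ((Fin m ⊕ Fin m) ⊕ Fin 2) F) *ᵥ v) =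
      minusQF m F a b v := isom_preserves c
  obtain ⟨D, hD⟩ : ∃ D : Matrix ((Fin m ⊕ Fin m) ⊕ Fin 2) ((Fin m ⊕ Fin m) ⊕ Fin 2) F,
      D = ((d : GL ((Fin m ⊕ Fin m) ⊕ Fin 2) F) :
        Matrix ((Fin m ⊕ Fin m) ⊕ Fin 2) ((Fin m ⊕ Fin m) ⊕ Fin 2) F) := ⟨_, rfl⟩
  obtain ⟨C, hC⟩ : ∃ C : Matrix ((Fin m ⊕ Fin m) ⊕ Fin 2) ((Fin m ⊕ Fin m) ⊕ Fin 2) F,
      C = ((c : GL ((Fin m ⊕ Fin m) ⊕ Fin 2) F) :
        Matrix ((Fin m ⊕ Fin m) ⊕ Fin 2) ((Fin m ⊕ Fin m) ⊕ Fin 2) F) := ⟨_, rfl⟩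
  have hDu : IsUnit D.det := by
    rw [hD]
    exact (Matrix.isUnit_iff_isUnit_det _).mp (Units.isUnit _)
  have hCu : IsUnit C.det := by
    rw [hC]
    exact (Matrix.isUnit_iff_isUnit_det _).mp (Units.isUnit _)
  rw [← hD] at hμ ⊢
  rw [← hC] at hcv hodd ⊢
  by_cases h2 : (2 : F) = 0
  · haveI : CharP F 2 := CharTwo.of_one_ne_zero_of_two_eq_zero one_ne_zero h2
    obtain ⟨t, ht⟩ := FiniteField.isSquare_of_char_two (ringChar.eq F 2) μ
    have ht0 : t ≠ 0 := by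
      rintro rfl
      exact hμ0 (by rw [ht, mul_zero])
    obtain ⟨s₁, hs₁⟩ : ∃ s₁ : ↥(Cfsg.isometryGroup F ⇑(minusQF m F a b)),
        ((s₁ : GL ((Fin m ⊕ Fin m) ⊕ Fin 2) F) :
          Matrix ((Fin m ⊕ Fin m) ⊕ Fin 2) ((Fin m ⊕ Fin m) ⊕ Fin 2) F) = t⁻¹ • D := by
      have hdet : (t⁻¹ • D).det ≠ 0 := by
        rw [Matrix.det_smul]
        exact mul_ne_zero (pow_ne_zero _ (inv_ne_zero ht0)) hDu.ne_zero
      refine ⟨⟨Matrix.GeneralLinearGroup.mkOfDetNeZero _ hdet, ?_⟩, rfl⟩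
      rw [mem_isometryGroup_iff]
      intro v
      show minusQF m F a b ((t⁻¹ • D) *ᵥ v) = minusQF m F a b v
      rw [Matrix.smul_mulVec, QuadraticMap.map_smul, hμ, ht, smul_eq_mul]
      field_simp
    have hd_eq : D = t • ((s₁ : GL ((Fin m ⊕ Fin m) ⊕ Fin 2) F) :
        Matrix ((Fin m ⊕ Fin m) ⊕ Fin 2) ((Fin m ⊕ Fin m) ⊕ Fin 2) F) := by
      rw [hs₁, smul_smul, mul_inv_cancel₀ ht0, one_smul]
    have hdc_eq : D * C = t • (((s₁ * c : ↥(Cfsg.isometryGroup F ⇑(minusQF m F a b))) :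
        GL ((Fin m ⊕ Fin m) ⊕ Fin 2) F) :
        Matrix ((Fin m ⊕ Fin m) ⊕ Fin 2) ((Fin m ⊕ Fin m) ⊕ Fin 2) F) := by
      rw [hd_eq, Matrix.smul_mul, hC]
      rfl
    have hdick := Cfsg.Agent.Lib.Helper44.dickson_mul (minusQF m F a b) hQ hcd s₁ c
    have hc1 : dickson (⇑(minusQF m F a b)) c = -1 := by
      unfold Cfsg.Agent.Lib.Helper44.dickson
      rw [← hC]
      exact hodd.neg_one_pow
    rcases Int.units_eq_one_or (dickson (⇑(minusQF m F a b)) s₁) with h1 | h1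
    · left
      rw [hd_eq, minus_preserves_smul m a b t ht0, minus_preserves_iff_rank m hm a b hab s₁,
        ← Cfsg.Agent.Lib.Helper44.dickson_eq_one_iff]
      exact h1
    · right
      rw [hdc_eq, minus_preserves_smul m a b t ht0,
        minus_preserves_iff_rank m hm a b hab (s₁ * c),
        ← Cfsg.Agent.Lib.Helper44.dickson_eq_one_iff, hdick, h1, hc1]
      rfl
  · have hk : Fintype.card ((Fin m ⊕ Fin m) ⊕ Fin 2) = 2 * (m + 1) := by
      rw [minus_card_idx]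
      ring
    have hdetc : C.det = -1 := by
      obtain ⟨l, hl, rfl⟩ := hcd c
      have h := Cfsg.Agent.Lib.Helper44.rank_prodElt (minusQF m F a b) hQ l hl
      rw [Cfsg.Agent.Lib.Helper44.prodElt_coe] at h hC
      rw [hC, det_prod_reflectionMatrix (minusQF m F a b) l hl]
      rw [hC] at hodd
      have hl' : Odd l.length := by
        rw [Nat.odd_iff] at hodd ⊢
        omega
      exact hl'.neg_one_pow
    have hfun : ∀ x, Cfsg.quadFormMinus m F a b (D *ᵥ x) = μ * Cfsg.quadFormMinus m F a b x := by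
      intro x
      have h := hμ x
      rw [minusQF_coe] at h
      exact h
    have hfun2 : ∀ x, Cfsg.quadFormMinus m F a b ((D * C) *ᵥ x) =
        μ * Cfsg.quadFormMinus m F a b x := by
      intro x
      have h := hcv x
      rw [minusQF_coe] at h
      rw [← mulVec_mulVec, hfun, h]
    have hcases := Cfsg.Agent.Lib.Helper44.sim_det_cases (minusQF m F a b) hQ (m + 1) hk d
    rw [← hD, ← hμdef] at hcases
    rcases hcases with h | h
    · left
      exact (Cfsg.Agent.Lib.Helper44.minus_preserves_iff h2 m a b hab D μ hμ0 hDu hfun).mpr h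
    · right
      apply (Cfsg.Agent.Lib.Helper44.minus_preserves_iff h2 m a b hab (D * C) μ hμ0
        (by rw [det_mul]; exact hDu.mul hCu) hfun2).mpr
      rw [det_mul, h, hdetc]
      ring

omit [Fintype F] in
/-- The automorphism induced by a class-preserving similarity is inner-diagonal. -/
theorem simAut_mem_inndiag (m : ℕ) (a b : F)
    (d : ↥(Cfsg.Geo.quadSimilarityGroup (F := F) (Cfsg.quadFormMinus m F a b)))
    (hP : Cfsg.PreservesSingularClassesMinus m a b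
      ((d : GL ((Fin m ⊕ Fin m) ⊕ Fin 2) F) :
        Matrix ((Fin m ⊕ Fin m) ⊕ Fin 2) ((Fin m ⊕ Fin m) ⊕ Fin 2) F)) :
    simAut (Cfsg.quadFormMinus m F a b) d ∈ Cfsg.inndiagPOmegaMinus m F a b := by
  unfold Cfsg.inndiagPOmegaMinus Cfsg.autSubgroupOf
  apply Subgroup.subset_closure
  refine ⟨(d : GL ((Fin m ⊕ Fin m) ⊕ Fin 2) F), d.2, hP, ?_⟩
  intro s s' hs'
  rw [Cfsg.Agent.Lib.Helper44.simAut_mk]
  congr 1
  apply Subtype.ext
  apply isom_ext
  rw [hs', Cfsg.Agent.Lib.Helper44.simConj_coe, Cfsg.Agent.Lib.Helper44.map_refl_eq]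

omit [Fintype F] in
theorem inndiag_le_pgoAut_minus (m : ℕ) (a b : F) :
    Cfsg.inndiagPOmegaMinus m F a b ≤ Cfsg.pgoAut F (Cfsg.quadFormMinus m F a b) := by
  unfold Cfsg.inndiagPOmegaMinus Cfsg.pgoAut Cfsg.autSubgroupOf
  apply Subgroup.closure_mono
  rintro β ⟨g, hg, -, hind⟩
  exact ⟨g, hg, hind⟩

end minus2

end Cfsg.Agent.Lib.Helper14
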