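import Mathlib
import Cfsg.Prelude.Def_LieTypeDatum
import Cfsg.Agent.Lib.Helper14.FldH

/-!
Field automorphisms of `PΩ⁻_{2m+2}(F)` (`m ≥ 3`): elements of prime order in the coset of a field
automorphism of prime order under the inner-diagonal group are conjugate to it under the
inner-diagonal group.
-/

set_option autoImplicit false

namespace Cfsg.Agent.Lib.Helper14

open Matrix Module
open Cfsg.Agent.Lib.Helper44 (simAut)

section core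

universe u

variable {F : Type u} [Field F] [Fintype F]

set_option maxHeartbeats 3200000 in
theorem field_coset_conj_aux (m : ℕ) (hm : 3 ≤ m) (a b : F)
    (hab : ∀ z₁ z₂ : F, z₁ ^ 2 + a * z₁ * z₂ + b * z₂ ^ 2 = 0 → z₁ = 0 ∧ z₂ = 0)
    (Qf : ((Fin m ⊕ Fin m) ⊕ Fin 2 → F) → F) (hQf : ⇑(minusQF m F a b) = Qf)
    (x δ : MulAut (Cfsg.POmega F Qf))
    (hx : ∃ (a' b' : F) (ψ : Cfsg.POmega F Qf ≃* Cfsg.POmega F (Cfsg.quadFormMinus m F a' b'))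
      (σ : F ≃+* F),
      (∀ z₁ z₂ : F, z₁ ^ 2 + a' * z₁ * z₂ + b' * z₂ ^ 2 = 0 → z₁ = 0 ∧ z₂ = 0) ∧
      σ ≠ RingEquiv.refl F ∧ σ a' = a' ∧ σ b' = b' ∧
      Cfsg.IsFieldAutPOmegaOf (Cfsg.quadFormMinus m F a' b') σ ((ψ.symm.trans x).trans ψ))
    (r : ℕ) (hr : r.Prime) (hxr : orderOf x = r) (hδ : δ ∈ Cfsg.pgoAut F Qf)
    (hord : orderOf (δ * x) = r) :
    ∃ d : ↥(Cfsg.Geo.quadSimilarityGroup (F := F) Qf),
      Cfsg.PreservesSingularClassesMinus m a b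
        ((d : GL ((Fin m ⊕ Fin m) ⊕ Fin 2) F) :
          Matrix ((Fin m ⊕ Fin m) ⊕ Fin 2) ((Fin m ⊕ Fin m) ⊕ Fin 2) F) ∧
      δ * x = simAut Qf d * x * (simAut Qf d)⁻¹ := by
  subst hQf
  obtain ⟨a', b', ψ, σ, hab', hσne, hσa, hσb, hfield⟩ := hx
  have hQ := Cfsg.Agent.Lib.Helper44.minusQF_nondegenerate_all m F a b hab
  have hQ0 := Cfsg.Agent.Lib.Helper44.minusQF_nondegenerate_all m F a' b' hab'
  have hAut := minus_gamma_top m hm a b hab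
  have hn5 : 5 ≤ Fintype.card ((Fin m ⊕ Fin m) ⊕ Fin 2) := by
    rw [minus_card_idx]
    omega
  obtain ⟨tc, td, htd, ht1, ht2⟩ := exists_twist a b a' b' hab hab'
  have hT : ∀ v, minusQF m F a b
      (((twistGL m tc td htd : GL ((Fin m ⊕ Fin m) ⊕ Fin 2) F) :
        Matrix ((Fin m ⊕ Fin m) ⊕ Fin 2) ((Fin m ⊕ Fin m) ⊕ Fin 2) F) *ᵥ v) =
      Cfsg.quadFormMinus m F a' b' v := by
    intro v
    rw [minusQF_coe, twistGL_coe]
    exact twistMat_quad m a b tc td a' b' ht1 ht2 v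
  have hσcompat : ∀ v : (Fin m ⊕ Fin m) ⊕ Fin 2 → F,
      Cfsg.quadFormMinus m F a' b' (fun i => σ (v i)) = σ (Cfsg.quadFormMinus m F a' b' v) := by
    intro v
    have h := quadFormMinus_map m a' b' σ v
    rw [hσa, hσb] at h
    exact h
  have htype : typeHom (minusQF m F a b) hQ hn5 hAut x = σ :=
    typeHom_of_fieldAut (minusQF m F a b) hQ hn5 hAut _ (twistGL m tc td htd) hT σ hσcompat ψ x
      hfield
  obtain ⟨S, hS⟩ := semiAut_surjective ⇑(minusQF m F a b) hAut x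
  have hSr : (S : SemiGL ((Fin m ⊕ Fin m) ⊕ Fin 2) F).right = σ := by
    rw [← typeHom_semiAut (minusQF m F a b) hQ hn5 hAut S, hS, htype]
  rw [Cfsg.Agent.Lib.Helper44.pgoAut_eq_range] at hδ
  obtain ⟨d₀, rfl⟩ := hδ
  obtain ⟨S', hS'⟩ : ∃ S' : ↥(semiSim ⇑(minusQF m F a b)),
      S' = simToSemi ⇑(minusQF m F a b) d₀ * S := ⟨_, rfl⟩
  have hS'aut : semiAut ⇑(minusQF m F a b) S' = simAut ⇑(minusQF m F a b) d₀ * x := by
    rw [hS', map_mul, semiAut_simToSemi, hS]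
  have hS'r : (S' : SemiGL ((Fin m ⊕ Fin m) ⊕ Fin 2) F).right =
      (S : SemiGL ((Fin m ⊕ Fin m) ⊕ Fin 2) F).right := by
    rw [hS', Subgroup.coe_mul, SemidirectProduct.mul_right, simToSemi_right, one_mul]
  have hσr : orderOf σ = r := by
    have h1 : σ ^ r = 1 := by
      have h := congrArg (typeHom (minusQF m F a b) hQ hn5 hAut) (pow_orderOf_eq_one x)
      rw [hxr, map_pow, htype, map_one] at h
      exact h
    have h2 := orderOf_dvd_of_pow_eq_one h1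
    rcases (Nat.dvd_prime hr).mp h2 with h | h
    · exfalso
      apply hσne
      exact orderOf_eq_one_iff.mp h
    · exact h
  have hpowS : ∀ Z : ↥(semiSim ⇑(minusQF m F a b)),
      (Z : SemiGL ((Fin m ⊕ Fin m) ⊕ Fin 2) F).right = σ →
      semiAut ⇑(minusQF m F a b) Z ^ r = 1 →
      ∃ lam : F, lam ≠ 0 ∧
        (((Z : SemiGL ((Fin m ⊕ Fin m) ⊕ Fin 2) F) ^ r).left :
          Matrix ((Fin m ⊕ Fin m) ⊕ Fin 2) ((Fin m ⊕ Fin m) ⊕ Fin 2) F) =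
          lam • (1 : Matrix ((Fin m ⊕ Fin m) ⊕ Fin 2) ((Fin m ⊕ Fin m) ⊕ Fin 2) F) := by
    intro Z hZr hZ
    have hZr' : ((Z ^ r : ↥(semiSim ⇑(minusQF m F a b))) :
        SemiGL ((Fin m ⊕ Fin m) ⊕ Fin 2) F).right = 1 := by
      rw [Subgroup.coe_pow, semi_pow_right, hZr, ← hσr, pow_orderOf_eq_one]
    obtain ⟨n, hn⟩ := exists_sim_of_right_eq_one ⇑(minusQF m F a b) (Z ^ r) hZr'
    have hn1 : simAut ⇑(minusQF m F a b) n = 1 := by
      rw [← semiAut_simToSemi, hn, map_pow, hZ]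
    obtain ⟨E, hE, hE0⟩ := Cfsg.Agent.Lib.Helper44.minus_ts_three (F := F) m hm a b
    obtain ⟨lam, hlam, hmat⟩ := Cfsg.Agent.Lib.Helper44.scalar_of_simAut_eq_one (minusQF m F a b)
      hQ E hE hE0 n hn1
    refine ⟨lam, hlam, ?_⟩
    rw [← hmat, ← simToSemi_left ⇑(minusQF m F a b) n, hn, Subgroup.coe_pow]
  have hx_r : semiAut ⇑(minusQF m F a b) S ^ r = 1 := by
    rw [hS, ← hxr, pow_orderOf_eq_one]
  have hy_r : semiAut ⇑(minusQF m F a b) S' ^ r = 1 := by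
    rw [hS'aut, ← hord, pow_orderOf_eq_one]
  obtain ⟨lam, hlam, hpow⟩ := hpowS S hSr hx_r
  obtain ⟨lam', hlam', hpow'⟩ := hpowS S' (hS'r.trans hSr) hy_r
  have hpos : 0 < r := hr.pos
  obtain ⟨A, ν, κ, hA, hν, hκ, hA1, hA2⟩ := exists_frame m a b hab
    (S : SemiGL ((Fin m ⊕ Fin m) ⊕ Fin 2) F) S.2 r (by rw [hSr]; exact hσr) hpos lam hlam hpow
    a' b' (by rw [hSr]; exact hσa) (by rw [hSr]; exact hσb) hab'
  obtain ⟨A', ν', κ', hA', hν', hκ', hA1', hA2'⟩ := exists_frame m a b hab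
    (S' : SemiGL ((Fin m ⊕ Fin m) ⊕ Fin 2) F) S'.2 r (by rw [hS'r, hSr]; exact hσr) hpos lam'
    hlam' hpow' a' b' (by rw [hS'r, hSr]; exact hσa) (by rw [hS'r, hSr]; exact hσb) hab'
  rw [hS'r] at hA1'
  -- the reflection
  obtain ⟨u₀, hu₀def⟩ : ∃ u₀ : (Fin m ⊕ Fin m) ⊕ Fin 2 → F, u₀ = Pi.single (Sum.inr 0) 1 :=
    ⟨_, rfl⟩
  have hu₀ : minusQF m F a' b' u₀ ≠ 0 := by
    rw [hu₀def, minusQF_coe]
    simp [Cfsg.quadFormMinus]
  obtain ⟨ρ, hρdef⟩ : ∃ ρ, ρ = Cfsg.reflectionMatrix ⇑(minusQF m F a' b') u₀ := ⟨_, rfl⟩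
  have hρiso : ∀ v, Cfsg.quadFormMinus m F a' b' (ρ *ᵥ v) = Cfsg.quadFormMinus m F a' b' v := by
    intro v
    have h := reflectionMatrix_isometry (minusQF m F a' b') hu₀ v
    rw [minusQF_coe] at h
    rw [hρdef, minusQF_coe]
    exact h
  have hρdet : ρ.det = -1 := by
    rw [hρdef]
    exact det_reflectionMatrix (minusQF m F a' b') hu₀
  have hρmap : ρ.map (S : SemiGL ((Fin m ⊕ Fin m) ⊕ Fin 2) F).right = ρ := by
    rw [hSr, hρdef]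
    have hc : ∀ u : (Fin m ⊕ Fin m) ⊕ Fin 2 → F,
        (minusQF m F a' b') (fun i => (σ : F →+* F) (u i)) =
          (σ : F →+* F) ((minusQF m F a' b') u) := by
      intro u
      rw [minusQF_coe]
      exact hσcompat u
    have h := reflectionMatrix_map (σ : F →+* F) ⇑(minusQF m F a' b') ⇑(minusQF m F a' b') hc u₀
    have h2 : (fun i => (σ : F →+* F) (u₀ i)) = u₀ := by
      rw [hu₀def]
      exact map_single_one (σ : F →+* F) (Sum.inr 0)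
    rw [h2] at h
    exact h.symm
  have hρodd : Odd (ρ - 1).rank := by
    have h := Cfsg.Agent.Lib.Helper44.rank_prodElt (minusQF m F a' b') hQ0 [u₀]
      (by
        intro u hu
        rw [List.mem_singleton] at hu
        rw [hu]
        exact hu₀)
    rw [Cfsg.Agent.Lib.Helper44.prodElt_coe, List.map_singleton, List.prod_singleton, ← hρdef,
      List.length_singleton] at h
    rw [Nat.odd_iff]
    exact h
  have hAu : IsUnit A.det := isUnit_iff_ne_zero.mpr hA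
  have hAinvu : IsUnit (A⁻¹).det := by
    rw [Matrix.det_nonsing_inv, Ring.inverse_eq_inv']
    exact isUnit_iff_ne_zero.mpr (inv_ne_zero hA)
  have hQA : ∀ w, minusQF m F a b (A *ᵥ w) = κ⁻¹ * Cfsg.quadFormMinus m F a' b' w := by
    intro w
    rw [← hA2, ← mul_assoc, inv_mul_cancel₀ hκ, one_mul]
  -- the isometry c = A ρ A⁻¹
  obtain ⟨C, hCdef⟩ : ∃ C, C = A * ρ * A⁻¹ := ⟨_, rfl⟩
  have hCiso : ∀ v, minusQF m F a b (C *ᵥ v) = minusQF m F a b v := by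
    intro v
    have e1 : v = A *ᵥ (A⁻¹ *ᵥ v) := by
      rw [mulVec_mulVec, Matrix.mul_nonsing_inv A hAu, one_mulVec]
    have e2 : C *ᵥ v = A *ᵥ (ρ *ᵥ (A⁻¹ *ᵥ v)) := by
      rw [hCdef, mulVec_mulVec, mulVec_mulVec, Matrix.mul_assoc]
    rw [e2, hQA, hρiso, ← hQA, ← e1]
  have hCdet : C.det ≠ 0 := by
    rw [hCdef, det_mul, det_mul, hρdet]
    exact mul_ne_zero (mul_ne_zero hA (neg_ne_zero.mpr one_ne_zero)) hAinvu.ne_zero
  obtain ⟨c, hc⟩ : ∃ c : ↥(Cfsg.isometryGroup F ⇑(minusQF m F a b)),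
      ((c : GL ((Fin m ⊕ Fin m) ⊕ Fin 2) F) :
        Matrix ((Fin m ⊕ Fin m) ⊕ Fin 2) ((Fin m ⊕ Fin m) ⊕ Fin 2) F) = C :=
    ⟨⟨Matrix.GeneralLinearGroup.mkOfDetNeZero C hCdet,
      (mem_isometryGroup_iff _ _).mpr hCiso⟩, rfl⟩
  have hcodd : Odd (((c : GL ((Fin m ⊕ Fin m) ⊕ Fin 2) F) :
      Matrix ((Fin m ⊕ Fin m) ⊕ Fin 2) ((Fin m ⊕ Fin m) ⊕ Fin 2) F) - 1).rank := by
    have e : C - 1 = A * (ρ - 1) * A⁻¹ := by
      rw [hCdef, Matrix.mul_sub, Matrix.sub_mul, Matrix.mul_one, Matrix.mul_nonsing_inv A hAu]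
    rw [hc, e, Matrix.rank_mul_eq_left_of_isUnit_det _ _ hAinvu,
      Matrix.rank_mul_eq_right_of_isUnit_det _ _ hAu]
    exact hρodd
  -- the two conjugating similarities
  obtain ⟨d₁, hd₁mat, -, hd₁⟩ := semi_conj_of_frames (minusQF m F a b)
    (Cfsg.quadFormMinus m F a' b') S S' hS'r A A' ν κ ν' κ' hA hA' hν hκ' hν' hκ hA1 hA1' hA2 hA2'
  have hmm : (A' * ρ).map (S : SemiGL ((Fin m ⊕ Fin m) ⊕ Fin 2) F).right =
      A'.map (S : SemiGL ((Fin m ⊕ Fin m) ⊕ Fin 2) F).right *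
        ρ.map (S : SemiGL ((Fin m ⊕ Fin m) ⊕ Fin 2) F).right :=
    Matrix.map_mul (f := ((S : SemiGL ((Fin m ⊕ Fin m) ⊕ Fin 2) F).right : F →+* F))
  obtain ⟨d₂, hd₂mat, -, hd₂⟩ := semi_conj_of_frames (minusQF m F a b)
    (Cfsg.quadFormMinus m F a' b') S S' hS'r A (A' * ρ) ν κ ν' κ' hA
    (by
      rw [det_mul, hρdet]
      exact mul_ne_zero hA' (neg_ne_zero.mpr one_ne_zero))
    hν hκ' hν' hκ hA1
    (by rw [hmm, hρmap, ← Matrix.mul_assoc, hA1'])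
    hA2
    (by
      intro v
      rw [← mulVec_mulVec, hA2', hρiso])
  rw [hS'aut, hS] at hd₁ hd₂
  rcases minus_preserves_or m (by omega) a b hab d₁ c hcodd with hP | hP
  · exact ⟨d₁, hP, hd₁⟩
  · refine ⟨d₂, ?_, hd₂⟩
    have e : ((d₂ : GL ((Fin m ⊕ Fin m) ⊕ Fin 2) F) :
        Matrix ((Fin m ⊕ Fin m) ⊕ Fin 2) ((Fin m ⊕ Fin m) ⊕ Fin 2) F) =
        ((d₁ : GL ((Fin m ⊕ Fin m) ⊕ Fin 2) F) :
          Matrix ((Fin m ⊕ Fin m) ⊕ Fin 2) ((Fin m ⊕ Fin m) ⊕ Fin 2) F) *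
        ((c : GL ((Fin m ⊕ Fin m) ⊕ Fin 2) F) :
          Matrix ((Fin m ⊕ Fin m) ⊕ Fin 2) ((Fin m ⊕ Fin m) ⊕ Fin 2) F) := by
      rw [hd₂mat, hd₁mat, hc, hCdef, Matrix.mul_assoc A' A⁻¹, ← Matrix.mul_assoc A⁻¹,
        ← Matrix.mul_assoc A⁻¹, Matrix.nonsing_inv_mul A hAu, Matrix.one_mul, Matrix.mul_assoc]
    rw [e]
    exact hP

/-- **Field-automorphism cosets of `PΩ⁻`.** -/
theorem field_coset_conj (m : ℕ) (hm : 3 ≤ m) (a b : F)
    (hab : ∀ z₁ z₂ : F, z₁ ^ 2 + a * z₁ * z₂ + b * z₂ ^ 2 = 0 → z₁ = 0 ∧ z₂ = 0)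
    (x δ : MulAut (Cfsg.POmega F (Cfsg.quadFormMinus m F a b)))
    (hx : Cfsg.IsFieldAutClassPOmegaMinus m x) (r : ℕ) (hr : r.Prime) (hxr : orderOf x = r)
    (hδ : δ ∈ Cfsg.inndiagPOmegaMinus m F a b) (hord : orderOf (δ * x) = r) :
    Cfsg.IsConjUnder (Cfsg.inndiagPOmegaMinus m F a b) x (δ * x) := by
  obtain ⟨d, hP, hd⟩ := field_coset_conj_aux m hm a b hab _ (minusQF_coe m F a b) x δ hx r hr hxr
    (inndiag_le_pgoAut_minus m a b hδ) hord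
  exact ⟨simAut _ d, simAut_mem_inndiag m a b d hP, hd⟩

end core

end Cfsg.Agent.Lib.Helper14
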