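import Mathlib
import Cfsg.Prelude.Def_LieTypeDatum
import Cfsg.Agent.Lib.Helper14.FldI
import Cfsg.Agent.Lib.Helper44.InnDiag

/-!
The class-preserving similarities of the minus-type form are a subgroup, and `Inndiag(PΩ⁻)` is
its image.  Plus two general lemmas (images with equal kernels; rank under a field embedding).
-/

set_option autoImplicit false

namespace Cfsg.Agent.Lib.Helper14

open Matrix Module
open Cfsg.Agent.Lib.Helper44 (simAut simMult simMult_spec dickson)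

section grp

/-- The images of a subgroup under two homomorphisms with the same kernel on it are
isomorphic. -/
theorem nonempty_map_equiv_of_ker {G A₁ A₂ : Type*} [Group G] [Group A₁] [Group A₂]
    (f₁ : G →* A₁) (f₂ : G →* A₂) (H : Subgroup G)
    (hk : ∀ g ∈ H, f₁ g = 1 ↔ f₂ g = 1) :
    Nonempty (↥(H.map f₁) ≃* ↥(H.map f₂)) := by
  have e1 := QuotientGroup.quotientKerEquivRange (f₁.comp H.subtype)
  have e2 := QuotientGroup.quotientKerEquivRange (f₂.comp H.subtype)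
  have hker : (f₁.comp H.subtype).ker = (f₂.comp H.subtype).ker := by
    ext g
    rw [MonoidHom.mem_ker, MonoidHom.mem_ker, MonoidHom.comp_apply, MonoidHom.comp_apply]
    exact hk g g.2
  have r1 : (f₁.comp H.subtype).range = H.map f₁ := by
    rw [MonoidHom.range_comp, Subgroup.range_subtype]
  have r2 : (f₂.comp H.subtype).range = H.map f₂ := by
    rw [MonoidHom.range_comp, Subgroup.range_subtype]
  exact ⟨(MulEquiv.subgroupCongr r1.symm).trans (e1.symm.trans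
    ((QuotientGroup.quotientMulEquivOfEq hker).trans (e2.trans (MulEquiv.subgroupCongr r2))))⟩

end grp

section rk

variable {ι : Type} [Fintype ι] [DecidableEq ι]

/-- The rank of a matrix is unchanged by a field embedding. -/
theorem rank_map_gen {K L : Type*} [Field K] [Field L] (f : K →+* L)
    (M : Matrix ι ι K) : (M.map f).rank = M.rank := by
  classical
  obtain ⟨L₁, L₂, D, h⟩ := Matrix.Pivot.exists_list_transvec_mul_mul_list_transvec_eq_diagonal M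
  have hP := Matrix.TransvectionStruct.det_toMatrix_prod L₁
  have hQ := Matrix.TransvectionStruct.det_toMatrix_prod L₂
  obtain ⟨P, hPdef⟩ : ∃ P : Matrix ι ι K,
      P = (L₁.map Matrix.TransvectionStruct.toMatrix).prod := ⟨_, rfl⟩
  obtain ⟨Q, hQdef⟩ : ∃ Q : Matrix ι ι K,
      Q = (L₂.map Matrix.TransvectionStruct.toMatrix).prod := ⟨_, rfl⟩
  rw [← hPdef] at h hP
  rw [← hQdef] at h hQ
  have hP' : (P.map f).det = 1 := by
    have h1 := RingHom.map_det f P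
    rw [hP, map_one, RingHom.mapMatrix_apply] at h1
    exact h1.symm
  have hQ' : (Q.map f).det = 1 := by
    have h1 := RingHom.map_det f Q
    rw [hQ, map_one, RingHom.mapMatrix_apply] at h1
    exact h1.symm
  have h1 : M.rank = (Matrix.diagonal D).rank := by
    rw [← h, Matrix.rank_mul_eq_left_of_isUnit_det _ _ (by rw [hQ]; exact isUnit_one),
      Matrix.rank_mul_eq_right_of_isUnit_det _ _ (by rw [hP]; exact isUnit_one)]
  have h3 : (P.map f) * (M.map f) * (Q.map f) = Matrix.diagonal (fun i => f (D i)) := by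
    rw [← Matrix.map_mul, ← Matrix.map_mul, h, Matrix.diagonal_map (map_zero f)]
  have h2 : (M.map f).rank = (Matrix.diagonal (fun i => f (D i))).rank := by
    rw [← h3, Matrix.rank_mul_eq_left_of_isUnit_det _ _ (by rw [hQ']; exact isUnit_one),
      Matrix.rank_mul_eq_right_of_isUnit_det _ _ (by rw [hP']; exact isUnit_one)]
  rw [h1, h2, Matrix.rank_diagonal, Matrix.rank_diagonal]
  exact Fintype.card_congr (Equiv.subtypeEquivRight (fun i => by rw [Ne, Ne, map_eq_zero]))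

end rk

section pgrp

universe u

variable {F : Type u} [Field F] [Fintype F]

theorem minus_quad_ne (m : ℕ) (a b : F) : ∃ v, minusQF m F a b v ≠ 0 := by
  refine ⟨Pi.single (Sum.inr 0) 1, ?_⟩
  rw [minusQF_coe, minus_quad_g1]
  exact one_ne_zero

/-- In odd characteristic a similarity preserves the classes iff `det = μ^(m+1)`. -/
theorem minus_preserves_odd (h2 : (2 : F) ≠ 0) (m : ℕ) (a b : F)
    (hab : ∀ z₁ z₂ : F, z₁ ^ 2 + a * z₁ * z₂ + b * z₂ ^ 2 = 0 → z₁ = 0 ∧ z₂ = 0)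
    (d : ↥(Cfsg.Geo.quadSimilarityGroup (F := F) ⇑(minusQF m F a b))) :
    Cfsg.PreservesSingularClassesMinus m a b
        ((d : GL ((Fin m ⊕ Fin m) ⊕ Fin 2) F) :
          Matrix ((Fin m ⊕ Fin m) ⊕ Fin 2) ((Fin m ⊕ Fin m) ⊕ Fin 2) F) ↔
      ((d : GL ((Fin m ⊕ Fin m) ⊕ Fin 2) F) :
          Matrix ((Fin m ⊕ Fin m) ⊕ Fin 2) ((Fin m ⊕ Fin m) ⊕ Fin 2) F).det =
        (simMult ⇑(minusQF m F a b) d : F) ^ (m + 1) := by
  have hfun : ∀ x, Cfsg.quadFormMinus m F a b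
      (((d : GL ((Fin m ⊕ Fin m) ⊕ Fin 2) F) :
        Matrix ((Fin m ⊕ Fin m) ⊕ Fin 2) ((Fin m ⊕ Fin m) ⊕ Fin 2) F) *ᵥ x) =
      (simMult ⇑(minusQF m F a b) d : F) * Cfsg.quadFormMinus m F a b x := by
    intro x
    have h := simMult_spec ⇑(minusQF m F a b) d x
    have e := congrFun (minusQF_coe m F a b)
    rw [← e, ← e]
    exact h
  exact Cfsg.Agent.Lib.Helper44.minus_preserves_iff h2 m a b hab _ _
    (simMult ⇑(minusQF m F a b) d).ne_zero
    ((Matrix.isUnit_iff_isUnit_det _).mp (Units.isUnit _)) hfun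

/-- In characteristic two a similarity is a scalar multiple of an isometry. -/
theorem char2_sim_decomp (h2 : (2 : F) = 0) (m : ℕ) (a b : F)
    (d : ↥(Cfsg.Geo.quadSimilarityGroup (F := F) ⇑(minusQF m F a b))) :
    ∃ (t : F) (s : ↥(Cfsg.isometryGroup F ⇑(minusQF m F a b))), t ≠ 0 ∧
      ((d : GL ((Fin m ⊕ Fin m) ⊕ Fin 2) F) :
        Matrix ((Fin m ⊕ Fin m) ⊕ Fin 2) ((Fin m ⊕ Fin m) ⊕ Fin 2) F) =
      t • ((s : GL ((Fin m ⊕ Fin m) ⊕ Fin 2) F) :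
        Matrix ((Fin m ⊕ Fin m) ⊕ Fin 2) ((Fin m ⊕ Fin m) ⊕ Fin 2) F) := by
  haveI : CharP F 2 := CharTwo.of_one_ne_zero_of_two_eq_zero one_ne_zero h2
  obtain ⟨μ, hμdef⟩ : ∃ μ : F, μ = (simMult ⇑(minusQF m F a b) d : F) := ⟨_, rfl⟩
  have hμ0 : μ ≠ 0 := by
    rw [hμdef]
    exact (simMult ⇑(minusQF m F a b) d).ne_zero
  obtain ⟨D, hD⟩ : ∃ D : Matrix ((Fin m ⊕ Fin m) ⊕ Fin 2) ((Fin m ⊕ Fin m) ⊕ Fin 2) F,
      D = ((d : GL ((Fin m ⊕ Fin m) ⊕ Fin 2) F) :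
        Matrix ((Fin m ⊕ Fin m) ⊕ Fin 2) ((Fin m ⊕ Fin m) ⊕ Fin 2) F) := ⟨_, rfl⟩
  have hμ : ∀ v, minusQF m F a b (D *ᵥ v) = μ * minusQF m F a b v := by
    intro v
    rw [hμdef, hD]
    exact simMult_spec ⇑(minusQF m F a b) d v
  have hDu : IsUnit D.det := by
    rw [hD]
    exact (Matrix.isUnit_iff_isUnit_det _).mp (Units.isUnit _)
  obtain ⟨t, ht⟩ := FiniteField.isSquare_of_char_two (ringChar.eq F 2) μ
  have ht0 : t ≠ 0 := by
    rintro rfl
    exact hμ0 (by rw [ht, mul_zero])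
  have hdet : (t⁻¹ • D).det ≠ 0 := by
    rw [Matrix.det_smul]
    exact mul_ne_zero (pow_ne_zero _ (inv_ne_zero ht0)) hDu.ne_zero
  refine ⟨t, ⟨Matrix.GeneralLinearGroup.mkOfDetNeZero _ hdet, ?_⟩, ht0, ?_⟩
  · rw [mem_isometryGroup_iff]
    intro v
    show minusQF m F a b ((t⁻¹ • D) *ᵥ v) = minusQF m F a b v
    rw [Matrix.smul_mulVec, QuadraticMap.map_smul, hμ, ht, smul_eq_mul]
    field_simp
  · rw [← hD]
    show D = t • (t⁻¹ • D)
    rw [smul_smul, mul_inv_cancel₀ ht0, one_smul]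

/-- A scalar multiple of an isometry preserves the classes iff the isometry has trivial Dickson
invariant. -/
theorem minus_preserves_smul_isom (m : ℕ) (hm : 2 ≤ m) (a b : F)
    (hab : ∀ z₁ z₂ : F, z₁ ^ 2 + a * z₁ * z₂ + b * z₂ ^ 2 = 0 → z₁ = 0 ∧ z₂ = 0)
    (M : Matrix ((Fin m ⊕ Fin m) ⊕ Fin 2) ((Fin m ⊕ Fin m) ⊕ Fin 2) F) (t : F) (ht : t ≠ 0)
    (s : ↥(Cfsg.isometryGroup F ⇑(minusQF m F a b)))
    (h : M = t • ((s : GL ((Fin m ⊕ Fin m) ⊕ Fin 2) F) :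
        Matrix ((Fin m ⊕ Fin m) ⊕ Fin 2) ((Fin m ⊕ Fin m) ⊕ Fin 2) F)) :
    Cfsg.PreservesSingularClassesMinus m a b M ↔ dickson ⇑(minusQF m F a b) s = 1 := by
  rw [h, minus_preserves_smul m a b t ht, minus_preserves_iff_rank m hm a b hab s,
    ← Cfsg.Agent.Lib.Helper44.dickson_eq_one_iff]

set_option maxHeartbeats 800000 in
/-- The class-preserving similarities are closed under products. -/
theorem minus_preserves_mul (m : ℕ) (hm : 2 ≤ m) (a b : F)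
    (hab : ∀ z₁ z₂ : F, z₁ ^ 2 + a * z₁ * z₂ + b * z₂ ^ 2 = 0 → z₁ = 0 ∧ z₂ = 0)
    (d e : ↥(Cfsg.Geo.quadSimilarityGroup (F := F) ⇑(minusQF m F a b)))
    (hd : Cfsg.PreservesSingularClassesMinus m a b
        ((d : GL ((Fin m ⊕ Fin m) ⊕ Fin 2) F) :
          Matrix ((Fin m ⊕ Fin m) ⊕ Fin 2) ((Fin m ⊕ Fin m) ⊕ Fin 2) F)) :
    Cfsg.PreservesSingularClassesMinus m a b
        (((d * e : ↥(Cfsg.Geo.quadSimilarityGroup (F := F) ⇑(minusQF m F a b))) :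
          GL ((Fin m ⊕ Fin m) ⊕ Fin 2) F) :
          Matrix ((Fin m ⊕ Fin m) ⊕ Fin 2) ((Fin m ⊕ Fin m) ⊕ Fin 2) F) ↔
      Cfsg.PreservesSingularClassesMinus m a b
        ((e : GL ((Fin m ⊕ Fin m) ⊕ Fin 2) F) :
          Matrix ((Fin m ⊕ Fin m) ⊕ Fin 2) ((Fin m ⊕ Fin m) ⊕ Fin 2) F) := by
  have hQ := Cfsg.Agent.Lib.Helper44.minusQF_nondegenerate_all m F a b hab
  by_cases h2 : (2 : F) = 0
  · obtain ⟨t, s, ht, hs⟩ := char2_sim_decomp h2 m a b d
    obtain ⟨t', s', ht', hs'⟩ := char2_sim_decomp h2 m a b e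
    have hcd := Cfsg.Agent.Lib.Helper44.exists_eq_prodElt_all (minusQF m F a b) hQ
      (Or.inr (by rw [minus_card_idx]; omega))
    have hmul : (((d * e : ↥(Cfsg.Geo.quadSimilarityGroup (F := F) ⇑(minusQF m F a b))) :
          GL ((Fin m ⊕ Fin m) ⊕ Fin 2) F) :
          Matrix ((Fin m ⊕ Fin m) ⊕ Fin 2) ((Fin m ⊕ Fin m) ⊕ Fin 2) F) =
        (t * t') • (((s * s' : ↥(Cfsg.isometryGroup F ⇑(minusQF m F a b))) :
          GL ((Fin m ⊕ Fin m) ⊕ Fin 2) F) :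
          Matrix ((Fin m ⊕ Fin m) ⊕ Fin 2) ((Fin m ⊕ Fin m) ⊕ Fin 2) F) := by
      show ((d : GL ((Fin m ⊕ Fin m) ⊕ Fin 2) F) :
          Matrix ((Fin m ⊕ Fin m) ⊕ Fin 2) ((Fin m ⊕ Fin m) ⊕ Fin 2) F) *
        ((e : GL ((Fin m ⊕ Fin m) ⊕ Fin 2) F) :
          Matrix ((Fin m ⊕ Fin m) ⊕ Fin 2) ((Fin m ⊕ Fin m) ⊕ Fin 2) F) =
        (t * t') • (((s : GL ((Fin m ⊕ Fin m) ⊕ Fin 2) F) :
          Matrix ((Fin m ⊕ Fin m) ⊕ Fin 2) ((Fin m ⊕ Fin m) ⊕ Fin 2) F) *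
        ((s' : GL ((Fin m ⊕ Fin m) ⊕ Fin 2) F) :
          Matrix ((Fin m ⊕ Fin m) ⊕ Fin 2) ((Fin m ⊕ Fin m) ⊕ Fin 2) F))
      rw [hs, hs', Matrix.smul_mul, Matrix.mul_smul, smul_smul]
    rw [minus_preserves_smul_isom m hm a b hab _ t ht s hs] at hd
    rw [minus_preserves_smul_isom m hm a b hab _ (t * t') (mul_ne_zero ht ht') (s * s') hmul,
      minus_preserves_smul_isom m hm a b hab _ t' ht' s' hs',
      Cfsg.Agent.Lib.Helper44.dickson_mul (minusQF m F a b) hQ hcd, hd, one_mul]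
  · have hne := minus_quad_ne m a b
    rw [minus_preserves_odd h2 m a b hab] at hd ⊢
    rw [minus_preserves_odd h2 m a b hab e,
      Cfsg.Agent.Lib.Helper44.simMult_mul _ hne, Subgroup.coe_mul, Units.val_mul,
      Units.val_mul, det_mul, hd, mul_pow]
    constructor
    · intro h
      exact mul_left_cancel₀ (pow_ne_zero _ (simMult ⇑(minusQF m F a b) d).ne_zero) h
    · intro h
      rw [h]

theorem minus_preserves_one (m : ℕ) (hm : 2 ≤ m) (a b : F)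
    (hab : ∀ z₁ z₂ : F, z₁ ^ 2 + a * z₁ * z₂ + b * z₂ ^ 2 = 0 → z₁ = 0 ∧ z₂ = 0) :
    Cfsg.PreservesSingularClassesMinus m a b
      (1 : Matrix ((Fin m ⊕ Fin m) ⊕ Fin 2) ((Fin m ⊕ Fin m) ⊕ Fin 2) F) := by
  have h := minus_preserves_iff_rank m hm a b hab 1
  rw [Subgroup.coe_one, Units.val_one, sub_self, Matrix.rank_zero] at h
  exact h.mpr ⟨0, rfl⟩

/-- The subgroup of class-preserving similarities of the minus-type form. -/
def hpSub (m : ℕ) (hm : 2 ≤ m) (a b : F)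
    (hab : ∀ z₁ z₂ : F, z₁ ^ 2 + a * z₁ * z₂ + b * z₂ ^ 2 = 0 → z₁ = 0 ∧ z₂ = 0)
    (Qf : ((Fin m ⊕ Fin m) ⊕ Fin 2 → F) → F) (hQf : ⇑(minusQF m F a b) = Qf) :
    Subgroup ↥(Cfsg.Geo.quadSimilarityGroup (F := F) Qf) where
  carrier := {d | Cfsg.PreservesSingularClassesMinus m a b
    ((d : GL ((Fin m ⊕ Fin m) ⊕ Fin 2) F) :
      Matrix ((Fin m ⊕ Fin m) ⊕ Fin 2) ((Fin m ⊕ Fin m) ⊕ Fin 2) F)}
  mul_mem' := by
    subst hQf
    intro d e hd he
    exact (minus_preserves_mul m hm a b hab d e hd).mpr he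
  one_mem' := by
    subst hQf
    exact minus_preserves_one m hm a b hab
  inv_mem' := by
    subst hQf
    intro d hd
    have h := minus_preserves_mul m hm a b hab d d⁻¹ hd
    rw [mul_inv_cancel] at h
    exact h.mp (minus_preserves_one m hm a b hab)

theorem mem_hpSub (m : ℕ) (hm : 2 ≤ m) (a b : F)
    (hab : ∀ z₁ z₂ : F, z₁ ^ 2 + a * z₁ * z₂ + b * z₂ ^ 2 = 0 → z₁ = 0 ∧ z₂ = 0)
    (Qf : ((Fin m ⊕ Fin m) ⊕ Fin 2 → F) → F) (hQf : ⇑(minusQF m F a b) = Qf)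
    (d : ↥(Cfsg.Geo.quadSimilarityGroup (F := F) Qf)) :
    d ∈ hpSub m hm a b hab Qf hQf ↔ Cfsg.PreservesSingularClassesMinus m a b
      ((d : GL ((Fin m ⊕ Fin m) ⊕ Fin 2) F) :
        Matrix ((Fin m ⊕ Fin m) ⊕ Fin 2) ((Fin m ⊕ Fin m) ⊕ Fin 2) F) := Iff.rfl

/-- `Inndiag(PΩ⁻)` is the image of the class-preserving similarities. -/
theorem inndiag_eq_map (m : ℕ) (hm : 2 ≤ m) (a b : F)
    (hab : ∀ z₁ z₂ : F, z₁ ^ 2 + a * z₁ * z₂ + b * z₂ ^ 2 = 0 → z₁ = 0 ∧ z₂ = 0) :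
    Cfsg.inndiagPOmegaMinus m F a b =
      (hpSub m hm a b hab (Cfsg.quadFormMinus m F a b) (minusQF_coe m F a b)).map
        (simAut (Cfsg.quadFormMinus m F a b)) :=
  Cfsg.Agent.Lib.Helper44.closure_induced_pred_eq_map (Cfsg.quadFormMinus m F a b)
    (Cfsg.PreservesSingularClassesMinus m a b) _ (fun _ => Iff.rfl)

end pgrp

end Cfsg.Agent.Lib.Helper14
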