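import Mathlib
import Cfsg.Prelude.Def_LieTypeDatum
import Cfsg.Agent.Lib.Helper14.FldJ

/-!
Subfield embedding of the similarity group of the minus-type form over a subfield `F₀ → F` into
the similarity group of a form over `F` having a frame to the form with the same coefficients.
-/

set_option autoImplicit false

namespace Cfsg.Agent.Lib.Helper14

open Matrix Module
open Cfsg.Agent.Lib.Helper44 (simAut simMult simMult_spec dickson)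

section emb

universe u u₀

variable {F : Type u} [Field F] {F₀ : Type u₀} [Field F₀]

theorem map_mulVec_hom {ι : Type} [Fintype ι] (j : F₀ →+* F) (M : Matrix ι ι F₀) (v : ι → F₀) :
    (M.map j) *ᵥ (fun i => j (v i)) = fun i => j ((M *ᵥ v) i) := by
  funext i
  simp only [Matrix.mulVec, dotProduct, Matrix.map_apply, map_sum, map_mul]

/-- Two quadratic forms agreeing on the vectors with coordinates in a subfield are equal. -/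
theorem quad_ext_hom {ι : Type} [Fintype ι] [DecidableEq ι] (j : F₀ →+* F)
    (P P' : QuadraticForm F (ι → F))
    (h : ∀ v : ι → F₀, P (fun i => j (v i)) = P' (fun i => j (v i))) : P = P' := by
  apply Cfsg.Agent.Lib.Helper99.quad_ext_basis (Pi.basisFun F ι)
  · intro i
    rw [Pi.basisFun_apply, ← map_single_one j i]
    exact h _
  · intro i k _
    rw [Pi.basisFun_apply, Pi.basisFun_apply]
    have hadd : (fun t => j ((Pi.single i (1 : F₀) + Pi.single k 1 : ι → F₀) t)) =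
        (Pi.single i (1 : F) + Pi.single k 1 : ι → F) := by
      funext t
      rw [Pi.add_apply, map_add, Pi.add_apply]
      congr 1
      · exact congrFun (map_single_one j i) t
      · exact congrFun (map_single_one j k) t
    unfold QuadraticMap.polar
    rw [← hadd, ← map_single_one j i, ← map_single_one j k, h, h, h]

theorem minus_compat_hom (j : F₀ →+* F) (m : ℕ) (a₀ b₀ : F₀)
    (v : (Fin m ⊕ Fin m) ⊕ Fin 2 → F₀) :
    Cfsg.quadFormMinus m F (j a₀) (j b₀) (fun i => j (v i)) =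
      j (Cfsg.quadFormMinus m F₀ a₀ b₀ v) := by
  simp [Cfsg.quadFormMinus, map_sum]

/-- A similarity over the subfield is a similarity over the big field. -/
theorem map_sim_hom (j : F₀ →+* F) (m : ℕ) (a₀ b₀ : F₀)
    (D₀ : Matrix ((Fin m ⊕ Fin m) ⊕ Fin 2) ((Fin m ⊕ Fin m) ⊕ Fin 2) F₀) (c₀ : F₀)
    (h : ∀ v, Cfsg.quadFormMinus m F₀ a₀ b₀ (D₀ *ᵥ v) = c₀ * Cfsg.quadFormMinus m F₀ a₀ b₀ v)
    (w : (Fin m ⊕ Fin m) ⊕ Fin 2 → F) :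
    Cfsg.quadFormMinus m F (j a₀) (j b₀) ((D₀.map j) *ᵥ w) =
      j c₀ * Cfsg.quadFormMinus m F (j a₀) (j b₀) w := by
  have key : (minusQF m F (j a₀) (j b₀)).comp (Matrix.toLin' (D₀.map j)) =
      (j c₀) • minusQF m F (j a₀) (j b₀) := by
    apply quad_ext_hom j
    intro v
    rw [QuadraticMap.comp_apply, Matrix.toLin'_apply, QuadraticMap.smul_apply, smul_eq_mul,
      minusQF_coe, map_mulVec_hom, minus_compat_hom, minus_compat_hom, h, map_mul]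
  have h3 := DFunLike.congr_fun key w
  rw [QuadraticMap.comp_apply, Matrix.toLin'_apply, QuadraticMap.smul_apply, smul_eq_mul,
    minusQF_coe] at h3
  exact h3

/-- Conjugating a similarity of the frame form by the frame gives a similarity. -/
theorem frame_sim {ι : Type} [Fintype ι] [DecidableEq ι] (Qf Q'f : (ι → F) → F)
    (A : Matrix ι ι F) (κ : F) (hA : A.det ≠ 0) (hκ : κ ≠ 0)
    (h2 : ∀ v, κ * Qf (A *ᵥ v) = Q'f v) (D : Matrix ι ι F) (c : F)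
    (hD : ∀ w, Q'f (D *ᵥ w) = c * Q'f w) (v : ι → F) :
    Qf ((A * D * A⁻¹) *ᵥ v) = c * Qf v := by
  have hAu : IsUnit A.det := isUnit_iff_ne_zero.mpr hA
  have hQA : ∀ w, Qf (A *ᵥ w) = κ⁻¹ * Q'f w := by
    intro w
    rw [← h2, ← mul_assoc, inv_mul_cancel₀ hκ, one_mul]
  have e1 : v = A *ᵥ (A⁻¹ *ᵥ v) := by
    rw [mulVec_mulVec, Matrix.mul_nonsing_inv A hAu, one_mulVec]
  have e2 : (A * D * A⁻¹) *ᵥ v = A *ᵥ (D *ᵥ (A⁻¹ *ᵥ v)) := by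
    rw [mulVec_mulVec, mulVec_mulVec, Matrix.mul_assoc]
  rw [e2, hQA, hD]
  conv_rhs => rw [e1, hQA]
  ring

/-- The embedding of the similarity group over the subfield via a frame. -/
noncomputable def frameHom (j : F₀ →+* F) (m : ℕ) (a b : F) (a₀ b₀ : F₀)
    (A : Matrix ((Fin m ⊕ Fin m) ⊕ Fin 2) ((Fin m ⊕ Fin m) ⊕ Fin 2) F) (κ : F)
    (hA : A.det ≠ 0) (hκ : κ ≠ 0)
    (h2 : ∀ v, κ * minusQF m F a b (A *ᵥ v) = Cfsg.quadFormMinus m F (j a₀) (j b₀) v) :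
    ↥(Cfsg.Geo.quadSimilarityGroup (F := F₀) ⇑(minusQF m F₀ a₀ b₀)) →*
      ↥(Cfsg.Geo.quadSimilarityGroup (F := F) ⇑(minusQF m F a b)) where
  toFun d := ⟨Matrix.GeneralLinearGroup.mkOfDetNeZero A hA *
      Matrix.GeneralLinearGroup.map j (d : GL ((Fin m ⊕ Fin m) ⊕ Fin 2) F₀) *
      (Matrix.GeneralLinearGroup.mkOfDetNeZero A hA)⁻¹, by
    obtain ⟨c, hc⟩ := d.2
    refine ⟨Units.map (j : F₀ →* F) c, fun v => ?_⟩
    have hc' : ∀ v, Cfsg.quadFormMinus m F₀ a₀ b₀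
        (((d : GL ((Fin m ⊕ Fin m) ⊕ Fin 2) F₀) :
          Matrix ((Fin m ⊕ Fin m) ⊕ Fin 2) ((Fin m ⊕ Fin m) ⊕ Fin 2) F₀) *ᵥ v) =
        (c : F₀) * Cfsg.quadFormMinus m F₀ a₀ b₀ v := by
      intro v
      have e := congrFun (minusQF_coe m F₀ a₀ b₀)
      rw [← e, ← e]
      exact hc v
    have h3 := frame_sim ⇑(minusQF m F a b) (Cfsg.quadFormMinus m F (j a₀) (j b₀)) A κ hA hκ h2
      _ _ (map_sim_hom j m a₀ b₀ _ _ hc') v
    rw [Units.val_mul, Units.val_mul, Matrix.coe_units_inv]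
    exact h3⟩
  map_one' := by
    apply Subtype.ext
    show Matrix.GeneralLinearGroup.mkOfDetNeZero A hA *
      Matrix.GeneralLinearGroup.map j
        ((1 : ↥(Cfsg.Geo.quadSimilarityGroup (F := F₀) ⇑(minusQF m F₀ a₀ b₀))) :
          GL ((Fin m ⊕ Fin m) ⊕ Fin 2) F₀) *
      (Matrix.GeneralLinearGroup.mkOfDetNeZero A hA)⁻¹ = 1
    rw [Subgroup.coe_one, map_one, mul_one, mul_inv_cancel]
  map_mul' := by
    intro x y
    apply Subtype.ext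
    show Matrix.GeneralLinearGroup.mkOfDetNeZero A hA *
      Matrix.GeneralLinearGroup.map j
        ((x * y : ↥(Cfsg.Geo.quadSimilarityGroup (F := F₀) ⇑(minusQF m F₀ a₀ b₀))) :
          GL ((Fin m ⊕ Fin m) ⊕ Fin 2) F₀) *
      (Matrix.GeneralLinearGroup.mkOfDetNeZero A hA)⁻¹ =
      (Matrix.GeneralLinearGroup.mkOfDetNeZero A hA *
        Matrix.GeneralLinearGroup.map j (x : GL ((Fin m ⊕ Fin m) ⊕ Fin 2) F₀) *
        (Matrix.GeneralLinearGroup.mkOfDetNeZero A hA)⁻¹) *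
      (Matrix.GeneralLinearGroup.mkOfDetNeZero A hA *
        Matrix.GeneralLinearGroup.map j (y : GL ((Fin m ⊕ Fin m) ⊕ Fin 2) F₀) *
        (Matrix.GeneralLinearGroup.mkOfDetNeZero A hA)⁻¹)
    rw [Subgroup.coe_mul, map_mul]
    group

theorem frameHom_coe (j : F₀ →+* F) (m : ℕ) (a b : F) (a₀ b₀ : F₀)
    (A : Matrix ((Fin m ⊕ Fin m) ⊕ Fin 2) ((Fin m ⊕ Fin m) ⊕ Fin 2) F) (κ : F)
    (hA : A.det ≠ 0) (hκ : κ ≠ 0)
    (h2 : ∀ v, κ * minusQF m F a b (A *ᵥ v) = Cfsg.quadFormMinus m F (j a₀) (j b₀) v)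
    (d : ↥(Cfsg.Geo.quadSimilarityGroup (F := F₀) ⇑(minusQF m F₀ a₀ b₀))) :
    ((frameHom j m a b a₀ b₀ A κ hA hκ h2 d : GL ((Fin m ⊕ Fin m) ⊕ Fin 2) F) :
      Matrix ((Fin m ⊕ Fin m) ⊕ Fin 2) ((Fin m ⊕ Fin m) ⊕ Fin 2) F) =
    A * ((d : GL ((Fin m ⊕ Fin m) ⊕ Fin 2) F₀) :
      Matrix ((Fin m ⊕ Fin m) ⊕ Fin 2) ((Fin m ⊕ Fin m) ⊕ Fin 2) F₀).map j * A⁻¹ := by
  show ((Matrix.GeneralLinearGroup.mkOfDetNeZero A hA *
      Matrix.GeneralLinearGroup.map j (d : GL ((Fin m ⊕ Fin m) ⊕ Fin 2) F₀) *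
      (Matrix.GeneralLinearGroup.mkOfDetNeZero A hA)⁻¹ : GL ((Fin m ⊕ Fin m) ⊕ Fin 2) F) :
      Matrix ((Fin m ⊕ Fin m) ⊕ Fin 2) ((Fin m ⊕ Fin m) ⊕ Fin 2) F) = _
  rw [Units.val_mul, Units.val_mul, Matrix.coe_units_inv]
  rfl

/-- The multiplier of the embedded similarity. -/
theorem frameHom_sim (j : F₀ →+* F) (m : ℕ) (a b : F) (a₀ b₀ : F₀)
    (A : Matrix ((Fin m ⊕ Fin m) ⊕ Fin 2) ((Fin m ⊕ Fin m) ⊕ Fin 2) F) (κ : F)
    (hA : A.det ≠ 0) (hκ : κ ≠ 0)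
    (h2 : ∀ v, κ * minusQF m F a b (A *ᵥ v) = Cfsg.quadFormMinus m F (j a₀) (j b₀) v)
    (d : ↥(Cfsg.Geo.quadSimilarityGroup (F := F₀) ⇑(minusQF m F₀ a₀ b₀)))
    (v : (Fin m ⊕ Fin m) ⊕ Fin 2 → F) :
    minusQF m F a b (((frameHom j m a b a₀ b₀ A κ hA hκ h2 d : GL ((Fin m ⊕ Fin m) ⊕ Fin 2) F) :
      Matrix ((Fin m ⊕ Fin m) ⊕ Fin 2) ((Fin m ⊕ Fin m) ⊕ Fin 2) F) *ᵥ v) =
    j (simMult ⇑(minusQF m F₀ a₀ b₀) d : F₀) * minusQF m F a b v := by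
  have hc' : ∀ v, Cfsg.quadFormMinus m F₀ a₀ b₀
      (((d : GL ((Fin m ⊕ Fin m) ⊕ Fin 2) F₀) :
        Matrix ((Fin m ⊕ Fin m) ⊕ Fin 2) ((Fin m ⊕ Fin m) ⊕ Fin 2) F₀) *ᵥ v) =
      (simMult ⇑(minusQF m F₀ a₀ b₀) d : F₀) * Cfsg.quadFormMinus m F₀ a₀ b₀ v := by
    intro v
    have e := congrFun (minusQF_coe m F₀ a₀ b₀)
    rw [← e, ← e]
    exact simMult_spec ⇑(minusQF m F₀ a₀ b₀) d v
  rw [frameHom_coe]
  exact frame_sim ⇑(minusQF m F a b) (Cfsg.quadFormMinus m F (j a₀) (j b₀)) A κ hA hκ h2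
    _ _ (map_sim_hom j m a₀ b₀ _ _ hc') v

theorem frameHom_det (j : F₀ →+* F) (m : ℕ) (a b : F) (a₀ b₀ : F₀)
    (A : Matrix ((Fin m ⊕ Fin m) ⊕ Fin 2) ((Fin m ⊕ Fin m) ⊕ Fin 2) F) (κ : F)
    (hA : A.det ≠ 0) (hκ : κ ≠ 0)
    (h2 : ∀ v, κ * minusQF m F a b (A *ᵥ v) = Cfsg.quadFormMinus m F (j a₀) (j b₀) v)
    (d : ↥(Cfsg.Geo.quadSimilarityGroup (F := F₀) ⇑(minusQF m F₀ a₀ b₀))) :
    ((frameHom j m a b a₀ b₀ A κ hA hκ h2 d : GL ((Fin m ⊕ Fin m) ⊕ Fin 2) F) :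
      Matrix ((Fin m ⊕ Fin m) ⊕ Fin 2) ((Fin m ⊕ Fin m) ⊕ Fin 2) F).det =
    j ((d : GL ((Fin m ⊕ Fin m) ⊕ Fin 2) F₀) :
      Matrix ((Fin m ⊕ Fin m) ⊕ Fin 2) ((Fin m ⊕ Fin m) ⊕ Fin 2) F₀).det := by
  rw [frameHom_coe, det_mul, det_mul, Matrix.det_nonsing_inv, Ring.inverse_eq_inv']
  have h1 := RingHom.map_det j ((d : GL ((Fin m ⊕ Fin m) ⊕ Fin 2) F₀) :
      Matrix ((Fin m ⊕ Fin m) ⊕ Fin 2) ((Fin m ⊕ Fin m) ⊕ Fin 2) F₀)
  rw [RingHom.mapMatrix_apply] at h1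
  rw [← h1]
  field_simp

theorem frameHom_simMult (j : F₀ →+* F) (m : ℕ) (a b : F) (a₀ b₀ : F₀)
    (A : Matrix ((Fin m ⊕ Fin m) ⊕ Fin 2) ((Fin m ⊕ Fin m) ⊕ Fin 2) F) (κ : F)
    (hA : A.det ≠ 0) (hκ : κ ≠ 0)
    (h2 : ∀ v, κ * minusQF m F a b (A *ᵥ v) = Cfsg.quadFormMinus m F (j a₀) (j b₀) v)
    (d : ↥(Cfsg.Geo.quadSimilarityGroup (F := F₀) ⇑(minusQF m F₀ a₀ b₀))) :
    (simMult ⇑(minusQF m F a b) (frameHom j m a b a₀ b₀ A κ hA hκ h2 d) : F) =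
      j (simMult ⇑(minusQF m F₀ a₀ b₀) d : F₀) := by
  apply Cfsg.Agent.Lib.Helper44.simMult_unique
  · refine ⟨Pi.single (Sum.inr 0) 1, ?_⟩
    rw [minusQF_coe, minus_quad_g1]
    exact one_ne_zero
  · exact frameHom_sim j m a b a₀ b₀ A κ hA hκ h2 d

end emb

end Cfsg.Agent.Lib.Helper14
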