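import Mathlib
import Cfsg.Prelude.Def_LieTypeDatum
import Cfsg.Agent.Lib.Helper14.FldK
import Cfsg.Agent.Lib.Helper43.FieldAut.Cent

/-!
The centralizer of a field automorphism of `PΩ⁻` (given with a frame) in the image of the
similarity group: it is the image of the similarity group over the fixed field.
-/

set_option autoImplicit false

namespace Cfsg.Agent.Lib.Helper14

open Matrix Module
open Cfsg.Agent.Lib.Helper44 (simAut simMult simMult_spec dickson)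
open Cfsg.Agent.Lib.Helper43.FieldAut (IsFixEmb)

section cent

universe u u₀

variable {F : Type u} [Field F] [Fintype F] {F₀ : Type u₀} [Field F₀] [Fintype F₀]

omit [Fintype F] [Fintype F₀] in
theorem map_fix_of_emb {ι : Type} (σ : RingAut F) (j : F₀ →+* F) (hj : IsFixEmb σ j)
    (D₀ : Matrix ι ι F₀) : (D₀.map j).map σ = D₀.map j := by
  ext i k
  exact (hj _).mpr ⟨D₀ i k, rfl⟩

set_option maxHeartbeats 1600000 in
/-- The embedded similarities over the fixed field commute with the semisimilarity. -/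
theorem frameHom_comm (j : F₀ →+* F) (m : ℕ) (a b : F) (a₀ b₀ : F₀)
    (S : ↥(semiSim ⇑(minusQF m F a b)))
    (hj : IsFixEmb (S : SemiGL ((Fin m ⊕ Fin m) ⊕ Fin 2) F).right j)
    (A : Matrix ((Fin m ⊕ Fin m) ⊕ Fin 2) ((Fin m ⊕ Fin m) ⊕ Fin 2) F) (ν κ : F)
    (hA : A.det ≠ 0) (hν : ν ≠ 0) (hκ : κ ≠ 0)
    (h1 : (ν • ((S : SemiGL ((Fin m ⊕ Fin m) ⊕ Fin 2) F).left :
        Matrix ((Fin m ⊕ Fin m) ⊕ Fin 2) ((Fin m ⊕ Fin m) ⊕ Fin 2) F)) *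
      A.map (S : SemiGL ((Fin m ⊕ Fin m) ⊕ Fin 2) F).right = A)
    (h2 : ∀ v, κ * minusQF m F a b (A *ᵥ v) = Cfsg.quadFormMinus m F (j a₀) (j b₀) v)
    (d : ↥(Cfsg.Geo.quadSimilarityGroup (F := F₀) ⇑(minusQF m F₀ a₀ b₀))) :
    semiAut ⇑(minusQF m F a b) S *
        simAut ⇑(minusQF m F a b) (frameHom j m a b a₀ b₀ A κ hA hκ h2 d) =
      simAut ⇑(minusQF m F a b) (frameHom j m a b a₀ b₀ A κ hA hκ h2 d) *
        semiAut ⇑(minusQF m F a b) S := by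
  obtain ⟨D', hD'⟩ : ∃ D' : Matrix ((Fin m ⊕ Fin m) ⊕ Fin 2) ((Fin m ⊕ Fin m) ⊕ Fin 2) F,
      D' = ((d : GL ((Fin m ⊕ Fin m) ⊕ Fin 2) F₀) :
        Matrix ((Fin m ⊕ Fin m) ⊕ Fin 2) ((Fin m ⊕ Fin m) ⊕ Fin 2) F₀).map j := ⟨_, rfl⟩
  obtain ⟨c, hcdef⟩ : ∃ c : F, c = j (simMult ⇑(minusQF m F₀ a₀ b₀) d : F₀) := ⟨_, rfl⟩
  have hc0 : c ≠ 0 := by
    rw [hcdef]
    exact (map_ne_zero j).mpr (simMult ⇑(minusQF m F₀ a₀ b₀) d).ne_zero
  have hD'sim : ∀ w, Cfsg.quadFormMinus m F (j a₀) (j b₀) (D' *ᵥ w) =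
      c * Cfsg.quadFormMinus m F (j a₀) (j b₀) w := by
    intro w
    rw [hD', hcdef]
    apply map_sim_hom
    intro v
    have e := congrFun (minusQF_coe m F₀ a₀ b₀)
    rw [← e, ← e]
    exact simMult_spec ⇑(minusQF m F₀ a₀ b₀) d v
  have hD'det : D'.det ≠ 0 := by
    rw [hD']
    have h := RingHom.map_det j ((d : GL ((Fin m ⊕ Fin m) ⊕ Fin 2) F₀) :
        Matrix ((Fin m ⊕ Fin m) ⊕ Fin 2) ((Fin m ⊕ Fin m) ⊕ Fin 2) F₀)
    rw [RingHom.mapMatrix_apply] at h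
    rw [← h]
    exact (map_ne_zero j).mpr ((Matrix.isUnit_iff_isUnit_det _).mp (Units.isUnit _)).ne_zero
  have hD'fix : D'.map (S : SemiGL ((Fin m ⊕ Fin m) ⊕ Fin 2) F).right = D' := by
    rw [hD']
    exact map_fix_of_emb _ j hj _
  obtain ⟨d', hd'mat, -, hconj⟩ := semi_conj_of_frames (minusQF m F a b)
    (Cfsg.quadFormMinus m F (j a₀) (j b₀)) S S rfl A (A * D') ν κ ν (c⁻¹ * κ) hA
    (by rw [det_mul]; exact mul_ne_zero hA hD'det) hν (mul_ne_zero (inv_ne_zero hc0) hκ) hν hκ h1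
    (by
      have hmm : (A * D').map (S : SemiGL ((Fin m ⊕ Fin m) ⊕ Fin 2) F).right =
          A.map (S : SemiGL ((Fin m ⊕ Fin m) ⊕ Fin 2) F).right *
            D'.map (S : SemiGL ((Fin m ⊕ Fin m) ⊕ Fin 2) F).right :=
        Matrix.map_mul (f := ((S : SemiGL ((Fin m ⊕ Fin m) ⊕ Fin 2) F).right : F →+* F))
      rw [hmm, hD'fix, ← Matrix.mul_assoc, h1])
    h2
    (by
      intro v
      rw [← mulVec_mulVec, mul_assoc, h2, hD'sim, ← mul_assoc, inv_mul_cancel₀ hc0, one_mul])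
  have hdd : d' = frameHom j m a b a₀ b₀ A κ hA hκ h2 d := by
    apply Subtype.ext
    apply Units.ext
    rw [hd'mat, frameHom_coe, hD']
  rw [← hdd]
  have h3 := hconj
  rw [eq_mul_inv_iff_mul_eq] at h3
  exact h3

set_option maxHeartbeats 3200000 in
/-- A similarity whose automorphism commutes with the semisimilarity is, up to a scalar, an
embedded similarity over the fixed field. -/
theorem exists_of_comm (j : F₀ →+* F) (m : ℕ) (hm : 3 ≤ m) (a b : F)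
    (hab : ∀ z₁ z₂ : F, z₁ ^ 2 + a * z₁ * z₂ + b * z₂ ^ 2 = 0 → z₁ = 0 ∧ z₂ = 0)
    (a₀ b₀ : F₀)
    (S : ↥(semiSim ⇑(minusQF m F a b)))
    (hj : IsFixEmb (S : SemiGL ((Fin m ⊕ Fin m) ⊕ Fin 2) F).right j)
    (A : Matrix ((Fin m ⊕ Fin m) ⊕ Fin 2) ((Fin m ⊕ Fin m) ⊕ Fin 2) F) (ν κ : F)
    (hA : A.det ≠ 0) (hν : ν ≠ 0) (hκ : κ ≠ 0)
    (h1 : (ν • ((S : SemiGL ((Fin m ⊕ Fin m) ⊕ Fin 2) F).left :
        Matrix ((Fin m ⊕ Fin m) ⊕ Fin 2) ((Fin m ⊕ Fin m) ⊕ Fin 2) F)) *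
      A.map (S : SemiGL ((Fin m ⊕ Fin m) ⊕ Fin 2) F).right = A)
    (h2 : ∀ v, κ * minusQF m F a b (A *ᵥ v) = Cfsg.quadFormMinus m F (j a₀) (j b₀) v)
    (g : ↥(Cfsg.Geo.quadSimilarityGroup (F := F) ⇑(minusQF m F a b)))
    (hcomm : semiAut ⇑(minusQF m F a b) S * simAut ⇑(minusQF m F a b) g =
      simAut ⇑(minusQF m F a b) g * semiAut ⇑(minusQF m F a b) S) :
    ∃ (d : ↥(Cfsg.Geo.quadSimilarityGroup (F := F₀) ⇑(minusQF m F₀ a₀ b₀))) (e : F), e ≠ 0 ∧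
      ((g : GL ((Fin m ⊕ Fin m) ⊕ Fin 2) F) :
        Matrix ((Fin m ⊕ Fin m) ⊕ Fin 2) ((Fin m ⊕ Fin m) ⊕ Fin 2) F) =
      e • ((frameHom j m a b a₀ b₀ A κ hA hκ h2 d : GL ((Fin m ⊕ Fin m) ⊕ Fin 2) F) :
        Matrix ((Fin m ⊕ Fin m) ⊕ Fin 2) ((Fin m ⊕ Fin m) ⊕ Fin 2) F) := by
  have hQ := Cfsg.Agent.Lib.Helper44.minusQF_nondegenerate_all m F a b hab
  have hn5 : 5 ≤ Fintype.card ((Fin m ⊕ Fin m) ⊕ Fin 2) := by
    rw [minus_card_idx]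
    omega
  obtain ⟨E, hE, hE0⟩ := Cfsg.Agent.Lib.Helper44.minus_ts_three (F := F) m hm a b
  obtain ⟨σ, hσ⟩ : ∃ σ : RingAut F, σ = (S : SemiGL ((Fin m ⊕ Fin m) ⊕ Fin 2) F).right :=
    ⟨_, rfl⟩
  obtain ⟨M, hM⟩ : ∃ M : Matrix ((Fin m ⊕ Fin m) ⊕ Fin 2) ((Fin m ⊕ Fin m) ⊕ Fin 2) F,
      M = ((S : SemiGL ((Fin m ⊕ Fin m) ⊕ Fin 2) F).left :
        Matrix ((Fin m ⊕ Fin m) ⊕ Fin 2) ((Fin m ⊕ Fin m) ⊕ Fin 2) F) := ⟨_, rfl⟩
  obtain ⟨G, hG⟩ : ∃ G : Matrix ((Fin m ⊕ Fin m) ⊕ Fin 2) ((Fin m ⊕ Fin m) ⊕ Fin 2) F,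
      G = ((g : GL ((Fin m ⊕ Fin m) ⊕ Fin 2) F) :
        Matrix ((Fin m ⊕ Fin m) ⊕ Fin 2) ((Fin m ⊕ Fin m) ⊕ Fin 2) F) := ⟨_, rfl⟩
  rw [← hσ] at hj
  rw [← hσ, ← hM] at h1
  -- the commutation as a matrix identity
  obtain ⟨Z, hZ⟩ : ∃ Z : ↥(semiSim ⇑(minusQF m F a b)),
      Z = S * simToSemi ⇑(minusQF m F a b) g * S⁻¹ * (simToSemi ⇑(minusQF m F a b) g)⁻¹ :=
    ⟨_, rfl⟩
  have hZaut : semiAut ⇑(minusQF m F a b) Z = 1 := by
    rw [hZ, map_mul, map_mul, map_mul, map_inv, map_inv, semiAut_simToSemi, hcomm]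
    group
  have hZr := semiAut_right_eq_one (minusQF m F a b) hQ hn5 Z hZaut
  obtain ⟨n, hn⟩ := exists_sim_of_right_eq_one ⇑(minusQF m F a b) Z hZr
  have hn1 : simAut ⇑(minusQF m F a b) n = 1 := by
    rw [← semiAut_simToSemi, hn]
    exact hZaut
  obtain ⟨c, hc0, hnmat⟩ := Cfsg.Agent.Lib.Helper44.scalar_of_simAut_eq_one (minusQF m F a b)
    hQ E hE hE0 n hn1
  have hEq : S * simToSemi ⇑(minusQF m F a b) g =
      simToSemi ⇑(minusQF m F a b) n * simToSemi ⇑(minusQF m F a b) g * S := by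
    rw [hn, hZ]
    group
  have hL : M * G.map σ = c • (G * M) := by
    have h := congrArg (fun X : ↥(semiSim ⇑(minusQF m F a b)) =>
      ((X : SemiGL ((Fin m ⊕ Fin m) ⊕ Fin 2) F).left :
        Matrix ((Fin m ⊕ Fin m) ⊕ Fin 2) ((Fin m ⊕ Fin m) ⊕ Fin 2) F)) hEq
    simp only [Subgroup.coe_mul, SemidirectProduct.mul_left, SemidirectProduct.mul_right,
      simToSemi_left, simToSemi_right, map_one, MulAut.one_apply, one_mul, mul_one, glAut_apply,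
      Units.val_mul, glMap_coe] at h
    rw [hnmat, ← hM, ← hG, ← hσ, Matrix.smul_mul, Matrix.one_mul, Matrix.smul_mul] at h
    exact h
  have hAu : IsUnit A.det := isUnit_iff_ne_zero.mpr hA
  have hMA : M * A.map σ = ν⁻¹ • A := by
    have e : ν • (M * A.map σ) = A := by
      rw [← Matrix.smul_mul]
      exact h1
    have e' := congrArg (fun X : Matrix ((Fin m ⊕ Fin m) ⊕ Fin 2) ((Fin m ⊕ Fin m) ⊕ Fin 2) F =>
      ν⁻¹ • X) e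
    simp only [smul_smul, inv_mul_cancel₀ hν, one_smul] at e'
    exact e'
  obtain ⟨H, hH⟩ : ∃ H : Matrix ((Fin m ⊕ Fin m) ⊕ Fin 2) ((Fin m ⊕ Fin m) ⊕ Fin 2) F,
      H = A⁻¹ * G * A := ⟨_, rfl⟩
  have hGA : G * A = A * H := by
    rw [hH, ← Matrix.mul_assoc, ← Matrix.mul_assoc, Matrix.mul_nonsing_inv A hAu, Matrix.one_mul]
  have hmapmul : ∀ X Y : Matrix ((Fin m ⊕ Fin m) ⊕ Fin 2) ((Fin m ⊕ Fin m) ⊕ Fin 2) F,
      (X * Y).map σ = X.map σ * Y.map σ := fun X Y => Matrix.map_mul (f := (σ : F →+* F))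
  have hHσ : H.map σ = c • H := by
    have e1 : M * (G * A).map σ = (c * ν⁻¹) • (G * A) := by
      rw [hmapmul, ← Matrix.mul_assoc, hL, Matrix.smul_mul, Matrix.mul_assoc, hMA,
        Matrix.mul_smul, smul_smul]
    have e2 : M * (A * H).map σ = ν⁻¹ • (A * H.map σ) := by
      rw [hmapmul, ← Matrix.mul_assoc, hMA, Matrix.smul_mul]
    rw [hGA, e2] at e1
    have e3 : A * H.map σ = c • (A * H) := by
      have e' := congrArg (fun X : Matrix ((Fin m ⊕ Fin m) ⊕ Fin 2) ((Fin m ⊕ Fin m) ⊕ Fin 2) F =>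
        ν • X) e1
      simp only [smul_smul] at e'
      rw [mul_inv_cancel₀ hν, one_smul, mul_comm ν, mul_assoc, inv_mul_cancel₀ hν, mul_one] at e'
      exact e'
    have e4 : A⁻¹ * (A * H.map σ) = A⁻¹ * (c • (A * H)) := congrArg
      (fun X : Matrix ((Fin m ⊕ Fin m) ⊕ Fin 2) ((Fin m ⊕ Fin m) ⊕ Fin 2) F => A⁻¹ * X) e3
    rw [← Matrix.mul_assoc, Matrix.nonsing_inv_mul A hAu, Matrix.one_mul, Matrix.mul_smul,
      ← Matrix.mul_assoc, Matrix.nonsing_inv_mul A hAu, Matrix.one_mul] at e4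
    exact e4
  have hGdet : G.det ≠ 0 := by
    rw [hG]
    exact ((Matrix.isUnit_iff_isUnit_det _).mp (Units.isUnit _)).ne_zero
  have hHdet : H.det ≠ 0 := by
    rw [hH, det_mul, det_mul, Matrix.det_nonsing_inv, Ring.inverse_eq_inv']
    exact mul_ne_zero (mul_ne_zero (inv_ne_zero hA) hGdet) hA
  obtain ⟨i₁, k₁, hik⟩ : ∃ i k, H i k ≠ 0 := by
    by_contra hcon
    push Not at hcon
    apply hHdet
    have h0 : H = 0 := by
      ext i k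
      exact hcon i k
    rw [h0]
    haveI : Nonempty ((Fin m ⊕ Fin m) ⊕ Fin 2) := ⟨Sum.inr 0⟩
    exact Matrix.det_zero
  obtain ⟨e, he⟩ : ∃ e : F, e = H i₁ k₁ := ⟨_, rfl⟩
  have he0 : e ≠ 0 := by
    rw [he]
    exact hik
  have hσe : σ e = c * e := by
    have h := congrFun (congrFun hHσ i₁) k₁
    rw [Matrix.map_apply, Matrix.smul_apply, smul_eq_mul, ← he] at h
    exact h
  obtain ⟨D', hD'⟩ : ∃ D' : Matrix ((Fin m ⊕ Fin m) ⊕ Fin 2) ((Fin m ⊕ Fin m) ⊕ Fin 2) F,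
      D' = e⁻¹ • H := ⟨_, rfl⟩
  have hD'fix : D'.map σ = D' := by
    rw [hD', Matrix.map_smul' _ _ _ (map_mul σ), hHσ, smul_smul, map_inv₀, hσe]
    congr 1
    field_simp
  obtain ⟨μg, hμg⟩ : ∃ μg : F, μg = (simMult ⇑(minusQF m F a b) g : F) := ⟨_, rfl⟩
  have hμg0 : μg ≠ 0 := by
    rw [hμg]
    exact (simMult ⇑(minusQF m F a b) g).ne_zero
  have hGsim : ∀ v, minusQF m F a b (G *ᵥ v) = μg * minusQF m F a b v := by
    intro v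
    rw [hG, hμg]
    exact simMult_spec ⇑(minusQF m F a b) g v
  obtain ⟨cD, hcD⟩ : ∃ cD : F, cD = e⁻¹ * e⁻¹ * μg := ⟨_, rfl⟩
  have hcD0 : cD ≠ 0 := by
    rw [hcD]
    exact mul_ne_zero (mul_ne_zero (inv_ne_zero he0) (inv_ne_zero he0)) hμg0
  have hD'sim : ∀ w, Cfsg.quadFormMinus m F (j a₀) (j b₀) (D' *ᵥ w) =
      cD * Cfsg.quadFormMinus m F (j a₀) (j b₀) w := by
    intro w
    have e1 : D' *ᵥ w = e⁻¹ • (A⁻¹ *ᵥ (G *ᵥ (A *ᵥ w))) := by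
      rw [hD', hH, Matrix.smul_mulVec, mulVec_mulVec, mulVec_mulVec]
    have e2 : ∀ u, Cfsg.quadFormMinus m F (j a₀) (j b₀) (A⁻¹ *ᵥ u) = κ * minusQF m F a b u := by
      intro u
      rw [← h2, mulVec_mulVec, Matrix.mul_nonsing_inv A hAu, one_mulVec]
    rw [e1, ← minusQF_coe, QuadraticMap.map_smul, minusQF_coe, e2, hGsim, ← h2, smul_eq_mul, hcD]
    ring
  have hfix : ∀ i k, σ (D' i k) = D' i k := by
    intro i k
    have h := congrFun (congrFun hD'fix i) k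
    rw [Matrix.map_apply] at h
    exact h
  choose d₀f hd₀f using fun i k => (hj (D' i k)).mp (hfix i k)
  obtain ⟨D₀, hD₀⟩ : ∃ D₀ : Matrix ((Fin m ⊕ Fin m) ⊕ Fin 2) ((Fin m ⊕ Fin m) ⊕ Fin 2) F₀,
      D₀ = Matrix.of d₀f := ⟨_, rfl⟩
  have hD₀map : D₀.map j = D' := by
    ext i k
    rw [Matrix.map_apply, hD₀, Matrix.of_apply]
    exact hd₀f i k
  have hD'det : D'.det ≠ 0 := by
    rw [hD', Matrix.det_smul]
    exact mul_ne_zero (pow_ne_zero _ (inv_ne_zero he0)) hHdet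
  have hD₀det : D₀.det ≠ 0 := by
    intro h0
    apply hD'det
    have h := RingHom.map_det j D₀
    rw [RingHom.mapMatrix_apply, hD₀map, h0, map_zero] at h
    exact h.symm
  obtain ⟨u₀, hu₀⟩ : ∃ u₀ : (Fin m ⊕ Fin m) ⊕ Fin 2 → F₀, u₀ = Pi.single (Sum.inr 0) 1 :=
    ⟨_, rfl⟩
  have hu₀q : Cfsg.quadFormMinus m F₀ a₀ b₀ u₀ = 1 := by
    rw [hu₀]
    exact minus_quad_g1 m F₀ a₀ b₀
  obtain ⟨c₀, hc₀⟩ : ∃ c₀ : F₀, c₀ = Cfsg.quadFormMinus m F₀ a₀ b₀ (D₀ *ᵥ u₀) := ⟨_, rfl⟩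
  have hkey : ∀ v : (Fin m ⊕ Fin m) ⊕ Fin 2 → F₀,
      j (Cfsg.quadFormMinus m F₀ a₀ b₀ (D₀ *ᵥ v)) =
        cD * j (Cfsg.quadFormMinus m F₀ a₀ b₀ v) := by
    intro v
    rw [← minus_compat_hom, ← map_mulVec_hom, hD₀map, hD'sim, minus_compat_hom]
  have hjc₀ : j c₀ = cD := by
    rw [hc₀, hkey, hu₀q, map_one, mul_one]
  have hc₀0 : c₀ ≠ 0 := by
    intro h0
    apply hcD0
    rw [← hjc₀, h0, map_zero]
  have hD₀sim : ∀ v, Cfsg.quadFormMinus m F₀ a₀ b₀ (D₀ *ᵥ v) =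
      c₀ * Cfsg.quadFormMinus m F₀ a₀ b₀ v := by
    intro v
    apply j.injective
    rw [hkey, map_mul, hjc₀]
  refine ⟨⟨Matrix.GeneralLinearGroup.mkOfDetNeZero D₀ hD₀det,
    ⟨Units.mk0 c₀ hc₀0, fun v => ?_⟩⟩, e, he0, ?_⟩
  · have ee := congrFun (minusQF_coe m F₀ a₀ b₀)
    rw [ee, ee]
    exact hD₀sim v
  · rw [frameHom_coe]
    show ((g : GL ((Fin m ⊕ Fin m) ⊕ Fin 2) F) :
        Matrix ((Fin m ⊕ Fin m) ⊕ Fin 2) ((Fin m ⊕ Fin m) ⊕ Fin 2) F) =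
      e • (A * D₀.map j * A⁻¹)
    rw [hD₀map, hD', hH, ← hG, Matrix.mul_smul, Matrix.smul_mul, smul_smul, mul_inv_cancel₀ he0,
      one_smul, ← Matrix.mul_assoc, ← Matrix.mul_assoc, Matrix.mul_nonsing_inv A hAu,
      Matrix.one_mul, Matrix.mul_assoc, Matrix.mul_nonsing_inv A hAu, Matrix.mul_one]

end cent

end Cfsg.Agent.Lib.Helper14
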