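import Mathlib
import Cfsg.Prelude.Def_LieTypeDatum
import Cfsg.Agent.Lib.Helper14.FldL

/-!
The centralizer of a field automorphism of `PΩ⁻` in `Inndiag`: kernel and class-preservation
under the subfield embedding, and the isomorphism with `Inndiag` over the fixed field.
-/

set_option autoImplicit false

namespace Cfsg.Agent.Lib.Helper14

open Matrix Module
open Cfsg.Agent.Lib.Helper44 (simAut simMult simMult_spec dickson)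
open Cfsg.Agent.Lib.Helper43.FieldAut (IsFixEmb)

section cent2

universe u u₀

variable {F : Type u} [Field F] [Fintype F] {F₀ : Type u₀} [Field F₀] [Fintype F₀]

set_option maxHeartbeats 1600000 in
/-- The embedded similarity acts trivially iff the similarity over the subfield does. -/
theorem frameHom_simAut_eq_one_iff (j : F₀ →+* F) (m : ℕ) (hm : 3 ≤ m) (a b : F)
    (hab : ∀ z₁ z₂ : F, z₁ ^ 2 + a * z₁ * z₂ + b * z₂ ^ 2 = 0 → z₁ = 0 ∧ z₂ = 0)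
    (a₀ b₀ : F₀)
    (hab₀ : ∀ z₁ z₂ : F₀, z₁ ^ 2 + a₀ * z₁ * z₂ + b₀ * z₂ ^ 2 = 0 → z₁ = 0 ∧ z₂ = 0)
    (A : Matrix ((Fin m ⊕ Fin m) ⊕ Fin 2) ((Fin m ⊕ Fin m) ⊕ Fin 2) F) (κ : F)
    (hA : A.det ≠ 0) (hκ : κ ≠ 0)
    (h2 : ∀ v, κ * minusQF m F a b (A *ᵥ v) = Cfsg.quadFormMinus m F (j a₀) (j b₀) v)
    (d : ↥(Cfsg.Geo.quadSimilarityGroup (F := F₀) ⇑(minusQF m F₀ a₀ b₀))) :
    simAut ⇑(minusQF m F a b) (frameHom j m a b a₀ b₀ A κ hA hκ h2 d) = 1 ↔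
      simAut ⇑(minusQF m F₀ a₀ b₀) d = 1 := by
  have hQ := Cfsg.Agent.Lib.Helper44.minusQF_nondegenerate_all m F a b hab
  have hQ₀ := Cfsg.Agent.Lib.Helper44.minusQF_nondegenerate_all m F₀ a₀ b₀ hab₀
  obtain ⟨E, hE, hE0⟩ := Cfsg.Agent.Lib.Helper44.minus_ts_three (F := F) m hm a b
  obtain ⟨E₀, hE₀, hE₀0⟩ := Cfsg.Agent.Lib.Helper44.minus_ts_three (F := F₀) m hm a₀ b₀
  have hAu : IsUnit A.det := isUnit_iff_ne_zero.mpr hA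
  obtain ⟨D₀, hD₀⟩ : ∃ D₀ : Matrix ((Fin m ⊕ Fin m) ⊕ Fin 2) ((Fin m ⊕ Fin m) ⊕ Fin 2) F₀,
      D₀ = ((d : GL ((Fin m ⊕ Fin m) ⊕ Fin 2) F₀) :
        Matrix ((Fin m ⊕ Fin m) ⊕ Fin 2) ((Fin m ⊕ Fin m) ⊕ Fin 2) F₀) := ⟨_, rfl⟩
  constructor
  · intro h
    obtain ⟨lam, hlam, hmat⟩ := Cfsg.Agent.Lib.Helper44.scalar_of_simAut_eq_one (minusQF m F a b)
      hQ E hE hE0 _ h
    rw [frameHom_coe, ← hD₀] at hmat
    have h3 : D₀.map j = lam • (1 : Matrix ((Fin m ⊕ Fin m) ⊕ Fin 2) ((Fin m ⊕ Fin m) ⊕ Fin 2) F) := by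
      have e' : A⁻¹ * (A * D₀.map j * A⁻¹) * A =
          A⁻¹ * (lam • (1 : Matrix ((Fin m ⊕ Fin m) ⊕ Fin 2) ((Fin m ⊕ Fin m) ⊕ Fin 2) F)) * A :=
        congrArg (fun X : Matrix ((Fin m ⊕ Fin m) ⊕ Fin 2) ((Fin m ⊕ Fin m) ⊕ Fin 2) F =>
          A⁻¹ * X * A) hmat
      rw [← Matrix.mul_assoc, ← Matrix.mul_assoc, Matrix.nonsing_inv_mul A hAu, Matrix.one_mul,
        Matrix.mul_assoc, Matrix.nonsing_inv_mul A hAu, Matrix.mul_one, Matrix.mul_smul,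
        Matrix.mul_one, Matrix.smul_mul, Matrix.nonsing_inv_mul A hAu] at e'
      exact e'
    obtain ⟨l₀, hl₀⟩ : ∃ l₀ : F₀, l₀ = D₀ (Sum.inr 0) (Sum.inr 0) := ⟨_, rfl⟩
    have hD₀eq : D₀ = l₀ • (1 : Matrix ((Fin m ⊕ Fin m) ⊕ Fin 2) ((Fin m ⊕ Fin m) ⊕ Fin 2) F₀) := by
      ext i k
      have e := congrFun (congrFun h3 i) k
      have e0 := congrFun (congrFun h3 (Sum.inr 0)) (Sum.inr 0)
      rw [Matrix.map_apply, Matrix.smul_apply, Matrix.one_apply_eq, smul_eq_mul, mul_one] at e0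
      rw [Matrix.map_apply, Matrix.smul_apply, smul_eq_mul] at e
      rw [Matrix.smul_apply, smul_eq_mul]
      by_cases hik : i = k
      · subst hik
        rw [Matrix.one_apply_eq, mul_one] at e ⊢
        apply j.injective
        rw [e, hl₀, e0]
      · rw [Matrix.one_apply_ne hik, mul_zero] at e ⊢
        apply j.injective
        rw [e, map_zero]
    exact Cfsg.Agent.Lib.Helper44.simAut_eq_one_of_scalar ⇑(minusQF m F₀ a₀ b₀) d l₀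
      (by rw [← hD₀]; exact hD₀eq)
  · intro h
    obtain ⟨l₀, hl₀, hmat⟩ := Cfsg.Agent.Lib.Helper44.scalar_of_simAut_eq_one
      (minusQF m F₀ a₀ b₀) hQ₀ E₀ hE₀ hE₀0 d h
    apply Cfsg.Agent.Lib.Helper44.simAut_eq_one_of_scalar ⇑(minusQF m F a b) _ (j l₀)
    rw [frameHom_coe, hmat]
    have e : (l₀ • (1 : Matrix ((Fin m ⊕ Fin m) ⊕ Fin 2) ((Fin m ⊕ Fin m) ⊕ Fin 2) F₀)).map j =
        j l₀ • (1 : Matrix ((Fin m ⊕ Fin m) ⊕ Fin 2) ((Fin m ⊕ Fin m) ⊕ Fin 2) F) := by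
      rw [Matrix.map_smul' _ _ _ (map_mul j), Matrix.map_one j (map_zero j) (map_one j)]
    rw [e, Matrix.mul_smul, Matrix.mul_one, Matrix.smul_mul, Matrix.mul_nonsing_inv A hAu]

set_option maxHeartbeats 1600000 in
/-- The embedded similarity preserves the classes iff the similarity over the subfield does. -/
theorem frameHom_preserves_iff (j : F₀ →+* F) (m : ℕ) (hm : 2 ≤ m) (a b : F)
    (hab : ∀ z₁ z₂ : F, z₁ ^ 2 + a * z₁ * z₂ + b * z₂ ^ 2 = 0 → z₁ = 0 ∧ z₂ = 0)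
    (a₀ b₀ : F₀)
    (hab₀ : ∀ z₁ z₂ : F₀, z₁ ^ 2 + a₀ * z₁ * z₂ + b₀ * z₂ ^ 2 = 0 → z₁ = 0 ∧ z₂ = 0)
    (A : Matrix ((Fin m ⊕ Fin m) ⊕ Fin 2) ((Fin m ⊕ Fin m) ⊕ Fin 2) F) (κ : F)
    (hA : A.det ≠ 0) (hκ : κ ≠ 0)
    (h2 : ∀ v, κ * minusQF m F a b (A *ᵥ v) = Cfsg.quadFormMinus m F (j a₀) (j b₀) v)
    (d : ↥(Cfsg.Geo.quadSimilarityGroup (F := F₀) ⇑(minusQF m F₀ a₀ b₀))) :
    Cfsg.PreservesSingularClassesMinus m a b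
        ((frameHom j m a b a₀ b₀ A κ hA hκ h2 d : GL ((Fin m ⊕ Fin m) ⊕ Fin 2) F) :
          Matrix ((Fin m ⊕ Fin m) ⊕ Fin 2) ((Fin m ⊕ Fin m) ⊕ Fin 2) F) ↔
      Cfsg.PreservesSingularClassesMinus m a₀ b₀
        ((d : GL ((Fin m ⊕ Fin m) ⊕ Fin 2) F₀) :
          Matrix ((Fin m ⊕ Fin m) ⊕ Fin 2) ((Fin m ⊕ Fin m) ⊕ Fin 2) F₀) := by
  have hAu : IsUnit A.det := isUnit_iff_ne_zero.mpr hA
  have hAinvu : IsUnit (A⁻¹).det := by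
    rw [Matrix.det_nonsing_inv, Ring.inverse_eq_inv']
    exact isUnit_iff_ne_zero.mpr (inv_ne_zero hA)
  by_cases h2c : (2 : F) = 0
  · have h2₀ : (2 : F₀) = 0 := by
      apply j.injective
      rw [map_ofNat, h2c, map_zero]
    obtain ⟨t₀, s₀, ht₀, hs₀⟩ := char2_sim_decomp h2₀ m a₀ b₀ d
    obtain ⟨s₀', hs₀'⟩ : ∃ s₀' : ↥(Cfsg.Geo.quadSimilarityGroup (F := F₀) ⇑(minusQF m F₀ a₀ b₀)),
        (s₀' : GL ((Fin m ⊕ Fin m) ⊕ Fin 2) F₀) = (s₀ : GL ((Fin m ⊕ Fin m) ⊕ Fin 2) F₀) :=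
      ⟨⟨s₀, Cfsg.Agent.Lib.Helper44.isometryGroup_le_sim _ s₀.2⟩, rfl⟩
    have hmult : (simMult ⇑(minusQF m F₀ a₀ b₀) s₀' : F₀) = 1 := by
      apply Cfsg.Agent.Lib.Helper44.simMult_unique _ (minus_quad_ne m a₀ b₀)
      intro v
      rw [hs₀', one_mul]
      exact isom_preserves s₀ v
    obtain ⟨s, hs⟩ : ∃ s : ↥(Cfsg.isometryGroup F ⇑(minusQF m F a b)),
        (s : GL ((Fin m ⊕ Fin m) ⊕ Fin 2) F) =
          (frameHom j m a b a₀ b₀ A κ hA hκ h2 s₀' : GL ((Fin m ⊕ Fin m) ⊕ Fin 2) F) :=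
      ⟨⟨_, (mem_isometryGroup_iff _ _).mpr (fun v => by
        rw [frameHom_sim, hmult, map_one, one_mul])⟩, rfl⟩
    have hmat : ((frameHom j m a b a₀ b₀ A κ hA hκ h2 d : GL ((Fin m ⊕ Fin m) ⊕ Fin 2) F) :
          Matrix ((Fin m ⊕ Fin m) ⊕ Fin 2) ((Fin m ⊕ Fin m) ⊕ Fin 2) F) =
        j t₀ • ((s : GL ((Fin m ⊕ Fin m) ⊕ Fin 2) F) :
          Matrix ((Fin m ⊕ Fin m) ⊕ Fin 2) ((Fin m ⊕ Fin m) ⊕ Fin 2) F) := by
      rw [hs, frameHom_coe, frameHom_coe, hs₀, hs₀', Matrix.map_smul' _ _ _ (map_mul j),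
        Matrix.mul_smul, Matrix.smul_mul]
    rw [minus_preserves_smul_isom m hm a b hab _ (j t₀) ((map_ne_zero j).mpr ht₀) s hmat,
      minus_preserves_smul_isom m hm a₀ b₀ hab₀ _ t₀ ht₀ s₀ hs₀]
    have hrank : (((s : GL ((Fin m ⊕ Fin m) ⊕ Fin 2) F) :
          Matrix ((Fin m ⊕ Fin m) ⊕ Fin 2) ((Fin m ⊕ Fin m) ⊕ Fin 2) F) - 1).rank =
        (((s₀ : GL ((Fin m ⊕ Fin m) ⊕ Fin 2) F₀) :
          Matrix ((Fin m ⊕ Fin m) ⊕ Fin 2) ((Fin m ⊕ Fin m) ⊕ Fin 2) F₀) - 1).rank := by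
      have e : ((s : GL ((Fin m ⊕ Fin m) ⊕ Fin 2) F) :
          Matrix ((Fin m ⊕ Fin m) ⊕ Fin 2) ((Fin m ⊕ Fin m) ⊕ Fin 2) F) - 1 =
          A * (((s₀ : GL ((Fin m ⊕ Fin m) ⊕ Fin 2) F₀) :
            Matrix ((Fin m ⊕ Fin m) ⊕ Fin 2) ((Fin m ⊕ Fin m) ⊕ Fin 2) F₀) - 1).map j * A⁻¹ := by
        rw [hs, frameHom_coe, hs₀', Matrix.map_sub j (map_sub j),
          Matrix.map_one j (map_zero j) (map_one j), Matrix.mul_sub, Matrix.sub_mul,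
          Matrix.mul_one, Matrix.mul_nonsing_inv A hAu]
      rw [e, Matrix.rank_mul_eq_left_of_isUnit_det _ _ hAinvu,
        Matrix.rank_mul_eq_right_of_isUnit_det _ _ hAu, rank_map_gen]
    unfold Cfsg.Agent.Lib.Helper44.dickson
    rw [hrank]
  · have h2₀ : (2 : F₀) ≠ 0 := fun h => h2c (by rw [← map_ofNat j 2, h, map_zero])
    rw [minus_preserves_odd h2c m a b hab, minus_preserves_odd h2₀ m a₀ b₀ hab₀, frameHom_det,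
      frameHom_simMult, ← map_pow]
    exact ⟨fun h => j.injective h, fun h => congrArg j h⟩

set_option maxHeartbeats 1600000 in
/-- The centralizer of the field automorphism in `Inndiag` is the image of the class-preserving
similarities over the fixed field. -/
theorem centralizer_eq_map (j : F₀ →+* F) (m : ℕ) (hm : 3 ≤ m) (hm2 : 2 ≤ m) (a b : F)
    (hab : ∀ z₁ z₂ : F, z₁ ^ 2 + a * z₁ * z₂ + b * z₂ ^ 2 = 0 → z₁ = 0 ∧ z₂ = 0)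
    (a₀ b₀ : F₀)
    (hab₀ : ∀ z₁ z₂ : F₀, z₁ ^ 2 + a₀ * z₁ * z₂ + b₀ * z₂ ^ 2 = 0 → z₁ = 0 ∧ z₂ = 0)
    (S : ↥(semiSim ⇑(minusQF m F a b)))
    (hj : IsFixEmb (S : SemiGL ((Fin m ⊕ Fin m) ⊕ Fin 2) F).right j)
    (A : Matrix ((Fin m ⊕ Fin m) ⊕ Fin 2) ((Fin m ⊕ Fin m) ⊕ Fin 2) F) (ν κ : F)
    (hA : A.det ≠ 0) (hν : ν ≠ 0) (hκ : κ ≠ 0)
    (h1 : (ν • ((S : SemiGL ((Fin m ⊕ Fin m) ⊕ Fin 2) F).left :
        Matrix ((Fin m ⊕ Fin m) ⊕ Fin 2) ((Fin m ⊕ Fin m) ⊕ Fin 2) F)) *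
      A.map (S : SemiGL ((Fin m ⊕ Fin m) ⊕ Fin 2) F).right = A)
    (h2 : ∀ v, κ * minusQF m F a b (A *ᵥ v) = Cfsg.quadFormMinus m F (j a₀) (j b₀) v) :
    (hpSub m hm2 a b hab _ rfl).map (simAut ⇑(minusQF m F a b)) ⊓
        Subgroup.centralizer {semiAut ⇑(minusQF m F a b) S} =
      (hpSub m hm2 a₀ b₀ hab₀ _ rfl).map
        ((simAut ⇑(minusQF m F a b)).comp (frameHom j m a b a₀ b₀ A κ hA hκ h2)) := by
  ext β
  rw [Subgroup.mem_inf, Subgroup.mem_centralizer_iff, Subgroup.mem_map, Subgroup.mem_map]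
  constructor
  · rintro ⟨⟨g, hg, rfl⟩, hc⟩
    have hcomm : semiAut ⇑(minusQF m F a b) S * simAut ⇑(minusQF m F a b) g =
        simAut ⇑(minusQF m F a b) g * semiAut ⇑(minusQF m F a b) S :=
      hc _ (Set.mem_singleton _)
    obtain ⟨d, e, he0, hmat⟩ := exists_of_comm j m hm a b hab a₀ b₀ S hj A ν κ hA hν hκ h1 h2 g
      hcomm
    refine ⟨d, ?_, ?_⟩
    · rw [mem_hpSub] at hg ⊢
      rw [hmat, minus_preserves_smul m a b e he0,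
        frameHom_preserves_iff j m hm2 a b hab a₀ b₀ hab₀] at hg
      exact hg
    · rw [MonoidHom.comp_apply]
      exact (Cfsg.Agent.Lib.Helper44.simAut_eq_of_smul _ g _ e hmat).symm
  · rintro ⟨d, hd, rfl⟩
    rw [MonoidHom.comp_apply]
    refine ⟨⟨frameHom j m a b a₀ b₀ A κ hA hκ h2 d, ?_, rfl⟩, ?_⟩
    · rw [mem_hpSub] at hd ⊢
      exact (frameHom_preserves_iff j m hm2 a b hab a₀ b₀ hab₀ A κ hA hκ h2 d).mpr hd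
    · intro y hy
      rw [Set.mem_singleton_iff] at hy
      subst hy
      exact frameHom_comm j m a b a₀ b₀ S hj A ν κ hA hν hκ h1 h2 d

/-- **The centralizer of a field automorphism in `Inndiag(PΩ⁻)`** is `Inndiag` over the fixed
field. -/
theorem centralizer_equiv_minus (j : F₀ →+* F) (m : ℕ) (hm : 3 ≤ m) (hm2 : 2 ≤ m) (a b : F)
    (hab : ∀ z₁ z₂ : F, z₁ ^ 2 + a * z₁ * z₂ + b * z₂ ^ 2 = 0 → z₁ = 0 ∧ z₂ = 0)
    (a₀ b₀ : F₀)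
    (hab₀ : ∀ z₁ z₂ : F₀, z₁ ^ 2 + a₀ * z₁ * z₂ + b₀ * z₂ ^ 2 = 0 → z₁ = 0 ∧ z₂ = 0)
    (S : ↥(semiSim ⇑(minusQF m F a b)))
    (hj : IsFixEmb (S : SemiGL ((Fin m ⊕ Fin m) ⊕ Fin 2) F).right j)
    (A : Matrix ((Fin m ⊕ Fin m) ⊕ Fin 2) ((Fin m ⊕ Fin m) ⊕ Fin 2) F) (ν κ : F)
    (hA : A.det ≠ 0) (hν : ν ≠ 0) (hκ : κ ≠ 0)
    (h1 : (ν • ((S : SemiGL ((Fin m ⊕ Fin m) ⊕ Fin 2) F).left :
        Matrix ((Fin m ⊕ Fin m) ⊕ Fin 2) ((Fin m ⊕ Fin m) ⊕ Fin 2) F)) *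
      A.map (S : SemiGL ((Fin m ⊕ Fin m) ⊕ Fin 2) F).right = A)
    (h2 : ∀ v, κ * minusQF m F a b (A *ᵥ v) = Cfsg.quadFormMinus m F (j a₀) (j b₀) v)
    (Q₀f : ((Fin m ⊕ Fin m) ⊕ Fin 2 → F₀) → F₀) (hQ₀f : ⇑(minusQF m F₀ a₀ b₀) = Q₀f) :
    Nonempty (↥((hpSub m hm2 a b hab _ rfl).map (simAut ⇑(minusQF m F a b)) ⊓
        Subgroup.centralizer {semiAut ⇑(minusQF m F a b) S}) ≃*
      ↥((hpSub m hm2 a₀ b₀ hab₀ Q₀f hQ₀f).map (simAut Q₀f))) := by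
  subst hQ₀f
  rw [centralizer_eq_map j m hm hm2 a b hab a₀ b₀ hab₀ S hj A ν κ hA hν hκ h1 h2]
  apply nonempty_map_equiv_of_ker
  intro d _
  rw [MonoidHom.comp_apply]
  exact frameHom_simAut_eq_one_iff j m hm a b hab a₀ b₀ hab₀ A κ hA hκ h2 d

end cent2

end Cfsg.Agent.Lib.Helper14
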