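import Mathlib
import Cfsg.Prelude.Def_LieTypeDatum
import Cfsg.Agent.Lib.Helper14.FldM
import Cfsg.Agent.Lib.Helper14.Spinor3
import Cfsg.Agent.Lib.Helper44.MinusInnDiag
import Cfsg.Agent.Lib.Helper8.OmegaMinus

/-!
Generic lemmas for the class splitting of a field automorphism of `PΩ⁻`: reflections under a
frame, the special orthogonal group modulo `Ω`, and automorphisms induced by isometries.
-/

set_option autoImplicit false

namespace Cfsg.Agent.Lib.Helper14

open Matrix Module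
open Cfsg.Agent.Lib.Helper44 (simAut simMult simMult_spec dickson isomAut)

section gen

variable {ι : Type} [Fintype ι] [DecidableEq ι] {F : Type*} [Field F]

/-- The automorphism induced by an isometry, viewed as a similarity. -/
theorem simAut_of_isom (Qf : (ι → F) → F) (g : ↥(Cfsg.isometryGroup F Qf))
    (g' : ↥(Cfsg.Geo.quadSimilarityGroup (F := F) Qf)) (h : (g' : GL ι F) = (g : GL ι F)) :
    simAut Qf g' = isomAut Qf g := by
  apply MulEquiv.ext
  intro q
  obtain ⟨s, rfl⟩ := QuotientGroup.mk_surjective q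
  rw [Cfsg.Agent.Lib.Helper44.simAut_mk, Cfsg.Agent.Lib.Helper44.isomAut_mk]
  congr 1
  apply Subtype.ext
  apply Subtype.ext
  apply Units.ext
  rw [Cfsg.Agent.Lib.Helper44.simConj_coe, Cfsg.Agent.Lib.Helper44.conjNormal_coe, h]

/-- Conjugating a reflection by a frame. -/
theorem reflectionMatrix_frame (Q Q' : QuadraticForm F (ι → F))
    (A : Matrix ι ι F) (κ : F) (hA : A.det ≠ 0) (hκ : κ ≠ 0)
    (h2 : ∀ v, κ * Q (A *ᵥ v) = Q' v) (w : ι → F) :
    A * Cfsg.reflectionMatrix ⇑Q' w * A⁻¹ = Cfsg.reflectionMatrix ⇑Q (A *ᵥ w) := by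
  have hAu : IsUnit A.det := isUnit_iff_ne_zero.mpr hA
  have key : A * Cfsg.reflectionMatrix ⇑Q' w = Cfsg.reflectionMatrix ⇑Q (A *ᵥ w) * A := by
    rw [ext_iff_mulVec]
    intro x
    rw [← mulVec_mulVec, ← mulVec_mulVec, reflectionMatrix_mulVec, reflectionMatrix_mulVec,
      mulVec_sub, mulVec_smul]
    congr 2
    have hp : QuadraticMap.polar ⇑Q' w x = κ * QuadraticMap.polar ⇑Q (A *ᵥ w) (A *ᵥ x) := by
      unfold QuadraticMap.polar
      rw [← h2, ← h2, ← h2, mulVec_add]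
      ring
    rw [hp, ← h2, mul_inv, mul_mul_mul_comm, inv_mul_cancel₀ hκ, one_mul]
  rw [key, Matrix.mul_assoc, Matrix.mul_nonsing_inv A hAu, Matrix.mul_one]

variable [Fintype F]

set_option maxHeartbeats 800000 in
/-- An isometry of determinant one lies in `Ω`, or does so after multiplying by a product of two
reflections in vectors whose values have non-square product. -/
theorem SO_mem_or_mul_mem (h2 : (2 : F) ≠ 0) (Q : QuadraticForm F (ι → F))
    (hQ : (QuadraticMap.polarBilin Q).Nondegenerate)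
    (g : ↥(Cfsg.isometryGroup F ⇑Q)) (hdet : ((g : GL ι F) : Matrix ι ι F).det = 1)
    (w₁ w₂ : ι → F) (hw₁ : Q w₁ ≠ 0) (hw₂ : Q w₂ ≠ 0) (hns : ¬ IsSquare (Q w₁ * Q w₂)) :
    g ∈ commutator ↥(Cfsg.isometryGroup F ⇑Q) ∨
      g * (reflElt Q hQ w₁ hw₁ * reflElt Q hQ w₂ hw₂) ∈
        commutator ↥(Cfsg.isometryGroup F ⇑Q) := by
  obtain ⟨b, hb⟩ : ∃ b : F, b = Q w₁ * Q w₂ := ⟨_, rfl⟩
  rw [← hb] at hns
  have hb0 : b ≠ 0 := fun h => hns ⟨0, by rw [h, mul_zero]⟩
  have hneF : (-1 : F) ≠ 1 := by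
    intro h
    apply h2
    linear_combination -h
  have hg : signChar (⇑Q) 1 g = signChar (⇑Q) b g := by
    obtain ⟨l, hl, rfl⟩ := exists_eq_prodElt h2 Q hQ g
    rw [signChar_one_prodElt h2 Q hQ l hl, signChar_nsq_prodElt h2 Q hQ hns l hl]
    rw [Cfsg.Agent.Lib.Helper44.prodElt_coe, det_prod_reflectionMatrix Q l hl,
      neg_one_pow_eq_one_iff_even hneF, length_eq_sqCount_add (⇑Q) l] at hdet
    rcases Nat.even_or_odd (sqCount (⇑Q) l) with h | h
    · have h' : Even (nsqCount (⇑Q) l) := (Nat.even_add.mp hdet).mp h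
      rw [h.neg_one_pow, h'.neg_one_pow]
    · have h' : Odd (nsqCount (⇑Q) l) := by
        rw [← Nat.not_even_iff_odd] at h ⊢
        exact fun hh => h ((Nat.even_add.mp hdet).mpr hh)
      rw [h.neg_one_pow, h'.neg_one_pow]
  have hs : signChar (⇑Q) 1 (reflElt Q hQ w₁ hw₁ * reflElt Q hQ w₂ hw₂) = -1 ∧
      signChar (⇑Q) b (reflElt Q hQ w₁ hw₁ * reflElt Q hQ w₂ hw₂) = -1 := by
    rw [map_mul, map_mul]
    by_cases hsq : IsSquare (Q w₁)
    · have hn2 : ¬ IsSquare (Q w₂) := fun h => hns (by rw [hb]; exact hsq.mul h)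
      have e1 : signChar (⇑Q) 1 (reflElt Q hQ w₁ hw₁) = -1 :=
        (signChar_reflElt h2 Q hQ one_ne_zero w₁ hw₁).1 (by rw [one_mul]; exact hsq)
      have e2 : signChar (⇑Q) 1 (reflElt Q hQ w₂ hw₂) = 1 :=
        (signChar_reflElt h2 Q hQ one_ne_zero w₂ hw₂).2 (by rw [one_mul]; exact hn2)
      have e3 : signChar (⇑Q) b (reflElt Q hQ w₁ hw₁) = 1 :=
        (signChar_reflElt h2 Q hQ hb0 w₁ hw₁).2 (by
          have e : b * Q w₁ = (Q w₁ * Q w₁) * Q w₂ := by rw [hb]; ring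
          rw [e]
          exact not_isSquare_mul_of_isSquare ⟨Q w₁, rfl⟩ (mul_ne_zero hw₁ hw₁) hn2)
      have e4 : signChar (⇑Q) b (reflElt Q hQ w₂ hw₂) = -1 :=
        (signChar_reflElt h2 Q hQ hb0 w₂ hw₂).1 (by
          have e : b * Q w₂ = Q w₁ * (Q w₂ * Q w₂) := by rw [hb]; ring
          rw [e]
          exact hsq.mul ⟨Q w₂, rfl⟩)
      rw [e1, e2, e3, e4]
      exact ⟨by decide, by decide⟩
    · have hsq2 : IsSquare (Q w₂) := by
        by_contra h
        exact hns (by rw [hb]; exact isSquare_mul_of_not_isSquare hsq h)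
      have e1 : signChar (⇑Q) 1 (reflElt Q hQ w₁ hw₁) = 1 :=
        (signChar_reflElt h2 Q hQ one_ne_zero w₁ hw₁).2 (by rw [one_mul]; exact hsq)
      have e2 : signChar (⇑Q) 1 (reflElt Q hQ w₂ hw₂) = -1 :=
        (signChar_reflElt h2 Q hQ one_ne_zero w₂ hw₂).1 (by rw [one_mul]; exact hsq2)
      have e3 : signChar (⇑Q) b (reflElt Q hQ w₁ hw₁) = -1 :=
        (signChar_reflElt h2 Q hQ hb0 w₁ hw₁).1 (by
          have e : b * Q w₁ = (Q w₁ * Q w₁) * Q w₂ := by rw [hb]; ring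
          rw [e]
          exact IsSquare.mul (IsSquare.mul_self (Q w₁)) hsq2)
      have e4 : signChar (⇑Q) b (reflElt Q hQ w₂ hw₂) = 1 :=
        (signChar_reflElt h2 Q hQ hb0 w₂ hw₂).2 (by
          have e : b * Q w₂ = (Q w₂ * Q w₂) * Q w₁ := by rw [hb]; ring
          rw [e]
          exact not_isSquare_mul_of_isSquare ⟨Q w₂, rfl⟩ (mul_ne_zero hw₂ hw₂) hsq)
      rw [e1, e2, e3, e4]
      exact ⟨by decide, by decide⟩
  rcases Int.units_eq_one_or (signChar (⇑Q) 1 g) with h | h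
  · left
    exact (mem_commutator_iff_signChar h2 Q hQ hns g).mpr ⟨h, by rw [← hg]; exact h⟩
  · right
    apply (mem_commutator_iff_signChar h2 Q hQ hns _).mpr
    have k1 : signChar (⇑Q) 1 (g * (reflElt Q hQ w₁ hw₁ * reflElt Q hQ w₂ hw₂)) = 1 := by
      rw [map_mul, h, hs.1]
      decide
    have k2 : signChar (⇑Q) b (g * (reflElt Q hQ w₁ hw₁ * reflElt Q hQ w₂ hw₂)) = 1 := by
      rw [map_mul, ← hg, h, hs.2]
      decide
    exact ⟨k1, k2⟩

end gen

end Cfsg.Agent.Lib.Helper14
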