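import Mathlib
import Cfsg.Prelude.Def_LieTypeDatum
import Cfsg.Agent.Lib.Helper14.FldN

/-!
The class of a field automorphism of `PΩ⁻` under `Inndiag` is a single class under `Inn`:
`Inndiag = Inn · C_Inndiag(x)`.
-/

set_option autoImplicit false

namespace Cfsg.Agent.Lib.Helper14

open Matrix Module
open Cfsg.Agent.Lib.Helper44 (simAut simMult simMult_spec dickson isomAut)
open Cfsg.Agent.Lib.Helper43.FieldAut (IsFixEmb)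

section split

universe u u₀

variable {F : Type u} [Field F] [Fintype F] {F₀ : Type u₀} [Field F₀] [Fintype F₀]

omit [Fintype F] in
theorem conj_mul_conj {ι : Type} [Fintype ι] [DecidableEq ι] (A R₁ R₂ : Matrix ι ι F)
    (hAu : IsUnit A.det) : A * (R₁ * R₂) * A⁻¹ = (A * R₁ * A⁻¹) * (A * R₂ * A⁻¹) := by
  rw [Matrix.mul_assoc (A * R₁) A⁻¹, ← Matrix.mul_assoc A⁻¹, ← Matrix.mul_assoc A⁻¹,
    Matrix.nonsing_inv_mul A hAu, Matrix.one_mul]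
  simp only [Matrix.mul_assoc]

/-- In characteristic two `Inndiag(PΩ⁻) = Inn`. -/
theorem inndiag_le_inn_char2 (h2c : (2 : F) = 0) (m : ℕ) (hm2 : 2 ≤ m) (a b : F)
    (hab : ∀ z₁ z₂ : F, z₁ ^ 2 + a * z₁ * z₂ + b * z₂ ^ 2 = 0 → z₁ = 0 ∧ z₂ = 0) :
    (hpSub m hm2 a b hab _ rfl).map (simAut ⇑(minusQF m F a b)) ≤
      Cfsg.Inn (Cfsg.POmega F ⇑(minusQF m F a b)) := by
  rintro β ⟨g, hg, rfl⟩
  obtain ⟨t, s, ht, hs⟩ := char2_sim_decomp h2c m a b g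
  have hg : Cfsg.PreservesSingularClassesMinus m a b
      ((g : GL ((Fin m ⊕ Fin m) ⊕ Fin 2) F) :
        Matrix ((Fin m ⊕ Fin m) ⊕ Fin 2) ((Fin m ⊕ Fin m) ⊕ Fin 2) F) := hg
  rw [minus_preserves_smul_isom m hm2 a b hab _ t ht s hs,
    Cfsg.Agent.Lib.Helper44.dickson_eq_one_iff] at hg
  have hsΩ : s ∈ Cfsg.Omega F ⇑(minusQF m F a b) :=
    (Cfsg.Agent.Lib.Helper8.OmegaMinus.mem_omega_iff_even_rank_fun_gen h2c _ (minusQF m F a b) rfl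
      (Cfsg.Agent.Lib.Helper44.minusQF_nondegenerate_all m F a b hab)
      (Or.inr (Or.inl (by rw [minus_card_idx]; omega))) s).mpr hg
  obtain ⟨s', hs'⟩ : ∃ s' : ↥(Cfsg.Geo.quadSimilarityGroup (F := F) ⇑(minusQF m F a b)),
      (s' : GL ((Fin m ⊕ Fin m) ⊕ Fin 2) F) = (s : GL ((Fin m ⊕ Fin m) ⊕ Fin 2) F) :=
    ⟨⟨s, Cfsg.Agent.Lib.Helper44.isometryGroup_le_sim _ s.2⟩, rfl⟩
  have e : simAut ⇑(minusQF m F a b) g = isomAut ⇑(minusQF m F a b) s := by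
    rw [← simAut_of_isom _ s s' hs']
    exact Cfsg.Agent.Lib.Helper44.simAut_eq_of_smul _ g s' t (by rw [hs', hs])
  rw [e, Cfsg.Agent.Lib.Helper44.inn_eq_map]
  exact ⟨s, hsΩ, rfl⟩

set_option maxHeartbeats 6400000 in
/-- In odd characteristic `Inndiag = Inn · C_Inndiag(x)` for a field automorphism `x` of odd
order. -/
theorem inndiag_le_sup_odd (h2c : (2 : F) ≠ 0) (j : F₀ →+* F) (m : ℕ) (hm : 3 ≤ m) (hm2 : 2 ≤ m)
    (a b : F)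
    (hab : ∀ z₁ z₂ : F, z₁ ^ 2 + a * z₁ * z₂ + b * z₂ ^ 2 = 0 → z₁ = 0 ∧ z₂ = 0)
    (a₀ b₀ : F₀)
    (hab₀ : ∀ z₁ z₂ : F₀, z₁ ^ 2 + a₀ * z₁ * z₂ + b₀ * z₂ ^ 2 = 0 → z₁ = 0 ∧ z₂ = 0)
    (hns : ∀ c₀ : F₀, ¬ IsSquare c₀ → ¬ IsSquare (j c₀))
    (S : ↥(semiSim ⇑(minusQF m F a b)))
    (hj : IsFixEmb (S : SemiGL ((Fin m ⊕ Fin m) ⊕ Fin 2) F).right j)
    (A : Matrix ((Fin m ⊕ Fin m) ⊕ Fin 2) ((Fin m ⊕ Fin m) ⊕ Fin 2) F) (ν κ : F)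
    (hA : A.det ≠ 0) (hν : ν ≠ 0) (hκ : κ ≠ 0)
    (h1 : (ν • ((S : SemiGL ((Fin m ⊕ Fin m) ⊕ Fin 2) F).left :
        Matrix ((Fin m ⊕ Fin m) ⊕ Fin 2) ((Fin m ⊕ Fin m) ⊕ Fin 2) F)) *
      A.map (S : SemiGL ((Fin m ⊕ Fin m) ⊕ Fin 2) F).right = A)
    (h2 : ∀ v, κ * minusQF m F a b (A *ᵥ v) = Cfsg.quadFormMinus m F (j a₀) (j b₀) v) :
    (hpSub m hm2 a b hab _ rfl).map (simAut ⇑(minusQF m F a b)) ≤
      Cfsg.Inn (Cfsg.POmega F ⇑(minusQF m F a b)) ⊔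
        ((hpSub m hm2 a b hab _ rfl).map (simAut ⇑(minusQF m F a b)) ⊓
          Subgroup.centralizer {semiAut ⇑(minusQF m F a b) S}) := by
  rw [centralizer_eq_map j m hm hm2 a b hab a₀ b₀ hab₀ S hj A ν κ hA hν hκ h1 h2]
  have hQ := Cfsg.Agent.Lib.Helper44.minusQF_nondegenerate_all m F a b hab
  have hQ₀ := Cfsg.Agent.Lib.Helper44.minusQF_nondegenerate_all m F₀ a₀ b₀ hab₀
  have hAu : IsUnit A.det := isUnit_iff_ne_zero.mpr hA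
  have h2₀ : (2 : F₀) ≠ 0 := fun h => h2c (by rw [← map_ofNat j 2, h, map_zero])
  obtain ⟨w, c, hc, hw⟩ := Cfsg.Agent.Lib.Helper44.exists_norm_not_isSquare h2₀ a₀ b₀ hab₀
  have hc0 : c ≠ 0 := fun h => hc ⟨0, by rw [h, mul_zero]⟩
  have hjc : ¬ IsSquare (j c) := hns c hc
  have hjc0 : j c ≠ 0 := (map_ne_zero j).mpr hc0
  -- the similarity with non-square multiplier
  have hdet0 : (Cfsg.Agent.Lib.Helper44.minusSimMat m a₀ b₀ c w).det ≠ 0 := by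
    rw [Cfsg.Agent.Lib.Helper44.minusSimMat_det m a₀ b₀ c w hw]
    exact pow_ne_zero _ hc0
  obtain ⟨d₁, hd₁⟩ : ∃ d₁ : ↥(Cfsg.Geo.quadSimilarityGroup (F := F₀) ⇑(minusQF m F₀ a₀ b₀)),
      ((d₁ : GL ((Fin m ⊕ Fin m) ⊕ Fin 2) F₀) :
        Matrix ((Fin m ⊕ Fin m) ⊕ Fin 2) ((Fin m ⊕ Fin m) ⊕ Fin 2) F₀) =
        Cfsg.Agent.Lib.Helper44.minusSimMat m a₀ b₀ c w :=
    ⟨⟨Matrix.GeneralLinearGroup.mkOfDetNeZero _ hdet0, ⟨Units.mk0 c hc0, fun v => by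
      have e := congrFun (minusQF_coe m F₀ a₀ b₀)
      rw [e, e]
      exact Cfsg.Agent.Lib.Helper44.minusSimMat_quad m a₀ b₀ c w hw v⟩⟩, rfl⟩
  have hd₁mult : (simMult ⇑(minusQF m F₀ a₀ b₀) d₁ : F₀) = c := by
    apply Cfsg.Agent.Lib.Helper44.simMult_unique _ (minus_quad_ne m a₀ b₀)
    intro v
    have e := congrFun (minusQF_coe m F₀ a₀ b₀)
    rw [hd₁, e, e]
    exact Cfsg.Agent.Lib.Helper44.minusSimMat_quad m a₀ b₀ c w hw v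
  have hd₁P : d₁ ∈ hpSub m hm2 a₀ b₀ hab₀ _ rfl := by
    rw [mem_hpSub, minus_preserves_odd h2₀ m a₀ b₀ hab₀, hd₁mult, hd₁]
    exact Cfsg.Agent.Lib.Helper44.minusSimMat_det m a₀ b₀ c w hw
  -- the product of two reflections over the subfield
  obtain ⟨u, hu⟩ : ∃ u : (Fin m ⊕ Fin m) ⊕ Fin 2 → F₀, u = Pi.single (Sum.inr 0) 1 := ⟨_, rfl⟩
  obtain ⟨v, hv⟩ : ∃ v : (Fin m ⊕ Fin m) ⊕ Fin 2 → F₀, v = Sum.elim (0 : Fin m ⊕ Fin m → F₀) ![w, 1] :=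
    ⟨_, rfl⟩
  have hQu : minusQF m F₀ a₀ b₀ u = 1 := by
    rw [minusQF_coe, hu]
    exact minus_quad_g1 m F₀ a₀ b₀
  have hQv : minusQF m F₀ a₀ b₀ v = c := by
    rw [minusQF_coe, hv]
    simp [Cfsg.quadFormMinus]
    linear_combination hw
  have hu0 : minusQF m F₀ a₀ b₀ u ≠ 0 := by
    rw [hQu]
    exact one_ne_zero
  have hv0 : minusQF m F₀ a₀ b₀ v ≠ 0 := by
    rw [hQv]
    exact hc0
  obtain ⟨s₀i, hs₀i⟩ : ∃ s₀i : ↥(Cfsg.isometryGroup F₀ ⇑(minusQF m F₀ a₀ b₀)),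
      s₀i = reflElt (minusQF m F₀ a₀ b₀) hQ₀ u hu0 * reflElt (minusQF m F₀ a₀ b₀) hQ₀ v hv0 :=
    ⟨_, rfl⟩
  obtain ⟨s₀, hs₀⟩ : ∃ s₀ : ↥(Cfsg.Geo.quadSimilarityGroup (F := F₀) ⇑(minusQF m F₀ a₀ b₀)),
      (s₀ : GL ((Fin m ⊕ Fin m) ⊕ Fin 2) F₀) = (s₀i : GL ((Fin m ⊕ Fin m) ⊕ Fin 2) F₀) :=
    ⟨⟨s₀i, Cfsg.Agent.Lib.Helper44.isometryGroup_le_sim _ s₀i.2⟩, rfl⟩
  have hs₀mat : ((s₀ : GL ((Fin m ⊕ Fin m) ⊕ Fin 2) F₀) :
        Matrix ((Fin m ⊕ Fin m) ⊕ Fin 2) ((Fin m ⊕ Fin m) ⊕ Fin 2) F₀) =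
      Cfsg.reflectionMatrix ⇑(minusQF m F₀ a₀ b₀) u *
        Cfsg.reflectionMatrix ⇑(minusQF m F₀ a₀ b₀) v := by
    rw [hs₀, hs₀i]
    rfl
  have hs₀P : s₀ ∈ hpSub m hm2 a₀ b₀ hab₀ _ rfl := by
    rw [mem_hpSub, hs₀mat]
    have h := minus_preserves_prod m a₀ b₀ hab₀ [u, v] (by
      intro x hx
      rw [List.mem_cons, List.mem_singleton] at hx
      rcases hx with rfl | rfl
      · exact hu0
      · exact hv0)
    rw [List.map_cons, List.map_cons, List.map_nil, List.prod_cons, List.prod_cons,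
      List.prod_nil, mul_one] at h
    exact h.mpr ⟨1, rfl⟩
  -- the frame vectors
  obtain ⟨w₁, hw₁def⟩ : ∃ w₁ : (Fin m ⊕ Fin m) ⊕ Fin 2 → F, w₁ = A *ᵥ (fun i => j (u i)) :=
    ⟨_, rfl⟩
  obtain ⟨w₂, hw₂def⟩ : ∃ w₂ : (Fin m ⊕ Fin m) ⊕ Fin 2 → F, w₂ = A *ᵥ (fun i => j (v i)) :=
    ⟨_, rfl⟩
  have hQA : ∀ x : (Fin m ⊕ Fin m) ⊕ Fin 2 → F₀,
      minusQF m F a b (A *ᵥ (fun i => j (x i))) = κ⁻¹ * j (minusQF m F₀ a₀ b₀ x) := by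
    intro x
    rw [minusQF_coe m F₀ a₀ b₀, ← minus_compat_hom, ← h2, ← mul_assoc, inv_mul_cancel₀ hκ,
      one_mul]
  have hw₁q : minusQF m F a b w₁ = κ⁻¹ := by
    rw [hw₁def, hQA, hQu, map_one, mul_one]
  have hw₂q : minusQF m F a b w₂ = κ⁻¹ * j c := by
    rw [hw₂def, hQA, hQv]
  have hw₁0 : minusQF m F a b w₁ ≠ 0 := by
    rw [hw₁q]
    exact inv_ne_zero hκ
  have hw₂0 : minusQF m F a b w₂ ≠ 0 := by
    rw [hw₂q]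
    exact mul_ne_zero (inv_ne_zero hκ) hjc0
  have hnsq : ¬ IsSquare (minusQF m F a b w₁ * minusQF m F a b w₂) := by
    rw [hw₁q, hw₂q]
    rintro ⟨y, hy⟩
    apply hjc
    refine ⟨κ * y, ?_⟩
    have e : j c = κ * κ * (κ⁻¹ * (κ⁻¹ * j c)) := by
      field_simp
    rw [e, hy]
    ring
  obtain ⟨sF, hsF⟩ : ∃ sF : ↥(Cfsg.isometryGroup F ⇑(minusQF m F a b)),
      sF = reflElt (minusQF m F a b) hQ w₁ hw₁0 * reflElt (minusQF m F a b) hQ w₂ hw₂0 :=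
    ⟨_, rfl⟩
  have hcompat : ∀ x : (Fin m ⊕ Fin m) ⊕ Fin 2 → F₀,
      (minusQF m F (j a₀) (j b₀)) (fun i => j (x i)) = j ((minusQF m F₀ a₀ b₀) x) := by
    intro x
    rw [minusQF_coe, minusQF_coe]
    exact minus_compat_hom j m a₀ b₀ x
  have h2' : ∀ v, κ * minusQF m F a b (A *ᵥ v) = minusQF m F (j a₀) (j b₀) v := by
    intro v
    rw [minusQF_coe m F (j a₀) (j b₀)]
    exact h2 v
  have hΦs₀ : (frameHom j m a b a₀ b₀ A κ hA hκ h2 s₀ : GL ((Fin m ⊕ Fin m) ⊕ Fin 2) F) =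
      (sF : GL ((Fin m ⊕ Fin m) ⊕ Fin 2) F) := by
    apply Units.ext
    rw [frameHom_coe, hs₀mat, hsF]
    show A * (Cfsg.reflectionMatrix ⇑(minusQF m F₀ a₀ b₀) u *
        Cfsg.reflectionMatrix ⇑(minusQF m F₀ a₀ b₀) v).map j * A⁻¹ =
      Cfsg.reflectionMatrix ⇑(minusQF m F a b) w₁ * Cfsg.reflectionMatrix ⇑(minusQF m F a b) w₂
    have hmm : (Cfsg.reflectionMatrix ⇑(minusQF m F₀ a₀ b₀) u *
        Cfsg.reflectionMatrix ⇑(minusQF m F₀ a₀ b₀) v).map j =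
        (Cfsg.reflectionMatrix ⇑(minusQF m F₀ a₀ b₀) u).map j *
          (Cfsg.reflectionMatrix ⇑(minusQF m F₀ a₀ b₀) v).map j := Matrix.map_mul (f := j)
    rw [hmm, conj_mul_conj A _ _ hAu,
      ← reflectionMatrix_map j ⇑(minusQF m F₀ a₀ b₀) ⇑(minusQF m F (j a₀) (j b₀)) hcompat u,
      ← reflectionMatrix_map j ⇑(minusQF m F₀ a₀ b₀) ⇑(minusQF m F (j a₀) (j b₀)) hcompat v,
      reflectionMatrix_frame (minusQF m F a b) (minusQF m F (j a₀) (j b₀)) A κ hA hκ h2',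
      reflectionMatrix_frame (minusQF m F a b) (minusQF m F (j a₀) (j b₀)) A κ hA hκ h2',
      hw₁def, hw₂def]
  -- the main argument
  have hne := minus_quad_ne m a b
  have key : ∀ g' : ↥(Cfsg.Geo.quadSimilarityGroup (F := F) ⇑(minusQF m F a b)),
      g' ∈ hpSub m hm2 a b hab _ rfl → IsSquare (simMult ⇑(minusQF m F a b) g' : F) →
      simAut ⇑(minusQF m F a b) g' ∈ Cfsg.Inn (Cfsg.POmega F ⇑(minusQF m F a b)) ⊔
        (hpSub m hm2 a₀ b₀ hab₀ _ rfl).map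
          ((simAut ⇑(minusQF m F a b)).comp (frameHom j m a b a₀ b₀ A κ hA hκ h2)) := by
    intro g' hg' hsq
    obtain ⟨t, ht⟩ := hsq
    have ht0 : t ≠ 0 := by
      rintro rfl
      exact (simMult ⇑(minusQF m F a b) g').ne_zero (by rw [ht, mul_zero])
    obtain ⟨G', hG'⟩ : ∃ G' : Matrix ((Fin m ⊕ Fin m) ⊕ Fin 2) ((Fin m ⊕ Fin m) ⊕ Fin 2) F,
        G' = ((g' : GL ((Fin m ⊕ Fin m) ⊕ Fin 2) F) :
          Matrix ((Fin m ⊕ Fin m) ⊕ Fin 2) ((Fin m ⊕ Fin m) ⊕ Fin 2) F) := ⟨_, rfl⟩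
    have hG'sim : ∀ v, minusQF m F a b (G' *ᵥ v) = (t * t) * minusQF m F a b v := by
      intro v
      rw [hG', ← ht]
      exact simMult_spec _ g' v
    have hG'det : G'.det = (t * t) ^ (m + 1) := by
      rw [mem_hpSub, minus_preserves_odd h2c m a b hab, ht] at hg'
      rw [hG']
      exact hg'
    have hdet1 : (t⁻¹ • G').det = 1 := by
      rw [Matrix.det_smul, minus_card_idx, hG'det]
      have e : (t * t) ^ (m + 1) = t ^ (2 * m + 2) := by ring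
      rw [e, ← mul_pow, inv_mul_cancel₀ ht0, one_pow]
    obtain ⟨g₁, hg₁⟩ : ∃ g₁ : ↥(Cfsg.isometryGroup F ⇑(minusQF m F a b)),
        ((g₁ : GL ((Fin m ⊕ Fin m) ⊕ Fin 2) F) :
          Matrix ((Fin m ⊕ Fin m) ⊕ Fin 2) ((Fin m ⊕ Fin m) ⊕ Fin 2) F) = t⁻¹ • G' :=
      ⟨⟨Matrix.GeneralLinearGroup.mkOfDetNeZero (t⁻¹ • G') (by rw [hdet1]; exact one_ne_zero),
        (mem_isometryGroup_iff _ _).mpr (fun v => by
          show minusQF m F a b ((t⁻¹ • G') *ᵥ v) = minusQF m F a b v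
          rw [Matrix.smul_mulVec, QuadraticMap.map_smul, hG'sim, smul_eq_mul]
          field_simp)⟩, rfl⟩
    obtain ⟨g₁s, hg₁s⟩ : ∃ g₁s : ↥(Cfsg.Geo.quadSimilarityGroup (F := F) ⇑(minusQF m F a b)),
        (g₁s : GL ((Fin m ⊕ Fin m) ⊕ Fin 2) F) = (g₁ : GL ((Fin m ⊕ Fin m) ⊕ Fin 2) F) :=
      ⟨⟨g₁, Cfsg.Agent.Lib.Helper44.isometryGroup_le_sim _ g₁.2⟩, rfl⟩
    have hsim : simAut ⇑(minusQF m F a b) g' = isomAut ⇑(minusQF m F a b) g₁ := by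
      rw [← simAut_of_isom _ g₁ g₁s hg₁s]
      apply Cfsg.Agent.Lib.Helper44.simAut_eq_of_smul _ g' g₁s t
      rw [hg₁s, hg₁, ← hG', smul_smul, mul_inv_cancel₀ ht0, one_smul]
    have hg₁det : ((g₁ : GL ((Fin m ⊕ Fin m) ⊕ Fin 2) F) :
        Matrix ((Fin m ⊕ Fin m) ⊕ Fin 2) ((Fin m ⊕ Fin m) ⊕ Fin 2) F).det = 1 := by
      rw [hg₁]
      exact hdet1
    rcases SO_mem_or_mul_mem h2c (minusQF m F a b) hQ g₁ hg₁det w₁ w₂ hw₁0 hw₂0 hnsq with h | h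
    · apply Subgroup.mem_sup_left
      rw [hsim, Cfsg.Agent.Lib.Helper44.inn_eq_map]
      exact ⟨g₁, h, rfl⟩
    · rw [← hsF] at h
      have e : isomAut ⇑(minusQF m F a b) g₁ =
          isomAut ⇑(minusQF m F a b) (g₁ * sF) * (isomAut ⇑(minusQF m F a b) sF)⁻¹ := by
        rw [map_mul, mul_inv_cancel_right]
      rw [hsim, e]
      apply Subgroup.mul_mem
      · apply Subgroup.mem_sup_left
        rw [Cfsg.Agent.Lib.Helper44.inn_eq_map]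
        exact ⟨_, h, rfl⟩
      · apply Subgroup.inv_mem
        apply Subgroup.mem_sup_right
        refine ⟨s₀, hs₀P, ?_⟩
        rw [MonoidHom.comp_apply]
        exact simAut_of_isom _ sF _ hΦs₀
  rintro β ⟨g, hg, rfl⟩
  by_cases hsq : IsSquare (simMult ⇑(minusQF m F a b) g : F)
  · exact key g hg hsq
  · obtain ⟨Φd₁, hΦd₁⟩ : ∃ X : ↥(Cfsg.Geo.quadSimilarityGroup (F := F) ⇑(minusQF m F a b)),
        X = frameHom j m a b a₀ b₀ A κ hA hκ h2 d₁ := ⟨_, rfl⟩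
    have hΦP : Φd₁ ∈ hpSub m hm2 a b hab _ rfl := by
      rw [hΦd₁, mem_hpSub]
      exact (frameHom_preserves_iff j m hm2 a b hab a₀ b₀ hab₀ A κ hA hκ h2 d₁).mpr hd₁P
    have hΦmult : (simMult ⇑(minusQF m F a b) Φd₁ : F) = j c := by
      rw [hΦd₁, frameHom_simMult, hd₁mult]
    have hg' : g * Φd₁⁻¹ ∈ hpSub m hm2 a b hab _ rfl :=
      Subgroup.mul_mem _ hg (Subgroup.inv_mem _ hΦP)
    have hmul : (simMult ⇑(minusQF m F a b) g : F) =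
        (simMult ⇑(minusQF m F a b) (g * Φd₁⁻¹) : F) * j c := by
      have e : g = (g * Φd₁⁻¹) * Φd₁ := by rw [inv_mul_cancel_right]
      conv_lhs => rw [e]
      rw [Cfsg.Agent.Lib.Helper44.simMult_mul _ hne, Units.val_mul, hΦmult]
    have hsq' : IsSquare (simMult ⇑(minusQF m F a b) (g * Φd₁⁻¹) : F) := by
      have h3 : IsSquare ((simMult ⇑(minusQF m F a b) g : F) * j c) :=
        isSquare_mul_of_not_isSquare hsq hjc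
      obtain ⟨y, hy⟩ := h3
      refine ⟨y / j c, ?_⟩
      rw [hmul] at hy
      rw [div_mul_div_comm, ← hy, mul_assoc, mul_div_assoc, div_self (mul_ne_zero hjc0 hjc0),
        mul_one]
    have h3 := key _ hg' hsq'
    have h4 : simAut ⇑(minusQF m F a b) g =
        simAut ⇑(minusQF m F a b) (g * Φd₁⁻¹) * simAut ⇑(minusQF m F a b) Φd₁ := by
      rw [← map_mul, inv_mul_cancel_right]
    rw [h4]
    exact Subgroup.mul_mem _ h3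
      (Subgroup.mem_sup_right ⟨d₁, hd₁P, by rw [MonoidHom.comp_apply, hΦd₁]⟩)

/-- `Inndiag = Inn · C_Inndiag(x)` for a field automorphism `x` of `PΩ⁻` of odd order. -/
theorem inndiag_le_sup (j : F₀ →+* F) (m : ℕ) (hm : 3 ≤ m) (hm2 : 2 ≤ m)
    (a b : F)
    (hab : ∀ z₁ z₂ : F, z₁ ^ 2 + a * z₁ * z₂ + b * z₂ ^ 2 = 0 → z₁ = 0 ∧ z₂ = 0)
    (a₀ b₀ : F₀)
    (hab₀ : ∀ z₁ z₂ : F₀, z₁ ^ 2 + a₀ * z₁ * z₂ + b₀ * z₂ ^ 2 = 0 → z₁ = 0 ∧ z₂ = 0)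
    (hns : (2 : F) ≠ 0 → ∀ c₀ : F₀, ¬ IsSquare c₀ → ¬ IsSquare (j c₀))
    (S : ↥(semiSim ⇑(minusQF m F a b)))
    (hj : IsFixEmb (S : SemiGL ((Fin m ⊕ Fin m) ⊕ Fin 2) F).right j)
    (A : Matrix ((Fin m ⊕ Fin m) ⊕ Fin 2) ((Fin m ⊕ Fin m) ⊕ Fin 2) F) (ν κ : F)
    (hA : A.det ≠ 0) (hν : ν ≠ 0) (hκ : κ ≠ 0)
    (h1 : (ν • ((S : SemiGL ((Fin m ⊕ Fin m) ⊕ Fin 2) F).left :
        Matrix ((Fin m ⊕ Fin m) ⊕ Fin 2) ((Fin m ⊕ Fin m) ⊕ Fin 2) F)) *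
      A.map (S : SemiGL ((Fin m ⊕ Fin m) ⊕ Fin 2) F).right = A)
    (h2 : ∀ v, κ * minusQF m F a b (A *ᵥ v) = Cfsg.quadFormMinus m F (j a₀) (j b₀) v) :
    (hpSub m hm2 a b hab _ rfl).map (simAut ⇑(minusQF m F a b)) ≤
      Cfsg.Inn (Cfsg.POmega F ⇑(minusQF m F a b)) ⊔
        ((hpSub m hm2 a b hab _ rfl).map (simAut ⇑(minusQF m F a b)) ⊓
          Subgroup.centralizer {semiAut ⇑(minusQF m F a b) S}) := by
  by_cases h2c : (2 : F) = 0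
  · exact le_trans (inndiag_le_inn_char2 h2c m hm2 a b hab) le_sup_left
  · exact inndiag_le_sup_odd h2c j m hm hm2 a b hab a₀ b₀ hab₀ (hns h2c) S hj A ν κ hA hν hκ h1 h2

end split

end Cfsg.Agent.Lib.Helper14
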