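import Mathlib
import Cfsg.Prelude.Def_LieTypeDatum
import Cfsg.Agent.Lib.Helper14.FldO
import Cfsg.Agent.Lib.Helper43.FieldAut.Main
import Cfsg.Agent.Lib.Helper43.FieldAut.Count
import Cfsg.Agent.Lib.Helper8.OCent

/-!
Field automorphisms of prime order of `PΩ⁻_{2m+2}(F)` (`m ≥ 3`): the order is odd and divides the
degree of `F`; the centralizer in `Inndiag` is `Inndiag` over the fixed field; the `Inndiag`-class
is a single `Inn`-class.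
-/

set_option autoImplicit false

namespace Cfsg.Agent.Lib.Helper14

open Matrix Module
open Cfsg.Agent.Lib.Helper44 (simAut simMult simMult_spec dickson isomAut)
open Cfsg.Agent.Lib.Helper43.FieldAut (IsFixEmb fixF mem_fixF card_fixF_pow card_fixF_eq)

section main

universe u u₀

variable {F : Type u} [Field F] [Fintype F]

set_option maxHeartbeats 3200000 in
/-- A field automorphism of prime order is induced by a semisimilarity with a frame. -/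
theorem field_aut_setup (m : ℕ) (hm : 3 ≤ m) (a b : F)
    (hab : ∀ z₁ z₂ : F, z₁ ^ 2 + a * z₁ * z₂ + b * z₂ ^ 2 = 0 → z₁ = 0 ∧ z₂ = 0)
    (Qf : ((Fin m ⊕ Fin m) ⊕ Fin 2 → F) → F) (hQf : ⇑(minusQF m F a b) = Qf)
    (x : MulAut (Cfsg.POmega F Qf))
    (hx : ∃ (a' b' : F) (ψ : Cfsg.POmega F Qf ≃* Cfsg.POmega F (Cfsg.quadFormMinus m F a' b'))
      (σ : F ≃+* F),
      (∀ z₁ z₂ : F, z₁ ^ 2 + a' * z₁ * z₂ + b' * z₂ ^ 2 = 0 → z₁ = 0 ∧ z₂ = 0) ∧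
      σ ≠ RingEquiv.refl F ∧ σ a' = a' ∧ σ b' = b' ∧
      Cfsg.IsFieldAutPOmegaOf (Cfsg.quadFormMinus m F a' b') σ ((ψ.symm.trans x).trans ψ))
    (r : ℕ) (hr : r.Prime) (hxr : orderOf x = r) :
    ∃ (a' b' : F) (σ : RingAut F) (S : ↥(semiSim Qf))
      (A : Matrix ((Fin m ⊕ Fin m) ⊕ Fin 2) ((Fin m ⊕ Fin m) ⊕ Fin 2) F) (ν κ : F),
      (∀ z₁ z₂ : F, z₁ ^ 2 + a' * z₁ * z₂ + b' * z₂ ^ 2 = 0 → z₁ = 0 ∧ z₂ = 0) ∧
      σ a' = a' ∧ σ b' = b' ∧ orderOf σ = r ∧ semiAut Qf S = x ∧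
      (S : SemiGL ((Fin m ⊕ Fin m) ⊕ Fin 2) F).right = σ ∧ A.det ≠ 0 ∧ ν ≠ 0 ∧ κ ≠ 0 ∧
      (ν • ((S : SemiGL ((Fin m ⊕ Fin m) ⊕ Fin 2) F).left :
          Matrix ((Fin m ⊕ Fin m) ⊕ Fin 2) ((Fin m ⊕ Fin m) ⊕ Fin 2) F)) *
        A.map (S : SemiGL ((Fin m ⊕ Fin m) ⊕ Fin 2) F).right = A ∧
      ∀ v, κ * Qf (A *ᵥ v) = Cfsg.quadFormMinus m F a' b' v := by
  subst hQf
  obtain ⟨a', b', ψ, σ, hab', hσne, hσa, hσb, hfield⟩ := hx
  have hQ := Cfsg.Agent.Lib.Helper44.minusQF_nondegenerate_all m F a b hab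
  have hAut := minus_gamma_top m hm a b hab
  have hn5 : 5 ≤ Fintype.card ((Fin m ⊕ Fin m) ⊕ Fin 2) := by
    rw [minus_card_idx]
    omega
  obtain ⟨tc, td, htd, ht1, ht2⟩ := exists_twist a b a' b' hab hab'
  have hT : ∀ v, minusQF m F a b
      (((twistGL m tc td htd : GL ((Fin m ⊕ Fin m) ⊕ Fin 2) F) :
        Matrix ((Fin m ⊕ Fin m) ⊕ Fin 2) ((Fin m ⊕ Fin m) ⊕ Fin 2) F) *ᵥ v) =
      Cfsg.quadFormMinus m F a' b' v := by
    intro v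
    rw [minusQF_coe, twistGL_coe]
    exact twistMat_quad m a b tc td a' b' ht1 ht2 v
  have hσcompat : ∀ v : (Fin m ⊕ Fin m) ⊕ Fin 2 → F,
      Cfsg.quadFormMinus m F a' b' (fun i => σ (v i)) = σ (Cfsg.quadFormMinus m F a' b' v) := by
    intro v
    have h := quadFormMinus_map m a' b' σ v
    rw [hσa, hσb] at h
    exact h
  have htype : typeHom (minusQF m F a b) hQ hn5 hAut x = σ :=
    typeHom_of_fieldAut (minusQF m F a b) hQ hn5 hAut _ (twistGL m tc td htd) hT σ hσcompat ψ x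
      hfield
  obtain ⟨S, hS⟩ := semiAut_surjective ⇑(minusQF m F a b) hAut x
  have hSr : (S : SemiGL ((Fin m ⊕ Fin m) ⊕ Fin 2) F).right = σ := by
    rw [← typeHom_semiAut (minusQF m F a b) hQ hn5 hAut S, hS, htype]
  have hσr : orderOf σ = r := by
    have h1 : σ ^ r = 1 := by
      have h := congrArg (typeHom (minusQF m F a b) hQ hn5 hAut) (pow_orderOf_eq_one x)
      rw [hxr, map_pow, htype, map_one] at h
      exact h
    have h2 := orderOf_dvd_of_pow_eq_one h1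
    rcases (Nat.dvd_prime hr).mp h2 with h | h
    · exfalso
      apply hσne
      exact orderOf_eq_one_iff.mp h
    · exact h
  have hx_r : semiAut ⇑(minusQF m F a b) S ^ r = 1 := by
    rw [hS, ← hxr, pow_orderOf_eq_one]
  have hZr' : ((S ^ r : ↥(semiSim ⇑(minusQF m F a b))) :
      SemiGL ((Fin m ⊕ Fin m) ⊕ Fin 2) F).right = 1 := by
    rw [Subgroup.coe_pow, semi_pow_right, hSr, ← hσr, pow_orderOf_eq_one]
  obtain ⟨n, hn⟩ := exists_sim_of_right_eq_one ⇑(minusQF m F a b) (S ^ r) hZr'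
  have hn1 : simAut ⇑(minusQF m F a b) n = 1 := by
    rw [← semiAut_simToSemi, hn, map_pow, hx_r]
  obtain ⟨E, hE, hE0⟩ := Cfsg.Agent.Lib.Helper44.minus_ts_three (F := F) m hm a b
  obtain ⟨lam, hlam, hmat⟩ := Cfsg.Agent.Lib.Helper44.scalar_of_simAut_eq_one (minusQF m F a b)
    hQ E hE hE0 n hn1
  have hpow : (((S : SemiGL ((Fin m ⊕ Fin m) ⊕ Fin 2) F) ^ r).left :
      Matrix ((Fin m ⊕ Fin m) ⊕ Fin 2) ((Fin m ⊕ Fin m) ⊕ Fin 2) F) =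
      lam • (1 : Matrix ((Fin m ⊕ Fin m) ⊕ Fin 2) ((Fin m ⊕ Fin m) ⊕ Fin 2) F) := by
    rw [← hmat, ← simToSemi_left ⇑(minusQF m F a b) n, hn, Subgroup.coe_pow]
  obtain ⟨A, ν, κ, hA, hν, hκ, hA1, hA2⟩ := exists_frame m a b hab
    (S : SemiGL ((Fin m ⊕ Fin m) ⊕ Fin 2) F) S.2 r (by rw [hSr]; exact hσr) hr.pos lam hlam hpow
    a' b' (by rw [hSr]; exact hσa) (by rw [hSr]; exact hσb) hab'
  exact ⟨a', b', σ, S, A, ν, κ, hab', hσa, hσb, hσr, hS, hSr, hA, hν, hκ, hA1, hA2⟩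

/-- A non-identity automorphism of prime order fixing the coefficients of an anisotropic binary
form has odd order. -/
theorem odd_of_fixed_aniso (σ : RingAut F) (r : ℕ) (hr : r.Prime) (hσr : orderOf σ = r)
    (a' b' : F)
    (hab' : ∀ z₁ z₂ : F, z₁ ^ 2 + a' * z₁ * z₂ + b' * z₂ ^ 2 = 0 → z₁ = 0 ∧ z₂ = 0)
    (hσa : σ a' = a') (hσb : σ b' = b') : Odd r := by
  rcases hr.eq_two_or_odd' with h2 | hodd
  · exfalso
    haveI : Fintype (fixF σ) := Fintype.ofFinite _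
    have hc := card_fixF_pow σ
    rw [hσr, h2, Nat.card_eq_fintype_card, Nat.card_eq_fintype_card] at hc
    obtain ⟨α, β, -, hsum, hprod⟩ := Cfsg.Agent.Lib.Helper45.exists_roots_of_anisotropic
      (F := fixF σ) (K := F) rfl hc.symm (fixF σ).subtype
      ⟨a', (mem_fixF σ).mpr hσa⟩ ⟨b', (mem_fixF σ).mpr hσb⟩ (by
        intro z₁ z₂ h
        have h' := hab' (z₁ : F) (z₂ : F) (by
          have e := congrArg (fun y : fixF σ => (y : F)) h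
          simpa using e)
        exact ⟨Subtype.ext h'.1, Subtype.ext h'.2⟩)
    have hsum' : α + β = -a' := hsum
    have hprod' : α * β = b' := hprod
    have h := hab' α 1 (by linear_combination α * hsum' - hprod')
    exact one_ne_zero h.2
  · exact hodd

/-- The inner automorphisms are inner-diagonal. -/
theorem inn_le_hp (m : ℕ) (hm2 : 2 ≤ m) (a b : F)
    (hab : ∀ z₁ z₂ : F, z₁ ^ 2 + a * z₁ * z₂ + b * z₂ ^ 2 = 0 → z₁ = 0 ∧ z₂ = 0)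
    (Qf : ((Fin m ⊕ Fin m) ⊕ Fin 2 → F) → F) (hQf : ⇑(minusQF m F a b) = Qf) :
    Cfsg.Inn (Cfsg.POmega F Qf) ≤ (hpSub m hm2 a b hab Qf hQf).map (simAut Qf) := by
  subst hQf
  have hQ := Cfsg.Agent.Lib.Helper44.minusQF_nondegenerate_all m F a b hab
  have hcd := Cfsg.Agent.Lib.Helper44.exists_eq_prodElt_all (minusQF m F a b) hQ
    (Or.inr (by rw [minus_card_idx]; omega))
  rw [Cfsg.Agent.Lib.Helper44.inn_eq_map]
  rintro β ⟨ω, hω, rfl⟩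
  refine ⟨⟨ω, Cfsg.Agent.Lib.Helper44.isometryGroup_le_sim _ ω.2⟩, ?_, simAut_of_isom _ ω _ rfl⟩
  exact (minus_preserves_iff_rank m hm2 a b hab ω).mpr
    (Cfsg.Agent.Lib.Helper44.even_rank_of_mem_commutator (minusQF m F a b) hQ hcd hω)

variable {F₀ : Type u₀} [Field F₀] [Fintype F₀]

/-- Non-squares of the subfield stay non-squares in an extension of odd degree. -/
theorem not_isSquare_map_of_odd (h2 : (2 : F) ≠ 0) (j : F₀ →+* F) {r : ℕ} (hr : Odd r)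
    (hq : Fintype.card F = Fintype.card F₀ ^ r) (c₀ : F₀) (hc₀ : ¬ IsSquare c₀) :
    ¬ IsSquare (j c₀) := by
  obtain ⟨c₁, hc₁⟩ := Cfsg.Agent.Lib.Helper8.OCent.exists_not_isSquare_of_card_odd_pow h2 j hr hq
  have hc₁' : ¬ IsSquare c₁ := by
    rintro ⟨s, hs⟩
    exact hc₁ ⟨j s, by rw [hs, map_mul]⟩
  obtain ⟨y, hy⟩ := isSquare_mul_of_not_isSquare hc₀ hc₁'
  have hc₀0 : c₀ ≠ 0 := fun h => hc₀ ⟨0, by rw [h, mul_zero]⟩
  have hjc₀ : j c₀ ≠ 0 := (map_ne_zero j).mpr hc₀0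
  rintro ⟨z, hz⟩
  have hz0 : z ≠ 0 := by
    rintro rfl
    exact hjc₀ (by rw [hz, mul_zero])
  apply hc₁
  refine ⟨j y / z, ?_⟩
  have e : j c₀ * j c₁ = j y * j y := by rw [← map_mul, hy, map_mul]
  rw [hz] at e
  field_simp
  linear_combination e

set_option maxHeartbeats 1600000 in
/-- **Field automorphisms of prime order of `PΩ⁻`**, for a general carrier function. -/
theorem field_aut_main_minus_aux (m : ℕ) (hm : 3 ≤ m) (hm2 : 2 ≤ m) (a b : F)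
    (hab : ∀ z₁ z₂ : F, z₁ ^ 2 + a * z₁ * z₂ + b * z₂ ^ 2 = 0 → z₁ = 0 ∧ z₂ = 0)
    (Qf : ((Fin m ⊕ Fin m) ⊕ Fin 2 → F) → F) (hQf : ⇑(minusQF m F a b) = Qf)
    (x : MulAut (Cfsg.POmega F Qf))
    (hx : ∃ (a' b' : F) (ψ : Cfsg.POmega F Qf ≃* Cfsg.POmega F (Cfsg.quadFormMinus m F a' b'))
      (σ : F ≃+* F),
      (∀ z₁ z₂ : F, z₁ ^ 2 + a' * z₁ * z₂ + b' * z₂ ^ 2 = 0 → z₁ = 0 ∧ z₂ = 0) ∧
      σ ≠ RingEquiv.refl F ∧ σ a' = a' ∧ σ b' = b' ∧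
      Cfsg.IsFieldAutPOmegaOf (Cfsg.quadFormMinus m F a' b') σ ((ψ.symm.trans x).trans ψ))
    {p f : ℕ} [Fact p.Prime] (hF : Fintype.card F = p ^ f)
    (r : ℕ) (hr : r.Prime) (hxr : orderOf x = r)
    (hF₀ : Fintype.card F₀ = p ^ (f / r)) :
    Odd r ∧ r ∣ f ∧ ∃ (a₀ b₀ : F₀)
      (hab₀ : ∀ z₁ z₂ : F₀, z₁ ^ 2 + a₀ * z₁ * z₂ + b₀ * z₂ ^ 2 = 0 → z₁ = 0 ∧ z₂ = 0),
      (∀ (Q₀f : ((Fin m ⊕ Fin m) ⊕ Fin 2 → F₀) → F₀) (hQ₀f : ⇑(minusQF m F₀ a₀ b₀) = Q₀f),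
        Nonempty (↥((hpSub m hm2 a b hab Qf hQf).map (simAut Qf) ⊓ Subgroup.centralizer {x}) ≃*
          ↥((hpSub m hm2 a₀ b₀ hab₀ Q₀f hQ₀f).map (simAut Q₀f)))) ∧
      (hpSub m hm2 a b hab Qf hQf).map (simAut Qf) ≤
        Cfsg.Inn (Cfsg.POmega F Qf) ⊔
          ((hpSub m hm2 a b hab Qf hQf).map (simAut Qf) ⊓ Subgroup.centralizer {x}) := by
  obtain ⟨a', b', σ, S, A, ν, κ, hab', hσa, hσb, hσr, hSx, hSr, hA, hν, hκ, h1, h2⟩ :=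
    field_aut_setup m hm a b hab Qf hQf x hx r hr hxr
  subst hQf
  have hodd := odd_of_fixed_aniso σ r hr hσr a' b' hab' hσa hσb
  obtain ⟨hdiv, hc0⟩ := card_fixF_eq hF σ hr.pos hσr
  haveI : Fintype (fixF σ) := Fintype.ofFinite _
  have hcard : Fintype.card F₀ = Fintype.card (fixF σ) := by
    rw [hF₀, ← hc0, Nat.card_eq_fintype_card]
  obtain ⟨ι⟩ : Nonempty (F₀ ≃+* fixF σ) := ⟨FiniteField.ringEquivOfCardEq hcard⟩
  obtain ⟨j, hjdef⟩ : ∃ j : F₀ →+* F, j = (fixF σ).subtype.comp (ι : F₀ →+* fixF σ) :=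
    ⟨_, rfl⟩
  have hj : IsFixEmb σ j := by
    intro y
    constructor
    · intro hy
      refine ⟨ι.symm ⟨y, (mem_fixF σ).mpr hy⟩, ?_⟩
      rw [hjdef]
      change ((ι (ι.symm ⟨y, (mem_fixF σ).mpr hy⟩) : fixF σ) : F) = y
      rw [RingEquiv.apply_symm_apply]
    · rintro ⟨z, rfl⟩
      rw [hjdef]
      exact (mem_fixF σ).mp (ι z).2
  have hq := Cfsg.Agent.Lib.Helper8.OCent.card_eq_pow_order σ j hj
  rw [hσr] at hq
  obtain ⟨a₀, ha₀⟩ := (hj a').mp hσa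
  obtain ⟨b₀, hb₀⟩ := (hj b').mp hσb
  subst ha₀ hb₀
  have hab₀ : ∀ z₁ z₂ : F₀, z₁ ^ 2 + a₀ * z₁ * z₂ + b₀ * z₂ ^ 2 = 0 → z₁ = 0 ∧ z₂ = 0 := by
    intro z₁ z₂ h
    have h' := hab' (j z₁) (j z₂) (by
      rw [← map_pow, ← map_pow, ← map_mul, ← map_mul, ← map_mul, ← map_add, ← map_add, h,
        map_zero])
    exact ⟨j.injective (by rw [h'.1, map_zero]), j.injective (by rw [h'.2, map_zero])⟩
  rw [← hSr] at hj
  have hns : (2 : F) ≠ 0 → ∀ c₀ : F₀, ¬ IsSquare c₀ → ¬ IsSquare (j c₀) :=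
    fun h2c c₀ hc₀ => not_isSquare_map_of_odd h2c j hodd hq c₀ hc₀
  refine ⟨hodd, hdiv, a₀, b₀, hab₀, ?_, ?_⟩
  · intro Q₀f hQ₀f
    rw [← hSx]
    exact centralizer_equiv_minus j m hm hm2 a b hab a₀ b₀ hab₀ S hj A ν κ hA hν hκ h1 h2 Q₀f
      hQ₀f
  · rw [← hSx]
    exact inndiag_le_sup j m hm hm2 a b hab a₀ b₀ hab₀ hns S hj A ν κ hA hν hκ h1 h2

/-- **Field automorphisms of prime order of `PΩ⁻_{2m+2}(F)`.** -/
theorem field_aut_main_minus {p f : ℕ} [Fact p.Prime] (hF : Fintype.card F = p ^ f)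
    {m : ℕ} (hm : 3 ≤ m) (a b : F)
    (hab : ∀ z₁ z₂ : F, z₁ ^ 2 + a * z₁ * z₂ + b * z₂ ^ 2 = 0 → z₁ = 0 ∧ z₂ = 0)
    (x : MulAut (Cfsg.POmega F (Cfsg.quadFormMinus m F a b)))
    (hx : Cfsg.IsFieldAutClassPOmegaMinus m x) {r : ℕ} (hr : r.Prime) (hxr : orderOf x = r)
    (hF₀ : Fintype.card F₀ = p ^ (f / r)) :
    Odd r ∧ r ∣ f ∧
      (∃ a₀ b₀ : F₀, (∀ z₁ z₂ : F₀, z₁ ^ 2 + a₀ * z₁ * z₂ + b₀ * z₂ ^ 2 = 0 → z₁ = 0 ∧ z₂ = 0) ∧
        Nonempty (↥(Cfsg.inndiagPOmegaMinus m F a b ⊓ Subgroup.centralizer {x}) ≃*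
          ↥(Cfsg.inndiagPOmegaMinus m F₀ a₀ b₀))) ∧
      Cfsg.splitClassCount (Cfsg.inndiagPOmegaMinus m F a b)
        (Cfsg.Inn (Cfsg.POmega F (Cfsg.quadFormMinus m F a b))) x = 1 := by
  have hm2 : 2 ≤ m := by omega
  obtain ⟨hodd, hdiv, a₀, b₀, hab₀, hiso, hle⟩ := field_aut_main_minus_aux m hm hm2 a b hab _
    (minusQF_coe m F a b) x hx hF r hr hxr (F₀ := F₀) hF₀
  refine ⟨hodd, hdiv, ⟨a₀, b₀, hab₀, ?_⟩, ?_⟩
  · rw [inndiag_eq_map m hm2 a b hab, inndiag_eq_map m hm2 a₀ b₀ hab₀]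
    exact hiso _ (minusQF_coe m F₀ a₀ b₀)
  · have hinn : Cfsg.Inn (Cfsg.POmega F (Cfsg.quadFormMinus m F a b)) ≤
        Cfsg.inndiagPOmegaMinus m F a b := by
      rw [inndiag_eq_map m hm2 a b hab]
      exact inn_le_hp m hm2 a b hab _ (minusQF_coe m F a b)
    rw [Cfsg.Agent.Lib.Helper43.FieldAut.splitClassCount_eq _ _ hinn x, Subgroup.relIndex_eq_one,
      inndiag_eq_map m hm2 a b hab]
    exact hle

end main

end Cfsg.Agent.Lib.Helper14
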