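import Mathlib
import Cfsg.Agent.Lib.Helper14.SingPts

set_option autoImplicit false

namespace Cfsg.Agent.Lib.Helper14

open Matrix Module
open scoped Pointwise

section simple

variable {ι : Type} [Fintype ι] [DecidableEq ι] {F : Type*} [Field F]

/-- An isometry fixing every singular point has every singular vector as an eigenvector. -/
theorem eigen_of_fixes (Q : QuadraticForm F (ι → F)) (g : ↥(Cfsg.isometryGroup F ⇑Q))
    (hg : ∀ p : SingPt Q, g • p = p) {x : ι → F} (hx0 : x ≠ 0) (hx : Q x = 0) :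
    ∃ c : F, ((g : Matrix.GeneralLinearGroup ι F) : Matrix ι ι F) *ᵥ x = c • x := by
  have h := congrArg Subtype.val (hg (mkPt Q x hx0 hx))
  have hmem : ((g : Matrix.GeneralLinearGroup ι F) : Matrix ι ι F) *ᵥ x ∈
      (g • mkPt Q x hx0 hx).1 := by
    rw [smul_singPt_val]
    exact ⟨x, Submodule.mem_span_singleton_self x, rfl⟩
  rw [h] at hmem
  have hmem' : ((g : Matrix.GeneralLinearGroup ι F) : Matrix ι ι F) *ᵥ x ∈
      Submodule.span F {x} := hmem
  obtain ⟨c, hc⟩ := Submodule.mem_span_singleton.mp hmem'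
  exact ⟨c, hc.symm⟩

omit [Fintype ι] [DecidableEq ι] in
theorem eigen_perp [Fintype ι] (Q : QuadraticForm F (ι → F)) (G : Matrix ι ι F)
    (hall : ∀ x, x ≠ 0 → Q x = 0 → ∃ c : F, G *ᵥ x = c • x) {a b : ι → F} (ha0 : a ≠ 0)
    (ha : Q a = 0) (hb : Q b = 0) (hab : QuadraticMap.polar ⇑Q a b = 0) {lam : F}
    (hGa : G *ᵥ a = lam • a) : G *ᵥ b = lam • b := by
  by_cases hb0 : b = 0
  · rw [hb0, mulVec_zero, smul_zero]
  obtain ⟨μ, hμ⟩ := hall b hb0 hb
  by_cases hs : a + b = 0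
  · have hba : b = -a := (neg_eq_of_add_eq_zero_right hs).symm
    rw [hba, mulVec_neg, hGa, smul_neg]
  have hQs : Q (a + b) = 0 := by
    rw [QuadraticMap.map_add (⇑Q) a b, ha, hb, hab]; simp
  obtain ⟨ν, hν⟩ := hall (a + b) hs hQs
  rw [mulVec_add, hGa, hμ] at hν
  have e : (lam - ν) • a = (ν - μ) • b := by
    have h0 : lam • a + μ • b - ν • (a + b) = 0 := sub_eq_zero.mpr hν
    have e2 : (lam - ν) • a - (ν - μ) • b = lam • a + μ • b - ν • (a + b) := by module
    rw [h0] at e2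
    exact sub_eq_zero.mp e2
  by_cases hνμ : ν = μ
  · rw [hνμ, sub_self, zero_smul] at e
    have h1 : lam - μ = 0 := by
      rcases smul_eq_zero.mp e with h | h
      · exact h
      · exact absurd h ha0
    rw [hμ, ← sub_eq_zero.mp h1]
  · have hb' : b = ((ν - μ)⁻¹ * (lam - ν)) • a := by
      rw [← smul_smul, e, smul_smul, inv_mul_cancel₀ (sub_ne_zero.mpr hνμ), one_smul]
    rw [hb', mulVec_smul, hGa, smul_smul, smul_smul, mul_comm]

/-- An isometry fixing every singular point is a scalar (dimension at least five). -/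
theorem scalar_of_fixes [Fintype F] (Q : QuadraticForm F (ι → F))
    (hQ : (QuadraticMap.polarBilin Q).Nondegenerate) (hn : 5 ≤ Fintype.card ι)
    (g : ↥(Cfsg.isometryGroup F ⇑Q)) (hg : ∀ p : SingPt Q, g • p = p) :
    ∃ lam : F, ∀ x, ((g : Matrix.GeneralLinearGroup ι F) : Matrix ι ι F) *ᵥ x = lam • x := by
  obtain ⟨G, hG⟩ : ∃ G : Matrix ι ι F,
    G = ((g : Matrix.GeneralLinearGroup ι F) : Matrix ι ι F) := ⟨_, rfl⟩
  rw [← hG]
  have hall : ∀ x, x ≠ 0 → Q x = 0 → ∃ c : F, G *ᵥ x = c • x := by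
    intro x hx0 hx
    rw [hG]
    exact eigen_of_fixes Q g hg hx0 hx
  have hdim3 : 3 ≤ finrank F ↥(⊤ : Submodule F (ι → F)) := by
    rw [finrank_top, Module.finrank_fintype_fun_eq_card]; omega
  obtain ⟨u0, -, hu00, hu0⟩ := Cfsg.Agent.Lib.Helper99.exists_isotropic Q ⊤ hdim3
  obtain ⟨lam, hlam⟩ := hall u0 hu00 hu0
  refine ⟨lam, ?_⟩
  have hsing : ∀ x, Q x = 0 → G *ᵥ x = lam • x := by
    intro x hx
    by_cases hpol : QuadraticMap.polar ⇑Q u0 x = 0
    · exact eigen_perp Q G hall hu00 hu0 hx hpol hlam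
    · have hrank := finrank_le_inf_ker_ker (QuadraticMap.polarBilin Q u0)
        (QuadraticMap.polarBilin Q x)
      have h3 : 3 ≤ finrank F ↥(LinearMap.ker (QuadraticMap.polarBilin Q u0) ⊓
          LinearMap.ker (QuadraticMap.polarBilin Q x)) := by
        rw [Module.finrank_fintype_fun_eq_card] at hrank
        omega
      obtain ⟨z, hz, hz0, hQz⟩ := Cfsg.Agent.Lib.Helper99.exists_isotropic Q _ h3
      have hu0z : QuadraticMap.polar ⇑Q u0 z = 0 := LinearMap.mem_ker.mp hz.1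
      have hxz : QuadraticMap.polar ⇑Q x z = 0 := LinearMap.mem_ker.mp hz.2
      have hGz := eigen_perp Q G hall hu00 hu0 hQz hu0z hlam
      exact eigen_perp Q G hall hz0 hQz hx (by rw [QuadraticMap.polar_comm]; exact hxz) hGz
  have hTop : Cfsg.Agent.Lib.Helper99.QNondegOn Q ⊤ :=
    fun v _ hv => hQ.1 v (fun x => hv x Submodule.mem_top)
  obtain ⟨û, -, hQû, huû⟩ := Cfsg.Agent.Lib.Helper99.exists_hyp_partner Q ⊤ hTop
    (Submodule.mem_top (x := u0)) hu00 hu0
  intro x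
  obtain ⟨m, hm, α, β, rfl⟩ := Cfsg.Agent.Lib.Helper99.hyp_decomp Q
    (Submodule.mem_top (x := u0)) (Submodule.mem_top (x := û)) hu0 hQû huû
    (Submodule.mem_top (x := x))
  have hmq := (Cfsg.Agent.Lib.Helper99.mem_qperp Q u0 û m).mp (Submodule.mem_inf.mp hm).2
  have hQs : Q (m + û - Q m • u0) = 0 := by
    rw [quad_sub_smul, hu0, QuadraticMap.map_add (⇑Q) m û, hQû, hmq.2,
      QuadraticMap.polar_add_left, hmq.1, QuadraticMap.polar_comm (⇑Q) û u0, huû]
    ring
  have e : m + α • u0 + β • û = (m + û - Q m • u0) + (Q m + α) • u0 + (β - 1) • û := by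
    module
  rw [e, mulVec_add, mulVec_add, mulVec_smul, mulVec_smul, hsing _ hQs, hsing u0 hu0,
    hsing û hQû]
  module

/-- An element of `Ω` fixing every singular point is central. -/
theorem mem_center_of_fixes [Fintype F] (Q : QuadraticForm F (ι → F))
    (hQ : (QuadraticMap.polarBilin Q).Nondegenerate) (hn : 5 ≤ Fintype.card ι)
    (g : ↥(commutator ↥(Cfsg.isometryGroup F ⇑Q))) (hg : ∀ p : SingPt Q, g • p = p) :
    g ∈ Subgroup.center ↥(commutator ↥(Cfsg.isometryGroup F ⇑Q)) := by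
  obtain ⟨lam, hlam⟩ := scalar_of_fixes Q hQ hn (g : ↥(Cfsg.isometryGroup F ⇑Q)) hg
  rw [Subgroup.mem_center_iff]
  intro h
  apply Subtype.ext
  apply isom_ext
  show (((h : ↥(Cfsg.isometryGroup F ⇑Q)) : Matrix.GeneralLinearGroup ι F) : Matrix ι ι F) *
    (((g : ↥(Cfsg.isometryGroup F ⇑Q)) : Matrix.GeneralLinearGroup ι F) : Matrix ι ι F) =
    (((g : ↥(Cfsg.isometryGroup F ⇑Q)) : Matrix.GeneralLinearGroup ι F) : Matrix ι ι F) *
    (((h : ↥(Cfsg.isometryGroup F ⇑Q)) : Matrix.GeneralLinearGroup ι F) : Matrix ι ι F)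
  rw [ext_iff_mulVec]
  intro x
  rw [← mulVec_mulVec, ← mulVec_mulVec, hlam, hlam, mulVec_smul]

/-- The Eichler transformations centred at a singular point. -/
def tSet (Q : QuadraticForm F (ι → F)) (U : SingPt Q) : Set ↥(Cfsg.isometryGroup F ⇑Q) :=
  {x | ∃ u ∈ U.1, ∃ w : ι → F, QuadraticMap.polar ⇑Q u w = 0 ∧
    ((x : Matrix.GeneralLinearGroup ι F) : Matrix ι ι F) = eichMat Q u w}

theorem tSet_comm (Q : QuadraticForm F (ι → F)) (U : SingPt Q) :
    ∀ x ∈ tSet Q U, ∀ y ∈ tSet Q U, x * y = y * x := by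
  obtain ⟨u0, hu00, hu0, rfl⟩ := exists_rep Q U
  rintro x ⟨u, hu, w, huw, hx⟩ y ⟨u', hu', w', huw', hy⟩
  have hu2 : u ∈ Submodule.span F {u0} := hu
  have hu2' : u' ∈ Submodule.span F {u0} := hu'
  obtain ⟨c, rfl⟩ := Submodule.mem_span_singleton.mp hu2
  obtain ⟨c', rfl⟩ := Submodule.mem_span_singleton.mp hu2'
  rw [eichMat_smul_left] at hx hy
  have h1 : QuadraticMap.polar ⇑Q u0 (c • w) = 0 := by
    rw [QuadraticMap.polar_smul_right, ← QuadraticMap.polar_smul_left]; exact huw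
  have h2 : QuadraticMap.polar ⇑Q u0 (c' • w') = 0 := by
    rw [QuadraticMap.polar_smul_right, ← QuadraticMap.polar_smul_left]; exact huw'
  apply isom_ext
  show ((x : Matrix.GeneralLinearGroup ι F) : Matrix ι ι F) *
    ((y : Matrix.GeneralLinearGroup ι F) : Matrix ι ι F) =
    ((y : Matrix.GeneralLinearGroup ι F) : Matrix ι ι F) *
    ((x : Matrix.GeneralLinearGroup ι F) : Matrix ι ι F)
  rw [hx, hy, eichMat_mul Q hu0 h1 h2, eichMat_mul Q hu0 h2 h1, add_comm]

theorem tSet_conj (Q : QuadraticForm F (ι → F))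
    (hQ : (QuadraticMap.polarBilin Q).Nondegenerate) (g : ↥(Cfsg.isometryGroup F ⇑Q))
    (U : SingPt Q) (x : ↥(Cfsg.isometryGroup F ⇑Q)) (hx : x ∈ tSet Q U) :
    g * x * g⁻¹ ∈ tSet Q (g • U) := by
  obtain ⟨u, hu, w, huw, hx⟩ := hx
  have hu0 : Q u = 0 := U.2.2 u hu
  have hu' : Q (((g : Matrix.GeneralLinearGroup ι F) : Matrix ι ι F) *ᵥ u) = 0 := by
    rw [isom_preserves g u]; exact hu0
  have huw' : QuadraticMap.polar ⇑Q (((g : Matrix.GeneralLinearGroup ι F) : Matrix ι ι F) *ᵥ u)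
      (((g : Matrix.GeneralLinearGroup ι F) : Matrix ι ι F) *ᵥ w) = 0 := by
    rw [polar_mulVec Q _ (isom_preserves g)]; exact huw
  have e : g * x * g⁻¹ = eichElt Q hQ _ _ hu' huw' := by
    rw [mul_inv_eq_iff_eq_mul]
    apply isom_ext
    simp only [Subgroup.coe_mul, Units.val_mul]
    rw [hx, eichElt_coe]
    exact eichMat_conj Q _ (isom_preserves g) u w
  refine ⟨((g : Matrix.GeneralLinearGroup ι F) : Matrix ι ι F) *ᵥ u, ?_,
    ((g : Matrix.GeneralLinearGroup ι F) : Matrix ι ι F) *ᵥ w, huw', ?_⟩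
  · rw [smul_singPt_val]
    exact ⟨u, hu, rfl⟩
  · rw [e]; rfl

theorem closure_tSet_conj (Q : QuadraticForm F (ι → F))
    (hQ : (QuadraticMap.polarBilin Q).Nondegenerate) (g : ↥(Cfsg.isometryGroup F ⇑Q))
    (U : SingPt Q) (x : ↥(Cfsg.isometryGroup F ⇑Q)) (hx : x ∈ Subgroup.closure (tSet Q U)) :
    g * x * g⁻¹ ∈ Subgroup.closure (tSet Q (g • U)) := by
  induction hx using Subgroup.closure_induction with
  | mem x hx => exact Subgroup.subset_closure (tSet_conj Q hQ g U x hx)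
  | one => simp
  | mul x y _ _ hx hy =>
    have : g * (x * y) * g⁻¹ = (g * x * g⁻¹) * (g * y * g⁻¹) := by group
    rw [this]; exact Subgroup.mul_mem _ hx hy
  | inv x _ hx =>
    have : g * x⁻¹ * g⁻¹ = (g * x * g⁻¹)⁻¹ := by group
    rw [this]; exact Subgroup.inv_mem _ hx

/-- The root subgroup of `Ω` attached to a singular point. -/
noncomputable def rootSubgroup (Q : QuadraticForm F (ι → F)) (U : SingPt Q) :
    Subgroup ↥(commutator ↥(Cfsg.isometryGroup F ⇑Q)) :=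
  (Subgroup.closure (tSet Q U)).subgroupOf (commutator ↥(Cfsg.isometryGroup F ⇑Q))

theorem mem_rootSubgroup (Q : QuadraticForm F (ι → F)) (U : SingPt Q)
    (h : ↥(commutator ↥(Cfsg.isometryGroup F ⇑Q))) :
    h ∈ rootSubgroup Q U ↔ (h : ↥(Cfsg.isometryGroup F ⇑Q)) ∈ Subgroup.closure (tSet Q U) :=
  Subgroup.mem_subgroupOf

/-- The Iwasawa structure of `Ω` acting on singular points. -/
noncomputable def omegaIwasawa [Fintype F] (Q : QuadraticForm F (ι → F))
    (hQ : (QuadraticMap.polarBilin Q).Nondegenerate) (hn : 5 ≤ Fintype.card ι) :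
    MulAction.IwasawaStructure ↥(commutator ↥(Cfsg.isometryGroup F ⇑Q)) (SingPt Q) where
  T := rootSubgroup Q
  is_comm U := ⟨⟨by
    rintro ⟨a, ha⟩ ⟨b, hb⟩
    apply Subtype.ext
    apply Subtype.ext
    have hc := Subgroup.isMulCommutative_closure (tSet_comm Q U)
    have := hc.is_comm.comm ⟨a.1, (mem_rootSubgroup Q U a).mp ha⟩
      ⟨b.1, (mem_rootSubgroup Q U b).mp hb⟩
    have h2 : a.1 * b.1 = b.1 * a.1 := congrArg
      (fun z : ↥(Subgroup.closure (tSet Q U)) => (z : ↥(Cfsg.isometryGroup F ⇑Q))) this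
    exact h2⟩⟩
  is_conj g U := by
    ext h
    rw [Subgroup.mem_pointwise_smul_iff_inv_smul_mem, MulAut.smul_def, MulAut.conj_inv_apply,
      mem_rootSubgroup, mem_rootSubgroup]
    constructor
    · intro hh
      have h1 := closure_tSet_conj Q hQ ((g⁻¹ : ↥(commutator ↥(Cfsg.isometryGroup F ⇑Q))) :
        ↥(Cfsg.isometryGroup F ⇑Q)) (g • U) _ hh
      have e : ((g⁻¹ : ↥(commutator ↥(Cfsg.isometryGroup F ⇑Q))) :
          ↥(Cfsg.isometryGroup F ⇑Q)) • (g • U) = U := inv_smul_smul g U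
      rw [e] at h1
      have e2 : ((g⁻¹ * h * g : ↥(commutator ↥(Cfsg.isometryGroup F ⇑Q))) :
          ↥(Cfsg.isometryGroup F ⇑Q)) =
          ((g⁻¹ : ↥(commutator ↥(Cfsg.isometryGroup F ⇑Q))) : ↥(Cfsg.isometryGroup F ⇑Q)) *
            (h : ↥(Cfsg.isometryGroup F ⇑Q)) *
            ((g⁻¹ : ↥(commutator ↥(Cfsg.isometryGroup F ⇑Q))) :
              ↥(Cfsg.isometryGroup F ⇑Q))⁻¹ := by
        rw [Subgroup.coe_mul, Subgroup.coe_mul, Subgroup.coe_inv, inv_inv]
      rw [e2]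
      exact h1
    · intro hh
      have h1 := closure_tSet_conj Q hQ (g : ↥(Cfsg.isometryGroup F ⇑Q)) U _ hh
      have e2 : (g : ↥(Cfsg.isometryGroup F ⇑Q)) *
          ((g⁻¹ * h * g : ↥(commutator ↥(Cfsg.isometryGroup F ⇑Q))) :
            ↥(Cfsg.isometryGroup F ⇑Q)) * (g : ↥(Cfsg.isometryGroup F ⇑Q))⁻¹ =
          (h : ↥(Cfsg.isometryGroup F ⇑Q)) := by
        rw [Subgroup.coe_mul, Subgroup.coe_mul, Subgroup.coe_inv]
        group
      rw [e2] at h1
      exact h1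
  is_generator := by
    rw [eq_top_iff]
    intro h _
    have hK : Subgroup.closure (eichSet Q) ≤
        (⨆ U, rootSubgroup Q U).map (Subgroup.subtype _) := by
      rw [Subgroup.closure_le]
      rintro x ⟨u, w, hu, huw, hx⟩
      by_cases hu0 : u = 0
      · have : x = 1 := by
          apply isom_ext
          rw [hx, hu0, eichMat_zero_left]
          rfl
        rw [this]
        exact Subgroup.one_mem _
      · have hxΩ := eich_mem_omega Q hQ hn hu huw x hx
        have hmem : (⟨x, hxΩ⟩ : ↥(commutator ↥(Cfsg.isometryGroup F ⇑Q))) ∈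
            rootSubgroup Q (mkPt Q u hu0 hu) := by
          rw [mem_rootSubgroup]
          exact Subgroup.subset_closure ⟨u, Submodule.mem_span_singleton_self u, w, huw, hx⟩
        exact ⟨⟨x, hxΩ⟩, Subgroup.mem_iSup_of_mem _ hmem, rfl⟩
    have hh : (h : ↥(Cfsg.isometryGroup F ⇑Q)) ∈ Subgroup.closure (eichSet Q) := by
      rw [← omega_eq_closure_eich Q hQ hn]
      exact h.2
    obtain ⟨h', hh', e⟩ := hK hh
    have : h' = h := Subtype.ext e
    rw [← this]
    exact hh'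

theorem exists_ne_one_omega [Fintype F] (Q : QuadraticForm F (ι → F))
    (hQ : (QuadraticMap.polarBilin Q).Nondegenerate) (hn : 5 ≤ Fintype.card ι) :
    ∃ g : ↥(commutator ↥(Cfsg.isometryGroup F ⇑Q)), g ≠ 1 := by
  have hdim3 : 3 ≤ finrank F ↥(⊤ : Submodule F (ι → F)) := by
    rw [finrank_top, Module.finrank_fintype_fun_eq_card]; omega
  obtain ⟨u0, -, hu00, hu0⟩ := Cfsg.Agent.Lib.Helper99.exists_isotropic Q ⊤ hdim3
  have hTop : Cfsg.Agent.Lib.Helper99.QNondegOn Q ⊤ :=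
    fun v _ hv => hQ.1 v (fun x => hv x Submodule.mem_top)
  obtain ⟨û, -, hQû, huû⟩ := Cfsg.Agent.Lib.Helper99.exists_hyp_partner Q ⊤ hTop
    (Submodule.mem_top (x := u0)) hu00 hu0
  have hû0 : û ≠ 0 := by
    rintro rfl
    rw [QuadraticMap.polar_zero_right] at huû
    exact zero_ne_one huû
  have := omega_pretransitive Q hQ hn
  obtain ⟨g, hg⟩ := MulAction.exists_smul_eq (commutator ↥(Cfsg.isometryGroup F ⇑Q))
    (mkPt Q u0 hu00 hu0) (mkPt Q û hû0 hQû)
  refine ⟨g, ?_⟩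
  rintro rfl
  rw [one_smul] at hg
  have hmem : û ∈ (mkPt Q u0 hu00 hu0).1 := by
    rw [hg]
    exact Submodule.mem_span_singleton_self û
  have hmem' : û ∈ Submodule.span F {u0} := hmem
  obtain ⟨c, rfl⟩ := Submodule.mem_span_singleton.mp hmem'
  rw [QuadraticMap.polar_smul_right, polar_self_eq, hu0] at huû
  simp at huû

/-- `PΩ(Q)` is simple for a non-degenerate quadratic form in dimension at least five over a
finite field. -/
theorem pomega_isSimple [Fintype F] (Q : QuadraticForm F (ι → F))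
    (hQ : (QuadraticMap.polarBilin Q).Nondegenerate) (hn : 5 ≤ Fintype.card ι) :
    IsSimpleGroup (Cfsg.POmega F ⇑Q) := by
  have := omega_preprimitive Q hQ hn
  exact isSimpleGroup_quotient_center_of_iwasawa (omegaIwasawa Q hQ hn) (omega_perfect Q hQ hn)
    (mem_center_of_fixes Q hQ hn) (exists_ne_one_omega Q hQ hn)

theorem pomega_isSimple' [Fintype F] (Qf : (ι → F) → F) (Q : QuadraticForm F (ι → F))
    (hQf : ⇑Q = Qf) (hQ : (QuadraticMap.polarBilin Q).Nondegenerate)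
    (hn : 5 ≤ Fintype.card ι) : IsSimpleGroup (Cfsg.POmega F Qf) := by
  subst hQf
  exact pomega_isSimple Q hQ hn

end simple

end Cfsg.Agent.Lib.Helper14
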